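import Cfsg.Agent.H81.SUPres.Closure
import Cfsg.Agent.H81.SLnPres.TwoGen
import Cfsg.Agent.H81.SLnPres.PresTools

/-!
# The presentation of the unitary group
-/

set_option autoImplicit false
set_option linter.unusedSectionVars false
set_option maxHeartbeats 1000000

namespace Cfsg.Agent.H81.SUPres

open Equiv Matrix Cfsg.Agent.H58.PSUFusion Cfsg.Agent.H64.SLCover
open Cfsg.Agent.H81.SpPres (ap ap_mul ap_one ap_add ap_smul pm pm_single pm_inv pm_mul dg dg_single xg xg_single
  det_dg det_xg gl_ext slPart toGL_slPart cjS toGL_cjS blockHom blk_blockHom)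
open scoped MatrixGroups

variable {F : Type*} [Field F] (I : Cfsg.Agent.H58.PSUFusion.Inv F) [Finite F] {e : ℕ} {M : ℕ}

/-- The data inside the unitary group. -/
def tgt (he : e ≤ 1) : SuBase ↥(SUh I (M + 2) e) I e M :=
  ⟨he, levS, emb, MonoidHom.id _, fun _ => rfl, fun _ => rfl⟩

variable {I}

theorem tgt_xi (he : e ≤ 1) (A : Lev I (M + 2) e) : (tgt (M := M) I he).xi A = levG he A := by
  have hA : A = SuBase.sl (slPart (A : GL (Fin (M + 2)) F)) * dq I 0 ⟨dt A, A.2⟩ := Subtype.ext (by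
    rw [Subgroup.coe_mul, coe_dq]
    show _ = Matrix.SpecialLinearGroup.toGL (slPart (A : GL (Fin (M + 2)) F)) * _
    rw [toGL_slPart]
    exact (inv_mul_cancel_right _ _).symm)
  conv_rhs => rw [hA, map_mul, SuBase.sl, levG_toGL, ← emb_t1 he]
  rfl

theorem mid_fix_wq (m : Fin e) (x : Ix 1 e) :
    mat (wq : ↥(SUh I 1 e)) (.inr (.inl m)) x = (if (.inr (.inl m)) = x then 1 else 0) ∧
      mat (wq : ↥(SUh I 1 e)) x (.inr (.inl m)) = (if x = .inr (.inl m) then 1 else 0) := by
  rw [mat_wq]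
  rcases x with x | x | x <;> simp [b3, Matrix.one_apply]

theorem mid_fix_uu {p : UP I e} (hp : p.1.1 = 0) (m : Fin e) (x : Ix 1 e) :
    mat (uu p) (.inr (.inl m)) x = (if (.inr (.inl m)) = x then 1 else 0) ∧
      mat (uu p) x (.inr (.inl m)) = (if x = .inr (.inl m) then 1 else 0) := by
  rw [uu, mat_uz]
  rcases x with x | x | x <;> simp [b3, Matrix.one_apply, hp, dag_apply]

theorem tgt_rels (he : e ≤ 1) : (tgt (M := M) I he).Rels where
  hd c S S' h := by
    show emb (t1 he c) * levS S * (emb (t1 he c))⁻¹ = levS S'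
    rw [← levG_toGL he S (mem_Lev_of_det I (Units.ext S.2)), ← levG_toGL he S' (mem_Lev_of_det I (Units.ext S'.2)),
      emb_t1, ← map_inv, ← map_mul, ← map_mul]
    congr 1
    exact Subtype.ext (by rw [Subgroup.coe_mul, Subgroup.coe_mul, Subgroup.coe_inv, coe_dq]; exact h.symm)
  hs A l h y := by
    rw [tgt_xi]
    exact blk_conj he h y
  hx c p := by
    have h01 : (0 : Fin (M + 2)) ≠ 1 := by simp
    show Commute (levS (rx 0 1 c)) (emb (uz p.1.1 p.1.2 p.2))
    rw [← levG_toGL he (rx 0 1 c) (mem_Lev_of_det I (Units.ext (rx 0 1 c).2)), emb_uz]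
    obtain ⟨h, e1⟩ := levG_tv he (xq I 0 1 c : Lev I (M + 2) e) (Pi.single 0 1) p.2
    refine mul_inv_eq_iff_eq_mul.1 (e1.trans (tv_congr ?_ ?_ rfl))
    · rw [coe_xq, xg_single h01, if_neg h01]
    · rw [dt_xq, map_one, Units.val_one, one_smul]
  h01u p hp z := by
    rw [tgt_xi]
    exact emb_mid_commute he (mid_fix_uu hp) z (by simp)
  h01w z := by
    rw [tgt_xi]
    exact emb_mid_commute he mid_fix_wq z (by simp)

theorem tgt_mix (he : e ≤ 1) : SuBase.Mix (tgt_rels (I := I) (M := M) he) := by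
  intro c p
  have h01 : (0 : Fin (M + 2)) ≠ 1 := by simp
  set R := tgt_rels (I := I) (M := M) he
  refine ⟨c * p.1.2, ?_⟩
  obtain ⟨g1, e1⟩ := SuBase.f_T R (Pi.single 0 1 + c • Pi.single 1 1) p
  obtain ⟨g2, e2⟩ := SuBase.f_T R (Pi.single 0 1) p
  obtain ⟨g3, e3⟩ := SuBase.f_T R (Pi.single 1 1) (p.sc c)
  have e4 := SuBase.f_oh R h01.symm (c * p.1.2)
  simp only [tgt, MonoidHom.id_apply] at e1 e2 e3 e4
  simp only [tgt]
  rw [e1, e2, e3, e4, tv, tv, tv, nE_mul, nE_mul]
  refine nE_congr ?_ ?_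
  · rw [add_zero]
    ext i j
    simp [Matrix.vecMulVec_apply, UP.sc, add_mul, mul_assoc]
    try (left; ring)
  · have hr : p.1.2 + I.σ p.1.2 + ip I p.1.1 p.1.1 = 0 := p.2
    have hsum : (∑ x, p.1.1 x * (I.σ c * I.σ (p.1.1 x))) = I.σ c * ∑ x, p.1.1 x * I.σ (p.1.1 x) := by
      rw [Finset.mul_sum]; exact Finset.sum_congr rfl fun _ _ => by ring
    ext i j
    simp [Matrix.vecMulVec_apply, Matrix.mul_apply, dag_apply, pairS, Matrix.single, UP.sc, Pi.single_apply,
      apply_ite I.σ, ip] at hr ⊢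
    by_cases hi0 : i = 0 <;> by_cases hi1 : i = 1 <;> by_cases hj0 : j = 0 <;> by_cases hj1 : j = 1 <;>
      simp_all [Ne.symm, ite_and]
    all_goals (first
      | ring1
      | linear_combination (-I.σ c) * hr
      | linear_combination (I.σ c) * hr)

theorem tgt_comm (he : e ≤ 1) (p q : UP I e) :
    ∃ x, (tgt (M := M) I he).T (Pi.single 0 1) p * (tgt (M := M) I he).T (Pi.single 1 1) q =
      (tgt (M := M) I he).T (Pi.single 1 1) q * (tgt (M := M) I he).T (Pi.single 0 1) p *
        SuBase.oh (tgt_rels (I := I) (M := M) he) 1 0 x := by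
  have h01 : (0 : Fin (M + 2)) ≠ 1 := by simp
  set R := tgt_rels (I := I) (M := M) he
  refine ⟨ip I q.1.1 p.1.1, ?_⟩
  obtain ⟨g2, e2⟩ := SuBase.f_T R (Pi.single 0 1) p
  obtain ⟨g3, e3⟩ := SuBase.f_T R (Pi.single 1 1) q
  have e4 := SuBase.f_oh R h01.symm (ip I q.1.1 p.1.1)
  simp only [tgt, MonoidHom.id_apply] at e2 e3 e4
  simp only [tgt]
  rw [e2, e3, e4, tv, tv, nE_mul, nE_mul, nE_mul]
  refine nE_congr (by rw [add_zero]; abel) ?_
  ext i j
  simp [Matrix.vecMulVec_apply, Matrix.mul_apply, dag_apply, pairS, Matrix.single, Pi.single_apply,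
    apply_ite I.σ, ip, map_sum, I.invol]
  by_cases hi0 : i = 0 <;> by_cases hi1 : i = 1 <;> by_cases hj0 : j = 0 <;> by_cases hj1 : j = 1 <;>
    simp_all [Ne.symm, ite_and, mul_comm]

theorem closure_K (he : e ≤ 1) (y : ↥(SUh I 1 e)) : y ∈ Subgroup.closure
    (Set.range (uu : UP I e → ↥(SUh I 1 e)) ∪ (Set.range (t1 he) ∪ {wq})) := by
  set H := Subgroup.closure (Set.range (uu : UP I e → ↥(SUh I 1 e)) ∪ (Set.range (t1 he) ∪ {wq}))
  have htop : H = ⊤ := by
    refine gen_eq_top H he (fun A => ?_) (fun k a s h => ?_) (fun j k hjk x => absurd (Subsingleton.elim j k) hjk)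
      fun k => ⟨wq, Subgroup.subset_closure (Or.inr (Or.inr rfl)), ?_⟩
    · refine Subgroup.subset_closure (Or.inr (Or.inl ⟨⟨dt A, A.2⟩, ?_⟩))
      have hA : A = dq I 0 ⟨dt A, A.2⟩ := by
        refine Subtype.ext (Units.ext (Matrix.ext fun i j => ?_))
        rw [Fin.fin_one_eq_zero i, Fin.fin_one_eq_zero j, coe_dq]
        show _ = Matrix.diagonal (fun a => if a = 0 then ((dt A : Fˣ) : F) else 1) 0 0
        rw [Matrix.diagonal_apply_eq, if_pos rfl, dt_apply]
        exact (Matrix.det_fin_one _).symm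
      apply ext_mat
      conv_rhs => rw [hA]
      rw [mat_t1, mat_levG, dt_dq]
      have e2 : ((((dg (0 : Fin 1) (dt A)) : GL (Fin 1) F)⁻¹ : GL (Fin 1) F) : Matrix (Fin 1) (Fin 1) F) =
          Matrix.diagonal fun a => if a = 0 then (((dt A)⁻¹ : Fˣ) : F) else 1 := rfl
      rw [coe_dq, e2]
      congr 1 <;> ext i j <;>
        simp [Fin.fin_one_eq_zero, dag_apply, map_inv₀, dg]
    · refine Subgroup.subset_closure (Or.inl ⟨⟨(a, s), h⟩, ?_⟩)
      rw [uu, uz, tv]
      refine nE_congr ?_ ?_ <;> ext i j <;> simp [Matrix.vecMulVec_apply, Fin.fin_one_eq_zero]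
    · rw [mat_wq, wM]
      congr 1 <;> ext i j <;> simp [Fin.fin_one_eq_zero, Matrix.diagonal_apply]
  rw [htop]; exact Subgroup.mem_top y

theorem exists_pu (he : e ≤ 1) : ∃ pu : UP I e, ∀ a : Fin e → F, ∃ x : F, a = x • pu.1.1 := by
  interval_cases e
  · exact ⟨UP.zero, fun a => ⟨0, funext fun i => i.elim0⟩⟩
  · obtain ⟨t, ht⟩ := I.exists_trace (-1) (by simp)
    refine ⟨⟨(fun _ => 1, t), ?_⟩, fun a => ⟨a 0, funext fun i => by simp [Fin.fin_one_eq_zero]⟩⟩
    simp [Rel, ip]
    linear_combination ht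

/-- The presentation of the unitary group. -/
theorem su_pres (he : e ≤ 1) {κ κ' : Type} [Fintype κ] [Fintype κ']
    (R : Finset (FreeGroup κ)) (eS : PresentedGroup (↑R : Set (FreeGroup κ)) ≃* SL(M + 2, F))
    (R2 : Finset (FreeGroup κ')) (eL : PresentedGroup (↑R2 : Set (FreeGroup κ')) ≃* ↥(SUh I 1 e))
    (xB : Fin 2 → SL(M + 1, F)) (hxB : Subgroup.closure (Set.range xB) = ⊤) :
    ∃ R' : Finset (FreeGroup (κ ⊕ κ')), R'.card ≤ R.card + R2.card + 12 + 5 * Fintype.card κ' ∧
      Nonempty (PresentedGroup (↑R' : Set (FreeGroup (κ ⊕ κ'))) ≃* ↥(SUh I (M + 2) e)) := by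
  classical
  haveI : Fintype F := Fintype.ofFinite F
  obtain ⟨g, hg⟩ := IsCyclic.exists_generator (α := Dl I e)
  obtain ⟨z, hz⟩ := IsCyclic.exists_generator (α := Fˣ)
  obtain ⟨s1, s2, hS⟩ := SLnPres.exists_two_gen (F := F) M
  obtain ⟨pu, hpu⟩ := exists_pu (I := I) he
  let xS : Fin 2 → SL(M + 2, F) := ![s1, s2]
  have hxS : Subgroup.closure (Set.range xS) = ⊤ := by rwa [Matrix.range_cons_cons_empty]
  let y : κ' → ↥(SUh I 1 e) := fun j => eL (PresentedGroup.of j)
  have hy : Subgroup.closure (Set.range y) = ⊤ := by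
    rw [show Set.range y = eL.toMonoidHom '' Set.range PresentedGroup.of from Set.range_comp _ _,
      ← MonoidHom.map_closure, PresentedGroup.closure_range_of]
    exact Subgroup.map_top_of_surjective _ eL.surjective
  -- words
  have hπS : Function.Surjective fun w : FreeGroup κ => eS (PresentedGroup.mk _ w) :=
    eS.surjective.comp (PresentedGroup.mk_surjective _)
  have hπL : Function.Surjective fun w : FreeGroup κ' => eL (PresentedGroup.mk _ w) :=
    eL.surjective.comp (PresentedGroup.mk_surjective _)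
  let W := FreeGroup (κ ⊕ κ')
  let wS : SL(M + 2, F) → W := fun s => FreeGroup.map Sum.inl (Function.surjInv hπS s)
  let wL : ↥(SUh I 1 e) → W := fun s => FreeGroup.map Sum.inr (Function.surjInv hπL s)
  let wxi : Lev I (M + 2) e → W := fun A => wS (slPart (A : GL (Fin (M + 2)) F)) * wL (t1 he ⟨dt A, A.2⟩)
  let com : W → W → W := fun a b => a * b * (b * a)⁻¹
  let cj : W → W → W := fun a b => a * b * a⁻¹
  let wπ : W := wxi SuBase.π01
  let cs : Fin 2 → F := ![1, (z : F)]
  let ps : Fin 2 → UP I e := ![pu, UP.lo I.ξ I.ξ_trace]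
  have hR0 := tgt_rels (I := I) (M := M) he
  have hM0 := tgt_mix (I := I) (M := M) he
  let mx : Fin 2 × Fin 2 → F := fun ij => (hM0 (cs ij.1) (ps ij.2)).choose
  let cx : Fin 2 → F := fun i => (tgt_comm (M := M) he pu (pu.sc (cs i))).choose
  let woh : F → W := fun x => cj (wL wq) (wS (rx 1 0 (-x / I.ξ)))
  let rA : Finset W := Finset.univ.image fun i => cj (wL (t1 he g)) (wS (xS i)) * (wS (cjS (g : Fˣ) (xS i)))⁻¹
  let rB : Finset W := (Finset.univ ×ˢ Finset.univ).image fun ij : Fin 2 × κ' =>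
    com (wS (blockHom (xB ij.1))) (wL (y ij.2))
  let rC : Finset W := Finset.univ.image fun j : κ' => cj (wS (tS M z)) (wL (y j)) * (wL (sig I z 1 (y j)))⁻¹
  let rD : Finset W := (Finset.univ ×ˢ Finset.univ).image fun ij : Fin 2 × Fin 2 =>
    com (wS (rx 0 1 (cs ij.1))) (wL (uu (ps ij.2)))
  let rE : Finset W := Finset.univ.image fun j : κ' => com (wL (uu (UP.lo I.ξ I.ξ_trace))) (cj wπ (wL (y j)))
  let rF : Finset W := Finset.univ.image fun j : κ' => com (wL wq) (cj wπ (wL (y j)))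
  let rM : Finset W := (Finset.univ ×ˢ Finset.univ).image fun ij : Fin 2 × Fin 2 =>
    cj (wS (rx 1 0 (cs ij.1))) (wL (uu (ps ij.2))) *
      (wL (uu (ps ij.2)) * cj wπ (wL (uu ((ps ij.2).sc (cs ij.1)))) * woh (mx ij))⁻¹
  let rN : Finset W := Finset.univ.image fun i : Fin 2 =>
    wL (uu pu) * cj wπ (wL (uu (pu.sc (cs i)))) *
      (cj wπ (wL (uu (pu.sc (cs i)))) * wL (uu pu) * woh (cx i))⁻¹
  let rG : Finset W := R.image (FreeGroup.map Sum.inl) ∪ R2.image (FreeGroup.map Sum.inr)
  let R' : Finset W := rG ∪ (rA ∪ (rB ∪ (rC ∪ (rD ∪ (rE ∪ (rF ∪ (rM ∪ rN)))))))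
  have hcard : R'.card ≤ R.card + R2.card + 12 + 5 * Fintype.card κ' := by
    have hA : rA.card ≤ 2 := Finset.card_image_le.trans (by simp)
    have hB : rB.card ≤ 2 * Fintype.card κ' := Finset.card_image_le.trans (by simp)
    have hC : rC.card ≤ Fintype.card κ' := Finset.card_image_le.trans (by simp)
    have hD : rD.card ≤ 4 := Finset.card_image_le.trans (by simp)
    have hE : rE.card ≤ Fintype.card κ' := Finset.card_image_le.trans (by simp)
    have hF : rF.card ≤ Fintype.card κ' := Finset.card_image_le.trans (by simp)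
    have hM : rM.card ≤ 4 := Finset.card_image_le.trans (by simp)
    have hN : rN.card ≤ 2 := Finset.card_image_le.trans (by simp)
    have hG : rG.card ≤ R.card + R2.card :=
      (Finset.card_union_le _ _).trans (Nat.add_le_add Finset.card_image_le Finset.card_image_le)
    have h8 := Finset.card_union_le rM rN
    have h7 := Finset.card_union_le rF (rM ∪ rN)
    have h6 := Finset.card_union_le rE (rF ∪ (rM ∪ rN))
    have h5 := Finset.card_union_le rD (rE ∪ (rF ∪ (rM ∪ rN)))
    have h4 := Finset.card_union_le rC (rD ∪ (rE ∪ (rF ∪ (rM ∪ rN))))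
    have h3 := Finset.card_union_le rB (rC ∪ (rD ∪ (rE ∪ (rF ∪ (rM ∪ rN)))))
    have h2 := Finset.card_union_le rA (rB ∪ (rC ∪ (rD ∪ (rE ∪ (rF ∪ (rM ∪ rN))))))
    have h1 : R'.card ≤ rG.card + _ := Finset.card_union_le _ _
    omega
  refine ⟨R', hcard, ?_⟩
  -- inside the target
  let fg : κ ⊕ κ' → ↥(SUh I (M + 2) e) :=
    Sum.elim (fun i => levS (eS (PresentedGroup.of i))) (fun j => emb (eL (PresentedGroup.of j)))
  have hfl : ∀ w : FreeGroup κ, FreeGroup.lift fg (FreeGroup.map Sum.inl w) = levS (eS (PresentedGroup.mk _ w)) :=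
    fun w => DFunLike.congr_fun (FreeGroup.ext_hom ((FreeGroup.lift fg).comp (FreeGroup.map Sum.inl))
      ((levS.comp eS.toMonoidHom).comp (PresentedGroup.mk _)) fun i => by simp [fg]; rfl) w
  have hfr : ∀ w : FreeGroup κ', FreeGroup.lift fg (FreeGroup.map Sum.inr w) = emb (eL (PresentedGroup.mk _ w)) :=
    fun w => DFunLike.congr_fun (FreeGroup.ext_hom ((FreeGroup.lift fg).comp (FreeGroup.map Sum.inr))
      ((emb.comp eL.toMonoidHom).comp (PresentedGroup.mk _)) fun i => by simp [fg]; rfl) w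
  have tS' : ∀ s, FreeGroup.lift fg (wS s) = (tgt (M := M) I he).Φ s := fun s => by
    simp only [wS, hfl]; exact congrArg levS (Function.surjInv_eq hπS s)
  have tL : ∀ s, FreeGroup.lift fg (wL s) = (tgt (M := M) I he).κ s := fun s => by
    simp only [wL, hfr]; exact congrArg emb (Function.surjInv_eq hπL s)
  have txi : ∀ A, FreeGroup.lift fg (wxi A) = (tgt (M := M) I he).xi A := fun A => by
    simp only [wxi, map_mul, tS', tL]; rfl
  have toh : ∀ x, FreeGroup.lift fg (woh x) = SuBase.oh hR0 1 0 x := fun x => by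
    simp only [woh, cj, map_mul, map_inv, tS', tL, SuBase.oh, SuBase.wk_zero, SuBase.Xi_xq]
  have tT0 : ∀ p, (tgt (M := M) I he).T (Pi.single 0 1) p = (tgt (M := M) I he).κ (uu p) := fun p => by
    rw [SuBase.T_single hR0, SuBase.Lk_zero]
  have tT1 : ∀ p, (tgt (M := M) I he).T (Pi.single 1 1) p =
      (tgt (M := M) I he).xi SuBase.π01 * (tgt (M := M) I he).κ (uu p) * ((tgt (M := M) I he).xi SuBase.π01)⁻¹ :=
    fun p => by rw [SuBase.T_single hR0, SuBase.Lk_apply]; rfl
  have tTc : ∀ (c : F) p, (tgt (M := M) I he).T (Pi.single 0 1 + c • Pi.single 1 1) p =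
      (tgt (M := M) I he).Φ (rx 1 0 c) * (tgt (M := M) I he).κ (uu p) * ((tgt (M := M) I he).Φ (rx 1 0 c))⁻¹ :=
    fun c p => by
      have := SuBase.T_eq hR0 (xq I 1 0 c) p
      rw [coe_xq, xg_single (by simp), if_pos rfl, dt_xq, UP.tw_one, SuBase.Xi_xq] at this
      exact this.symm
  have tcom : ∀ a b, Commute (FreeGroup.lift fg a) (FreeGroup.lift fg b) → FreeGroup.lift fg (com a b) = 1 :=
    fun a b h => by simp only [com, map_mul, map_inv]; rw [h.eq, mul_inv_cancel]
  have hA : ∀ r ∈ (↑R' : Set W), FreeGroup.lift fg r = 1 := by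
    intro r hr
    simp only [R', rG, rA, rB, rC, rD, rE, rF, rM, rN, Finset.coe_union, Finset.coe_image,
      Set.mem_union, Set.mem_image, Finset.mem_coe, Finset.mem_univ, Finset.mem_product, and_self, true_and] at hr
    rcases hr with (⟨x, hx, rfl⟩ | ⟨x, hx, rfl⟩) | ⟨i, rfl⟩ | ⟨ij, rfl⟩ | ⟨j, rfl⟩ | ⟨ij, rfl⟩ | ⟨j, rfl⟩ |
      ⟨j, rfl⟩ | ⟨ij, rfl⟩ | ⟨i, rfl⟩
    · rw [hfl, PresentedGroup.one_of_mem (Finset.mem_coe.2 hx), map_one, map_one]
    · rw [hfr, PresentedGroup.one_of_mem (Finset.mem_coe.2 hx), map_one, map_one]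
    · simp only [cj, map_mul, map_inv, tS', tL]
      rw [mul_inv_eq_one]
      exact hR0.hd g _ _ (toGL_cjS _ _)
    · refine tcom _ _ ?_
      rw [tS', tL]
      have hb := blk_blockHom (xB ij.1)
      have := SuBase.blk hR0 (SuBase.sl (blockHom (xB ij.1))) (l := 1)
        ⟨by rw [Units.val_one, one_smul]; exact hb.1, hb.2⟩ (y ij.2)
      rw [SuBase.Xi_sl, SuBase.dt_sl, sig_one] at this
      exact mul_inv_eq_iff_eq_mul.1 this
    · simp only [cj, map_mul, map_inv, tS', tL]
      rw [mul_inv_eq_one]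
      have hb : BlkL ((SuBase.sl (tS M z) : Lev I (M + 2) e) : GL (Fin (M + 2)) F) z := by
        have hd' := dia_blk (M := M) (I := I) (e := e) z z⁻¹ (one_mem_Dl' z)
        show BlkL (Matrix.SpecialLinearGroup.toGL (tS M z)) z
        rw [toGL_tS]; exact hd'
      have := SuBase.blk hR0 (SuBase.sl (tS M z)) hb (y j)
      rwa [SuBase.Xi_sl, SuBase.dt_sl] at this
    · refine tcom _ _ ?_
      rw [tS', tL]
      exact hR0.hx _ _
    · refine tcom _ _ ?_
      simp only [cj, map_mul, map_inv, wπ, txi, tL]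
      exact hR0.h01u _ rfl _
    · refine tcom _ _ ?_
      simp only [cj, map_mul, map_inv, wπ, txi, tL]
      exact hR0.h01w _
    · simp only [cj, map_mul, map_inv, wπ, txi, tS', tL, toh]
      rw [mul_inv_eq_one, ← tTc, ← tT0, ← tT1]
      exact (hM0 _ _).choose_spec
    · simp only [cj, map_mul, map_inv, wπ, txi, tL, toh]
      rw [mul_inv_eq_one, ← tT0, ← tT1]
      exact (tgt_comm (M := M) he pu (pu.sc (cs i))).choose_spec
  let f : PresentedGroup (↑R' : Set W) →* ↥(SUh I (M + 2) e) := PresentedGroup.toGroup hA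
  -- inside the presented group
  let mk := PresentedGroup.mk (↑R' : Set W)
  have hrel : ∀ r ∈ R', mk r = 1 := fun r hr => PresentedGroup.one_of_mem (Finset.mem_coe.2 hr)
  have hBS : ∀ r ∈ (↑R : Set (FreeGroup κ)),
      FreeGroup.lift (fun i => mk (FreeGroup.of (Sum.inl i))) r = 1 := by
    intro r hr
    rw [show FreeGroup.lift (fun i => mk (FreeGroup.of (Sum.inl i))) r = mk (FreeGroup.map Sum.inl r) from
      DFunLike.congr_fun (FreeGroup.ext_hom (FreeGroup.lift fun i => mk (FreeGroup.of (Sum.inl i)))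
        (mk.comp (FreeGroup.map Sum.inl)) fun i => by simp) r]
    exact hrel _ (Finset.mem_union_left _ (Finset.mem_union_left _
      (Finset.mem_image_of_mem _ (Finset.mem_coe.1 hr))))
  have hBL : ∀ r ∈ (↑R2 : Set (FreeGroup κ')),
      FreeGroup.lift (fun i => mk (FreeGroup.of (Sum.inr i))) r = 1 := by
    intro r hr
    rw [show FreeGroup.lift (fun i => mk (FreeGroup.of (Sum.inr i))) r = mk (FreeGroup.map Sum.inr r) from
      DFunLike.congr_fun (FreeGroup.ext_hom (FreeGroup.lift fun i => mk (FreeGroup.of (Sum.inr i)))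
        (mk.comp (FreeGroup.map Sum.inr)) fun i => by simp) r]
    exact hrel _ (Finset.mem_union_left _ (Finset.mem_union_right _
      (Finset.mem_image_of_mem _ (Finset.mem_coe.1 hr))))
  let ΦB : SL(M + 2, F) →* PresentedGroup (↑R' : Set W) := (PresentedGroup.toGroup hBS).comp eS.symm.toMonoidHom
  let κB : ↥(SUh I 1 e) →* PresentedGroup (↑R' : Set W) := (PresentedGroup.toGroup hBL).comp eL.symm.toMonoidHom
  have gS : ∀ w, ΦB (eS (PresentedGroup.mk _ w)) = mk (FreeGroup.map Sum.inl w) := fun w => by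
    show PresentedGroup.toGroup hBS (eS.symm (eS _)) = _
    rw [MulEquiv.symm_apply_apply]
    exact DFunLike.congr_fun (FreeGroup.ext_hom (FreeGroup.lift fun i => mk (FreeGroup.of (Sum.inl i)))
        (mk.comp (FreeGroup.map Sum.inl)) fun i => by simp) w
  have gL : ∀ w, κB (eL (PresentedGroup.mk _ w)) = mk (FreeGroup.map Sum.inr w) := fun w => by
    show PresentedGroup.toGroup hBL (eL.symm (eL _)) = _
    rw [MulEquiv.symm_apply_apply]
    exact DFunLike.congr_fun (FreeGroup.ext_hom (FreeGroup.lift fun i => mk (FreeGroup.of (Sum.inr i)))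
        (mk.comp (FreeGroup.map Sum.inr)) fun i => by simp) w
  have mS : ∀ s, mk (wS s) = ΦB s := fun s => by
    conv_rhs => rw [← Function.surjInv_eq hπS s]
    exact (gS _).symm
  have mL : ∀ s, mk (wL s) = κB s := fun s => by
    conv_rhs => rw [← Function.surjInv_eq hπL s]
    exact (gL _).symm
  let B : SuBase (PresentedGroup (↑R' : Set W)) I e M :=
    ⟨he, ΦB, κB, f, fun S => by rw [← mS]; exact tS' S, fun s => by rw [← mL]; exact tL s⟩
  have mxi : ∀ A, mk (wxi A) = B.xi A := fun A => by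
    simp only [wxi, map_mul, mS, mL]; rfl
  have mcom : ∀ a b, mk (com a b) = 1 → Commute (mk a) (mk b) := fun a b h => by
    simp only [com, map_mul, map_inv] at h
    exact mul_inv_eq_one.1 h
  have memA : rA ⊆ R' := fun r h => by simp only [R', Finset.mem_union]; tauto
  have memB : rB ⊆ R' := fun r h => by simp only [R', Finset.mem_union]; tauto
  have memC : rC ⊆ R' := fun r h => by simp only [R', Finset.mem_union]; tauto
  have memD : rD ⊆ R' := fun r h => by simp only [R', Finset.mem_union]; tauto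
  have memE : rE ⊆ R' := fun r h => by simp only [R', Finset.mem_union]; tauto
  have memF : rF ⊆ R' := fun r h => by simp only [R', Finset.mem_union]; tauto
  have memM : rM ⊆ R' := fun r h => by simp only [R', Finset.mem_union]; tauto
  have memN : rN ⊆ R' := fun r h => by simp only [R', Finset.mem_union]; tauto
  have hcs : ∀ c : F, (c = 1 ∨ c = (z : F)) → ∃ i, cs i = c := by
    rintro c (rfl | rfl)
    · exact ⟨0, rfl⟩
    · exact ⟨1, rfl⟩
  have hxD : ∀ (k : Fin 2) (c : F), (c = 1 ∨ c = (z : F)) → Commute (B.Φ (rx 0 1 c)) (B.κ (uu (ps k))) := by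
    intro k c hc
    obtain ⟨i, rfl⟩ := hcs c hc
    have := mcom _ _ (hrel _ (memD (Finset.mem_image_of_mem _ (Finset.mk_mem_product (Finset.mem_univ i) (Finset.mem_univ k)))))
    rwa [mS, mL] at this
  have hRels : B.Rels := by
    refine SuBase.rels_of_gens y hy g hg z hz xS hxS xB hxB pu hpu (fun i => ?_) (fun i j => ?_) (fun j => ?_)
      (hxD 0) (hxD 1) (fun j => ?_) (fun j => ?_)
    · have := hrel _ (memA (Finset.mem_image_of_mem _ (Finset.mem_univ i)))
      simp only [cj, map_mul, map_inv, mS, mL] at this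
      exact mul_inv_eq_one.1 this
    · have := mcom _ _ (hrel _ (memB (Finset.mem_image_of_mem _ (Finset.mk_mem_product (Finset.mem_univ i) (Finset.mem_univ j)))))
      rwa [mS, mL] at this
    · have := hrel _ (memC (Finset.mem_image_of_mem _ (Finset.mem_univ j)))
      simp only [cj, map_mul, map_inv, mS, mL] at this
      exact mul_inv_eq_one.1 this
    · have := mcom _ _ (hrel _ (memE (Finset.mem_image_of_mem _ (Finset.mem_univ j))))
      simp only [cj, map_mul, map_inv, wπ, mxi, mL] at this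
      exact this
    · have := mcom _ _ (hrel _ (memF (Finset.mem_image_of_mem _ (Finset.mem_univ j))))
      simp only [cj, map_mul, map_inv, wπ, mxi, mL] at this
      exact this
  have moh : ∀ x, mk (woh x) = SuBase.oh hRels 1 0 x := fun x => by
    simp only [woh, cj, map_mul, map_inv, mS, mL, SuBase.oh, SuBase.wk_zero, SuBase.Xi_xq]
    rfl
  have hMix : SuBase.Mix hRels := by
    refine SuBase.mix_of_seeds hRels z hz pu hpu (fun c hc p hp => ?_) (fun c hc => ?_)
    · obtain ⟨i, rfl⟩ := hcs c hc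
      obtain ⟨k, rfl⟩ : ∃ k, ps k = p := by
        rcases hp with rfl | rfl
        · exact ⟨0, rfl⟩
        · exact ⟨1, rfl⟩
      refine ⟨mx (i, k), ?_⟩
      have := hrel _ (memM (Finset.mem_image_of_mem _ (Finset.mk_mem_product (Finset.mem_univ i) (Finset.mem_univ k))))
      simp only [cj, map_mul, map_inv, wπ, mxi, mS, mL, moh] at this
      exact mul_inv_eq_one.1 this
    · obtain ⟨i, rfl⟩ := hcs c hc
      refine ⟨cx i, ?_⟩
      have := hrel _ (memN (Finset.mem_image_of_mem _ (Finset.mem_univ i)))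
      simp only [cj, map_mul, map_inv, wπ, mxi, mL, moh] at this
      exact mul_inv_eq_one.1 this
  have hgen : Subgroup.closure (Set.range B.Φ ∪ Set.range B.κ) = ⊤ := by
    rw [eq_top_iff, ← PresentedGroup.closure_range_of, Subgroup.closure_le]
    rintro _ ⟨i | j, rfl⟩
    · exact Subgroup.subset_closure (Or.inl ⟨_, (gS (FreeGroup.of i)).trans (by simp [mk]; rfl)⟩)
    · exact Subgroup.subset_closure (Or.inr ⟨_, (gL (FreeGroup.of j)).trans (by simp [mk]; rfl)⟩)
  exact ⟨MulEquiv.ofBijective f (SuBase.bijective hRels hMix hgen (closure_K he))⟩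

end Cfsg.Agent.H81.SUPres
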