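import Cfsg.Agent.H81.SUPres.Levi

/-!
# The parabolic subgroup inside a group glued from `SL_r` and the rank one unitary group
-/

set_option autoImplicit false
set_option linter.unusedSectionVars false
set_option maxHeartbeats 1000000

namespace Cfsg.Agent.H81.SUPres

open Equiv Matrix Cfsg.Agent.H58.PSUFusion Cfsg.Agent.H64.SLCover
open Cfsg.Agent.H81.SpPres (ap ap_mul ap_one ap_add ap_smul pm pm_single pm_inv pm_mul dg dg_single xg xg_single
  det_dg det_xg gl_ext slPart toGL_slPart)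
open scoped MatrixGroups

variable {F : Type*} [Field F] (I : Cfsg.Agent.H58.PSUFusion.Inv F)

/-- The parameters of the unipotent elements of rank one. -/
abbrev UP (e : ℕ) := {p : (Fin e → F) × F // Rel I p.1 p.2}

variable {I} {e : ℕ}

/-- The product of parameters. -/
def UP.mu (p p' : UP I e) : UP I e :=
  ⟨(p.1.1 + p'.1.1, p.1.2 + p'.1.2 - ip I p.1.1 p'.1.1), p.2.mul p'.2⟩

/-- The action of a scalar. -/
def UP.sc (c : F) (p : UP I e) : UP I e := ⟨(c • p.1.1, c * I.σ c * p.1.2), p.2.smul c⟩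

/-- The action of a determinant. -/
def UP.tw (d : Fˣ) (p : UP I e) : UP I e :=
  ⟨((chi I d : F) • p.1.1, p.1.2), p.2.unit (by rw [σ_chi, mul_inv_cancel₀ (Units.ne_zero _)])⟩

theorem UP.tw_one (p : UP I e) : p.tw 1 = p := Subtype.ext (Prod.ext (by simp [UP.tw]) rfl)

theorem UP.tw_of_chi {d : Fˣ} (h : chi I d = 1) (p : UP I e) : p.tw d = p :=
  Subtype.ext (Prod.ext (by simp [UP.tw, h]) rfl)

theorem UP.tw_tw (d d' : Fˣ) (p : UP I e) : (p.tw d').tw d = p.tw (d * d') :=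
  Subtype.ext (Prod.ext (by simp [UP.tw, smul_smul]) rfl)

theorem UP.sc_one (p : UP I e) : p.sc 1 = p := Subtype.ext (Prod.ext (by simp [UP.sc]) (by simp [UP.sc]))

theorem UP.sc_sc (c d : F) (p : UP I e) : (p.sc d).sc c = p.sc (c * d) :=
  Subtype.ext (Prod.ext (by simp [UP.sc, smul_smul]) (by simp [UP.sc]; ring))

theorem UP.sc_tw (c : F) (d : Fˣ) (p : UP I e) : (p.tw d).sc c = (p.sc c).tw d :=
  Subtype.ext (Prod.ext (by simp [UP.sc, UP.tw, smul_smul, mul_comm]) rfl)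

theorem UP.sc_mu (c : F) (p p' : UP I e) : (p.mu p').sc c = (p.sc c).mu (p'.sc c) :=
  Subtype.ext (Prod.ext (by simp [UP.sc, UP.mu, smul_add]) (by simp [UP.sc, UP.mu, ip_smul]; ring))

theorem UP.tw_mu (d : Fˣ) (p p' : UP I e) : (p.mu p').tw d = (p.tw d).mu (p'.tw d) :=
  Subtype.ext (Prod.ext (by simp [UP.tw, UP.mu, smul_add])
    (by simp [UP.tw, UP.mu, ip_smul, σ_chi]))

theorem UP.long_sc {p : UP I e} (h : p.1.1 = 0) (c : F) : (p.sc c).1.1 = 0 := by simp [UP.sc, h]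

theorem UP.long_tw {p : UP I e} (h : p.1.1 = 0) (d : Fˣ) : p.tw d = p :=
  Subtype.ext (Prod.ext (by simp [UP.tw, h]) rfl)

/-- The long parameter. -/
def UP.lo (s : F) (h : s + I.σ s = 0) : UP I e := ⟨(0, s), rel_long.2 h⟩

theorem UP.lo_zero (p : UP I e) (h : p.1.1 = 0) : ∃ hs, p = UP.lo p.1.2 hs := by
  have hs : p.1.2 + I.σ p.1.2 = 0 := by have := p.2; rw [h] at this; exact rel_long.1 this
  exact ⟨hs, Subtype.ext (Prod.ext h rfl)⟩

variable [Finite F]

/-- The unipotent element of a parameter. -/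
def uu (p : UP I e) : ↥(SUh I 1 e) := uz p.1.1 p.1.2 p.2

theorem uu_mu (p p' : UP I e) : uu p * uu p' = uu (p.mu p') := uz_mul p.2 p'.2

theorem sig_uu (l d : Fˣ) (p : UP I e) : sig I l d (uu p) = uu ((p.tw d).sc (l : F)) := by
  obtain ⟨h, e1⟩ := sig_uz l d p.2
  rw [uu, e1]
  exact uz_congr (by simp [UP.sc, UP.tw, smul_smul]) (by simp [UP.sc, UP.tw])

theorem dD_of_chi {d : Fˣ} (h : chi I d = 1) : dD I e 1 d = 1 := by
  rw [dD]; simp [midM, h, sc_one, b3_one]

theorem sig_of_chi {d : Fˣ} (h : chi I d = 1) (y : ↥(SUh I 1 e)) : sig I 1 d y = y := by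
  apply ext_mat
  rw [mat_sig, inv_one, dD_of_chi h, dD_of_chi (by rw [map_inv, h, inv_one]), Matrix.one_mul, Matrix.mul_one]

/-- The data: the two subgroups to be glued, and the map to the unitary group. -/
structure SuBase (G : Type*) [Group G] (I : Cfsg.Agent.H58.PSUFusion.Inv F) (e M : ℕ) where
  /-- the dimension of the anisotropic part -/
  he : e ≤ 1
  /-- the special linear subgroup -/
  Φ : Matrix.SpecialLinearGroup (Fin (M + 2)) F →* G
  /-- the rank one subgroup -/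
  κ : ↥(SUh I 1 e) →* G
  /-- the map to the unitary group -/
  f : G →* ↥(SUh I (M + 2) e)
  fΦ : ∀ S, f (Φ S) = levS S
  fκ : ∀ y, f (κ y) = emb y

variable {G : Type*} [Group G] {M : ℕ}

local notation "Vn" => (Fin (M + 2) → F)
local notation "Ln" => Lev I (M + 2) e

namespace SuBase

variable (B : SuBase G I e M)

/-- The torus element at the first coordinate. -/
def d : Dl I e →* G := B.κ.comp (t1 B.he)

/-- The Levi homomorphism on elements. -/
def xi (A : Ln) : G := B.Φ (slPart (A : GL (Fin (M + 2)) F)) * B.d ⟨dt A, A.2⟩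

/-- The swap of the first two coordinates. -/
def π01 : Ln := pq I (swap 0 1)

/-- The relations of the Levi subgroup and the rank one subgroups. -/
structure Rels : Prop where
  hd : ∀ (c : Dl I e) (S S' : Matrix.SpecialLinearGroup (Fin (M + 2)) F),
    Matrix.SpecialLinearGroup.toGL S' = dg 0 (c : Fˣ) * Matrix.SpecialLinearGroup.toGL S * (dg 0 (c : Fˣ))⁻¹ →
    B.d c * B.Φ S * (B.d c)⁻¹ = B.Φ S'
  hs : ∀ (A : Ln) (l : Fˣ), BlkL (A : GL (Fin (M + 2)) F) l → ∀ y,
    B.xi A * B.κ y * (B.xi A)⁻¹ = B.κ (sig I l (dt A) y)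
  hx : ∀ (c : F) (p : UP I e), Commute (B.Φ (rx 0 1 c)) (B.κ (uu p))
  h01u : ∀ (p : UP I e), p.1.1 = 0 → ∀ z, Commute (B.κ (uu p)) (B.xi π01 * B.κ z * (B.xi π01)⁻¹)
  h01w : ∀ z, Commute (B.κ wq) (B.xi π01 * B.κ z * (B.xi π01)⁻¹)

/-- A representative in `SL_r` of a nonzero vector. -/
noncomputable def repS (v : Vn) : Matrix.SpecialLinearGroup (Fin (M + 2)) F := by
  classical
  exact if h : ∃ S : Matrix.SpecialLinearGroup (Fin (M + 2)) F,
    ap (Matrix.SpecialLinearGroup.toGL S) (Pi.single 0 1) = v then h.choose else 1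

theorem repS_spec {v : Vn} (hv : v ≠ 0) : ap (Matrix.SpecialLinearGroup.toGL (repS v)) (Pi.single 0 1) = v := by
  have h : ∃ S : Matrix.SpecialLinearGroup (Fin (M + 2)) F,
      ap (Matrix.SpecialLinearGroup.toGL S) (Pi.single 0 1) = v := by
    obtain ⟨A, hA⟩ := SpPres.exists_first (0 : Fin (M + 2)) hv
    let A' := A * dg (1 : Fin (M + 2)) (Matrix.GeneralLinearGroup.det A)⁻¹
    have hd : Matrix.GeneralLinearGroup.det A' = 1 := by
      rw [map_mul, det_dg, mul_inv_cancel]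
    refine ⟨⟨(A' : Matrix (Fin (M + 2)) (Fin (M + 2)) F), congrArg Units.val hd⟩, ?_⟩
    show ap A' _ = _
    rw [ap_mul, dg_single, if_neg (by simp), one_smul, hA]
  rw [repS, dif_pos h]
  exact h.choose_spec

/-- The unipotent element of a vector and a parameter. -/
noncomputable def T (v : Vn) (p : UP I e) : G := by
  classical exact if v = 0 then 1 else B.Φ (repS v) * B.κ (uu p) * (B.Φ (repS v))⁻¹

variable {B} (R : B.Rels)

include R

/-- The Levi homomorphism. -/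
def Xi : Ln →* G where
  toFun := B.xi
  map_one' := by
    have e1 : slPart (((1 : Ln) : GL (Fin (M + 2)) F)) = 1 := Matrix.SpecialLinearGroup.toGL_injective (by
      rw [toGL_slPart, OneMemClass.coe_one, map_one, map_one, map_one, inv_one, mul_one])
    have e2 : (⟨dt (1 : Ln), (1 : Ln).2⟩ : Dl I e) = 1 := Subtype.ext (map_one dt)
    rw [SuBase.xi, e1, e2, map_one, map_one, one_mul]
  map_mul' A A' := by
    let a := dt A
    let S' : Matrix.SpecialLinearGroup (Fin (M + 2)) F :=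
      ⟨((dg 0 a * Matrix.SpecialLinearGroup.toGL (slPart (A' : GL (Fin (M + 2)) F)) * (dg 0 a)⁻¹ :
          GL (Fin (M + 2)) F) : Matrix (Fin (M + 2)) (Fin (M + 2)) F), by
        have : Matrix.GeneralLinearGroup.det
            (dg 0 a * Matrix.SpecialLinearGroup.toGL (slPart (A' : GL (Fin (M + 2)) F)) * (dg 0 a)⁻¹) = 1 := by
          rw [toGL_slPart, map_mul, map_mul, map_inv, map_mul, map_inv, det_dg, det_dg, mul_inv_cancel,
            mul_one, mul_inv_cancel]
        exact congrArg Units.val this⟩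
    have hS' : Matrix.SpecialLinearGroup.toGL S' =
        dg 0 a * Matrix.SpecialLinearGroup.toGL (slPart (A' : GL (Fin (M + 2)) F)) * (dg 0 a)⁻¹ := Units.ext rfl
    have e1 : slPart ((A * A' : Ln) : GL (Fin (M + 2)) F) = slPart (A : GL (Fin (M + 2)) F) * S' :=
      Matrix.SpecialLinearGroup.toGL_injective (by
      rw [toGL_slPart, map_mul Matrix.SpecialLinearGroup.toGL, hS', toGL_slPart, toGL_slPart, Subgroup.coe_mul,
        map_mul Matrix.GeneralLinearGroup.det, map_mul (dg 0)]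
      simp only [a, dt_apply, mul_assoc, _root_.mul_inv_rev, inv_mul_cancel_left])
    have e2 : (⟨dt (A * A'), (A * A').2⟩ : Dl I e) = ⟨dt A, A.2⟩ * ⟨dt A', A'.2⟩ := Subtype.ext (map_mul dt A A')
    show B.Φ _ * B.d _ = B.Φ _ * B.d _ * (B.Φ _ * B.d _)
    rw [e1, map_mul B.Φ, e2, map_mul B.d, ← R.hd ⟨dt A, A.2⟩ _ S' hS']
    group

omit R in
/-- An element of `SL_r` in the Levi subgroup. -/
def sl (S : Matrix.SpecialLinearGroup (Fin (M + 2)) F) : Ln :=
  ⟨Matrix.SpecialLinearGroup.toGL S, mem_Lev_of_det I (Units.ext S.2)⟩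

omit R in
theorem dt_sl (S : Matrix.SpecialLinearGroup (Fin (M + 2)) F) : dt (sl S : Ln) = 1 := Units.ext S.2

theorem Xi_sl (S : Matrix.SpecialLinearGroup (Fin (M + 2)) F) : Xi R (sl S) = B.Φ S := by
  have h1 := dt_sl (I := I) (e := e) S
  have e1 : slPart (((sl S : Ln)) : GL (Fin (M + 2)) F) = S := Matrix.SpecialLinearGroup.toGL_injective (by
    rw [toGL_slPart, ← dt_apply, h1, map_one, inv_one, mul_one]; rfl)
  have e2 : (⟨dt (sl S : Ln), (sl S : Ln).2⟩ : Dl I e) = 1 := Subtype.ext h1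
  show B.Φ _ * B.d _ = _
  rw [e1, e2, map_one, mul_one]

theorem Xi_xq (i j : Fin (M + 2)) (t : F) : Xi R (xq I i j t) = B.Φ (rx i j t) := Xi_sl R _

theorem Xi_dq0 (c : Dl I e) : Xi R (dq I 0 c) = B.κ (t1 B.he c) := by
  have e1 : slPart (((dq I 0 c : Ln)) : GL (Fin (M + 2)) F) = 1 := Matrix.SpecialLinearGroup.toGL_injective (by
    rw [toGL_slPart, coe_dq, det_dg, mul_inv_cancel, map_one])
  have e2 : (⟨dt (dq I 0 c : Ln), (dq I 0 c : Ln).2⟩ : Dl I e) = c := Subtype.ext (dt_dq 0 c)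
  show B.Φ _ * B.d _ = _
  rw [e1, e2, map_one, one_mul]
  rfl

theorem blk (A : Ln) {l : Fˣ} (h : BlkL (A : GL (Fin (M + 2)) F) l) (y : ↥(SUh I 1 e)) :
    Xi R A * B.κ y * (Xi R A)⁻¹ = B.κ (sig I l (dt A) y) := R.hs A l h y

theorem f_Xi (A : Ln) : B.f (Xi R A) = levG B.he A := by
  have hA : A = sl (slPart (A : GL (Fin (M + 2)) F)) * dq I 0 ⟨dt A, A.2⟩ := Subtype.ext (by
    rw [Subgroup.coe_mul, coe_dq]
    show _ = Matrix.SpecialLinearGroup.toGL (slPart (A : GL (Fin (M + 2)) F)) * _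
    rw [toGL_slPart]
    exact (inv_mul_cancel_right _ _).symm)
  rw [hA, map_mul, map_mul, map_mul, Xi_sl, Xi_dq0, B.fΦ, B.fκ, emb_t1, sl, levG_toGL]

/-! ### The subgroups at the coordinates -/

/-- The rank one subgroup at the coordinate `k`. -/
def Lk (k : Fin (M + 2)) : ↥(SUh I 1 e) →* G :=
  (MulAut.conj (Xi R (pq I (swap 0 k)))).toMonoidHom.comp B.κ

theorem Lk_apply (k : Fin (M + 2)) (y : ↥(SUh I 1 e)) :
    Lk R k y = Xi R (pq I (swap 0 k)) * B.κ y * (Xi R (pq I (swap 0 k)))⁻¹ := rfl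

omit R in
theorem pq_mul (σ τ : Perm (Fin (M + 2))) : (pq I (σ * τ) : Ln) = pq I σ * pq I τ := Subtype.ext (pm_mul σ τ)

omit R in
theorem pq_one : (pq I (1 : Perm (Fin (M + 2))) : Ln) = 1 :=
  Subtype.ext (gl_ext fun a => by
    rw [coe_pq, pm_single, OneMemClass.coe_one, ap_one]; rfl)

theorem Lk_zero (y : ↥(SUh I 1 e)) : Lk R 0 y = B.κ y := by
  rw [Lk_apply, swap_self]
  show Xi R (pq I 1) * _ * (Xi R (pq I 1))⁻¹ = _
  rw [pq_one, map_one]
  group

omit R in
theorem blk_pm {σ : Perm (Fin (M + 2))} (h : σ 0 = 0) : BlkL (pm σ : GL (Fin (M + 2)) F) 1 := by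
  refine ⟨?_, fun a ha => ?_⟩
  · simp [BlkL.ev', h]
  · rw [pm_single, Pi.single_apply, if_neg]
    intro e1
    exact ha (σ.injective (e1.symm.trans h.symm))

omit R in
theorem blk_xg {i j : Fin (M + 2)} (hij : i ≠ j) (hi : i ≠ 0) (hj : j ≠ 0) (c : F) :
    BlkL (xg i j c : GL (Fin (M + 2)) F) 1 := by
  refine ⟨?_, fun a ha => ?_⟩
  · rw [BlkL.ev', xg_single hij, if_neg hj.symm]; simp
  · rw [xg_single hij]
    split_ifs with h
    · simp [hi.symm, hj.symm]
    · simp [ha.symm]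

theorem Lk_pm (σ : Perm (Fin (M + 2))) (k : Fin (M + 2)) (y : ↥(SUh I 1 e)) :
    Xi R (pq I σ) * Lk R k y * (Xi R (pq I σ))⁻¹ = Lk R (σ k) y := by
  let ρ := swap 0 (σ k) * σ * swap 0 k
  have hρ : ρ 0 = 0 := by simp [ρ]
  have e1 : (pq I σ : Ln) * pq I (swap 0 k) = pq I (swap 0 (σ k)) * pq I ρ := by
    rw [← pq_mul, ← pq_mul]
    congr 1
    simp [ρ, ← mul_assoc]
  calc Xi R (pq I σ) * Lk R k y * (Xi R (pq I σ))⁻¹
      = Xi R (pq I σ * pq I (swap 0 k)) * B.κ y * (Xi R (pq I σ * pq I (swap 0 k)))⁻¹ := by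
        rw [Lk_apply, map_mul]; group
    _ = Xi R (pq I (swap 0 (σ k))) * (Xi R (pq I ρ) * B.κ y * (Xi R (pq I ρ))⁻¹) *
          (Xi R (pq I (swap 0 (σ k))))⁻¹ := by rw [e1, map_mul]; group
    _ = _ := by rw [blk R (pq I ρ) (blk_pm hρ) y, sig_of_chi (chi_pq ρ), Lk_apply]

omit R in
theorem pq_xq (σ : Perm (Fin (M + 2))) {i j : Fin (M + 2)} (h : i ≠ j) (c : F) :
    (pq I σ : Ln) * xq I i j c * (pq I σ)⁻¹ = xq I (σ i) (σ j) c := Subtype.ext (SpPres.pm_xg σ h c)

theorem Lk_xq {i j k : Fin (M + 2)} (hij : i ≠ j) (hi : i ≠ k) (hj : j ≠ k) (c : F) (y : ↥(SUh I 1 e)) :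
    Commute (Xi R (xq I i j c)) (Lk R k y) := by
  have key : ∀ a, a ≠ k → swap 0 k a ≠ 0 := by
    intro a h e1; apply h
    have := congrArg (swap 0 k) e1
    rwa [swap_apply_self, swap_apply_left] at this
  have e1 : (xq I i j c : Ln) =
      pq I (swap 0 k) * xq I (swap 0 k i) (swap 0 k j) c * (pq I (swap 0 k))⁻¹ := by
    rw [pq_xq _ ((swap 0 k).injective.ne hij), swap_apply_self, swap_apply_self]
  have hc : Commute (Xi R (xq I (swap 0 k i) (swap 0 k j) c)) (B.κ y) := by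
    have := blk R (xq I (swap 0 k i) (swap 0 k j) c)
      (blk_xg ((swap 0 k).injective.ne hij) (key i hi) (key j hj) c) y
    rw [dt_xq, sig_of_chi (map_one _)] at this
    exact mul_inv_eq_iff_eq_mul.1 this
  rw [e1, map_mul, map_mul, map_inv, Lk_apply]
  exact (Commute.conj_iff _).2 hc

omit R in
theorem exists_perm {k l : Fin (M + 2)} (h : k ≠ l) : ∃ σ : Perm (Fin (M + 2)), σ 0 = k ∧ σ 1 = l := by
  refine ⟨swap 0 k * swap 1 (swap 0 k l), ?_, by simp⟩
  have h01 : (0 : Fin (M + 2)) ≠ 1 := by simp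
  have hl : swap 0 k l ≠ 0 := by
    intro e1; apply h
    have := congrArg (swap 0 k) e1
    rw [swap_apply_self, swap_apply_left] at this
    exact this.symm
  rw [Perm.mul_apply, swap_apply_of_ne_of_ne h01 hl.symm, swap_apply_left]

theorem Lk_commute_of {y : ↥(SUh I 1 e)}
    (hy : ∀ z, Commute (B.κ y) (B.xi π01 * B.κ z * (B.xi π01)⁻¹)) {k l : Fin (M + 2)} (h : k ≠ l)
    (z : ↥(SUh I 1 e)) : Commute (Lk R k y) (Lk R l z) := by
  obtain ⟨σ, h0, h1⟩ := exists_perm h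
  rw [← h0, ← h1, ← Lk_pm R σ, ← Lk_pm R σ]
  refine (Commute.conj_iff _).2 ?_
  rw [Lk_zero]
  exact hy z

/-- The Weyl element at the coordinate `k`. -/
def wk (k : Fin (M + 2)) : G := Lk R k wq

theorem wk_Lk {k l : Fin (M + 2)} (h : k ≠ l) (z : ↥(SUh I 1 e)) : Commute (wk R k) (Lk R l z) :=
  Lk_commute_of R R.h01w h z

theorem wk_zero : wk R (0 : Fin (M + 2)) = B.κ wq := Lk_zero R _

theorem f_wk (k : Fin (M + 2)) : mat (B.f (wk R k)) = wM I e {k} := by
  rw [wk, Lk_apply, map_mul, map_mul, map_inv, f_Xi R, B.fκ, wM_pq B.he _ {0} _ emb_wq]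
  simp

/-- The short root elements of the unipotent radical. -/
def oh (j k : Fin (M + 2)) (x : F) : G := wk R k * Xi R (xq I j k (-x / I.ξ)) * (wk R k)⁻¹

theorem oh_add (j k : Fin (M + 2)) (c d : F) : oh R j k (c + d) = oh R j k c * oh R j k d := by
  have e1 : (xq I j k (-(c + d) / I.ξ) : Ln) = xq I j k (-c / I.ξ) * xq I j k (-d / I.ξ) :=
    Subtype.ext (by rw [coe_xq, Subgroup.coe_mul, coe_xq, coe_xq, ← SpPres.xg_add]; congr 1; ring)
  simp only [oh, e1, map_mul]; group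

theorem oh_pm (σ : Perm (Fin (M + 2))) {j k : Fin (M + 2)} (h : j ≠ k) (x : F) :
    Xi R (pq I σ) * oh R j k x * (Xi R (pq I σ))⁻¹ = oh R (σ j) (σ k) x := by
  rw [oh, oh, ← pq_xq σ h, wk, wk, ← Lk_pm R σ k, map_mul, map_mul, map_inv]
  group

theorem f_oh {j k : Fin (M + 2)} (h : j ≠ k) (x : F) :
    B.f (oh R j k x) = nE 0 (pairS I j k x) (pairS_rel j k x) := by
  rw [oh, map_mul, map_mul, map_inv, f_Xi R, show xq I j k (-x / I.ξ) = (sl (rx j k (-x / I.ξ)) : Ln) from rfl,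
    sl, levG_toGL, wM_rx h _ _ (f_wk R k)]
  refine nE_congr rfl ?_
  congr 1
  field_simp [I.ξ_ne]

/-! ### The unipotent elements -/

omit R in
theorem single_ne (k : Fin (M + 2)) : (Pi.single k 1 : Vn) ≠ 0 := fun h => by
  simpa using congrFun h k

theorem u_x0 {j : Fin (M + 2)} (hj : j ≠ 0) (c : F) (p : UP I e) :
    Commute (Xi R (xq I 0 j c)) (B.κ (uu p)) := by
  have h01 : (0 : Fin (M + 2)) ≠ 1 := by simp
  have hb : Commute (Xi R (pq I (swap 1 j))) (B.κ (uu p)) := by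
    have := blk R (pq I (swap 1 j)) (blk_pm (swap_apply_of_ne_of_ne h01 hj.symm)) (uu p)
    rw [sig_of_chi (chi_pq _)] at this
    exact mul_inv_eq_iff_eq_mul.1 this
  have e1 : (xq I 0 j c : Ln) = pq I (swap 1 j) * xq I 0 1 c * (pq I (swap 1 j))⁻¹ := by
    rw [pq_xq _ h01, swap_apply_of_ne_of_ne h01 hj.symm, swap_apply_left]
  rw [e1, map_mul, map_mul, map_inv]
  refine (Commute.mul_left (hb.mul_left ?_) hb.inv_left)
  rw [Xi_xq]; exact R.hx c p

theorem stab {A : Ln} (hA : ap (A : GL (Fin (M + 2)) F) (Pi.single 0 1) = Pi.single 0 1) (p : UP I e) :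
    Xi R A * B.κ (uu p) * (Xi R A)⁻¹ = B.κ (uu (p.tw (dt A))) := by
  classical
  suffices h : ∀ (s : Finset (Fin (M + 2))) (A : Ln),
      ap (A : GL (Fin (M + 2)) F) (Pi.single 0 1) = Pi.single 0 1 →
      (∀ a, a ≠ 0 → a ∉ s → ap (A : GL (Fin (M + 2)) F) (Pi.single a 1) 0 = 0) →
      Xi R A * B.κ (uu p) * (Xi R A)⁻¹ = B.κ (uu (p.tw (dt A))) from
    h Finset.univ A hA (fun a _ h => absurd (Finset.mem_univ a) h)
  intro s
  induction s using Finset.induction_on with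
  | empty =>
    intro A h0 hrow
    rw [blk R A (l := 1) ⟨by rw [BlkL.ev', h0]; simp, fun a ha => hrow a ha (Finset.notMem_empty _)⟩, sig_uu,
      Units.val_one, UP.sc_one]
  | @insert j s hjs ih =>
    intro A h0 hrow
    by_cases hj : j = 0
    · exact ih A h0 fun a ha has => hrow a ha (by simp [hj, ha, has])
    let c := ap (A : GL (Fin (M + 2)) F) (Pi.single j 1) 0
    have hA' := ih (A * xq I 0 j (-c)) ?_ ?_
    · rw [map_mul dt, dt_xq, mul_one, map_mul] at hA'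
      rw [show Xi R A * Xi R (xq I 0 j (-c)) * B.κ (uu p) * (Xi R A * Xi R (xq I 0 j (-c)))⁻¹ =
        Xi R A * (Xi R (xq I 0 j (-c)) * B.κ (uu p) * (Xi R (xq I 0 j (-c)))⁻¹) * (Xi R A)⁻¹ by group,
        (u_x0 R hj (-c) p).eq, mul_inv_cancel_right] at hA'
      exact hA'
    · rw [Subgroup.coe_mul, coe_xq, ap_mul, xg_single (Ne.symm hj), if_neg (Ne.symm hj)]; exact h0
    · intro a ha has
      rw [Subgroup.coe_mul, coe_xq, ap_mul, xg_single (Ne.symm hj)]
      by_cases haj : a = j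
      · subst haj
        rw [if_pos rfl, ap_add, ap_smul, Pi.add_apply, Pi.smul_apply, h0]
        simp [c]
      · rw [if_neg haj]; exact hrow a ha (by simp [haj, has])

theorem T_eq (A : Ln) (p : UP I e) :
    Xi R A * B.κ (uu p) * (Xi R A)⁻¹ = B.T (ap (A : GL (Fin (M + 2)) F) (Pi.single 0 1)) (p.tw (dt A)) := by
  have hv : ap (A : GL (Fin (M + 2)) F) (Pi.single 0 1) ≠ 0 := by
    intro h
    have := congrArg (ap ((A : GL (Fin (M + 2)) F))⁻¹) h
    rw [← ap_mul, inv_mul_cancel, ap_one] at this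
    exact single_ne 0 (this.trans (by simp [ap]))
  rw [SuBase.T, if_neg hv]
  set S := repS (ap (A : GL (Fin (M + 2)) F) (Pi.single 0 1))
  have hst : ap ((((sl S : Ln))⁻¹ * A : Ln) : GL (Fin (M + 2)) F) (Pi.single 0 1) = Pi.single 0 1 := by
    rw [Subgroup.coe_mul, ap_mul]
    show ap ((Matrix.SpecialLinearGroup.toGL S))⁻¹ _ = _
    conv_lhs => rw [← repS_spec hv]
    rw [← ap_mul, inv_mul_cancel, ap_one]
  have := stab R hst p
  rw [map_mul dt, map_inv (dt (I := I) (e := e) (r := M + 2)), dt_sl, inv_one, one_mul, map_mul, map_inv, Xi_sl] at this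
  rw [← this]
  group

theorem T_conj (A : Ln) (v : Vn) (p : UP I e) :
    Xi R A * B.T v p * (Xi R A)⁻¹ = B.T (ap (A : GL (Fin (M + 2)) F) v) (p.tw (dt A)) := by
  rcases eq_or_ne v 0 with rfl | hv
  · simp [SuBase.T, ap]
  · conv_rhs => rw [← repS_spec hv]
    have := T_eq R (A * sl (repS v)) p
    rw [map_mul dt, dt_sl, mul_one, Subgroup.coe_mul, ap_mul, map_mul, Xi_sl] at this
    rw [show (sl (repS v) : Ln).1 = Matrix.SpecialLinearGroup.toGL (repS v) from rfl] at this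
    rw [← this, SuBase.T, if_neg hv]
    group

theorem T_mu (v : Vn) (p p' : UP I e) : B.T v p * B.T v p' = B.T v (p.mu p') := by
  simp only [SuBase.T]
  split_ifs
  · simp
  · rw [← uu_mu, map_mul]; group

theorem T_single (k : Fin (M + 2)) (p : UP I e) : B.T (Pi.single k 1) p = Lk R k (uu p) := by
  have := T_eq R (pq I (swap 0 k)) p
  rw [coe_pq, pm_single, swap_apply_left, UP.tw_of_chi (chi_pq _)] at this
  exact this.symm

theorem T_sc {c : F} (hc : c ≠ 0) (v : Vn) (p : UP I e) : B.T (c • v) p = B.T v (p.sc c) := by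
  rcases eq_or_ne v 0 with rfl | hv
  · simp [SuBase.T]
  let u := Units.mk0 c hc
  let D : GL (Fin (M + 2)) F := dg 0 u * dg 1 u⁻¹
  have hD : Matrix.GeneralLinearGroup.det D = 1 := by rw [map_mul, det_dg, det_dg, mul_inv_cancel]
  let Dl' : Ln := ⟨D, mem_Lev_of_det I hD⟩
  have h01 : (1 : Fin (M + 2)) ≠ 0 := by simp
  have hb : BlkL D u := by
    refine ⟨?_, fun a ha => ?_⟩
    · rw [BlkL.ev', ap_mul, dg_single, if_neg h01.symm, one_smul, dg_single, if_pos rfl]
    · rw [ap_mul, dg_single, ap_smul, dg_single, if_neg ha, one_smul, Pi.smul_apply, Pi.single_eq_of_ne (Ne.symm ha),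
        smul_zero]
  have hdt : dt Dl' = 1 := hD
  have e0 := blk R Dl' hb (uu p)
  rw [hdt, sig_uu, UP.tw_one] at e0
  have e1 := T_eq R (sl (repS v) * Dl') p
  rw [map_mul dt, dt_sl, hdt, mul_one, UP.tw_one, Subgroup.coe_mul, ap_mul, map_mul, Xi_sl] at e1
  have e2 : ap D (Pi.single 0 1) = c • (Pi.single 0 1 : Vn) := hb.1
  rw [show (Dl' : GL (Fin (M + 2)) F) = D from rfl, e2, ap_smul,
    show ((sl (repS v) : Ln) : GL (Fin (M + 2)) F) = Matrix.SpecialLinearGroup.toGL (repS v) from rfl,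
    repS_spec hv] at e1
  rw [← e1, SuBase.T, if_neg hv, show (u : F) = c from rfl] at *
  rw [← e0]
  group

theorem f_T (v : Vn) (p : UP I e) : ∃ h, B.f (B.T v p) = tv I v p.1.1 p.1.2 h := by
  refine ⟨p.2, ?_⟩
  rcases eq_or_ne v 0 with rfl | hv
  · rw [SuBase.T, if_pos rfl, map_one, tv, ← nE_zero (I := I) (r := M + 2) (e := e)]
    exact (nE_congr (by simp) (by simp)).symm
  · obtain ⟨h, e1⟩ := levG_tv B.he (sl (repS v) : Ln) (Pi.single 0 1) p.2
    rw [SuBase.T, if_neg hv, map_mul, map_mul, map_inv, ← Xi_sl R, f_Xi R, B.fκ, uu, emb_uz, e1]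
    refine tv_congr (repS_spec hv) ?_ rfl
    rw [dt_sl, map_one, Units.val_one, one_smul]

/-- Long root elements commute with all root elements. -/
theorem T_long_commute {p : UP I e} (hp : p.1.1 = 0) (v w : Vn) (p' : UP I e) :
    Commute (B.T v p) (B.T w p') := by
  rcases eq_or_ne v 0 with rfl | hv
  · simp [SuBase.T]
  by_cases hw : ∃ c : F, c • v = w
  · obtain ⟨c, rfl⟩ := hw
    rcases eq_or_ne c 0 with rfl | hc
    · simp [SuBase.T]
    rw [T_sc R hc]
    show _ * _ = _ * _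
    rw [T_mu R, T_mu R]
    congr 1
    exact Subtype.ext (Prod.ext (by simp [UP.mu, hp]) (by simp [UP.mu, hp, ip_zero_left, ip_zero_right, add_comm]))
  push Not at hw
  have h01 : (0 : Fin (M + 2)) ≠ 1 := by simp
  obtain ⟨A, hA0, hA1⟩ := SpPres.exists_second h01 v w hv hw
  set δ := Matrix.GeneralLinearGroup.det A
  let A' := A * dg (1 : Fin (M + 2)) δ⁻¹
  have hd : Matrix.GeneralLinearGroup.det A' = 1 := by rw [map_mul, det_dg, mul_inv_cancel]
  let L : Ln := ⟨A', mem_Lev_of_det I hd⟩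
  have e0 : ap A' (Pi.single 0 1) = v := by rw [ap_mul, dg_single, if_neg h01, one_smul, hA0]
  have e1 : ap A' (Pi.single 1 1) = ((δ⁻¹ : Fˣ) : F) • w := by
    rw [ap_mul, dg_single, if_pos rfl, ap_smul, hA1]
  have hw' : w = (δ : F) • ap A' (Pi.single 1 1) := by
    rw [e1, smul_smul, Units.mul_inv, one_smul]
  rw [hw', ← e0, T_sc R δ.ne_zero, ← UP.tw_one p, ← UP.tw_one (p'.sc _), ← (show dt L = 1 from hd),
    ← show (L : GL (Fin (M + 2)) F) = A' from rfl, ← T_conj R, ← T_conj R]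
  refine (Commute.conj_iff _).2 ?_
  rw [T_single R, T_single R]
  exact Lk_commute_of R (R.h01u p hp) h01 _

theorem oh_T {j k l : Fin (M + 2)} (hjk : j ≠ k) (hlk : l ≠ k) (x : F) (p : UP I e) :
    Commute (oh R j k x) (B.T (Pi.single l 1) p) := by
  have h1 : Commute (wk R k) (B.T (Pi.single l 1) p) := by
    rw [T_single R]; exact wk_Lk R hlk.symm _
  have h2 : Commute (Xi R (xq I j k (-x / I.ξ))) (B.T (Pi.single l 1) p) := by
    refine mul_inv_eq_iff_eq_mul.1 ?_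
    rw [T_conj R, coe_xq, xg_single hjk, if_neg hlk, dt_xq, UP.tw_one]
  exact (h1.mul_left h2).mul_left h1.inv_left

end SuBase

end Cfsg.Agent.H81.SUPres
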