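import Cfsg.Agent.H58.PSUFusion.Transfer
import Cfsg.Agent.H3.Isotropic

/-!
# The unitary groups in hyperbolic and in standard coordinates
-/

set_option autoImplicit false
set_option linter.unusedSectionVars false
set_option maxHeartbeats 1000000

namespace Cfsg.Agent.H81.SUPres

open Matrix Cfsg Cfsg.Agent.H58.PSUFusion

variable {F : Type*} [Field F] [Fintype F] {q : ℕ} {r e : ℕ} (hF : Fintype.card F = q ^ 2)

include hF in
/-- `SUh` is the special unitary group. -/
theorem suh_equiv {n : ℕ} (eqv : Ix r e ≃ Fin n) :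
    Nonempty (↥(SUh (invOfCard hF) r e) ≃* ↥(Cfsg.SU n F q)) := by
  set I := invOfCard hF
  obtain ⟨C, hC⟩ := exists_basisMat (r := r) (e := e) hF
  set Ci := Φ * dag I C with hCi
  have h1 : Ci * C = 1 := by rw [hCi, Matrix.mul_assoc, hC, Φ_mul_Φ]
  have h2 : C * Ci = 1 := mul_eq_one_comm.1 h1
  have hcd : C.det * Ci.det = 1 := by rw [← Matrix.det_mul, h2, Matrix.det_one]
  have hconj : ∀ M : Matrix (Ix r e) (Ix r e) F, dag I M * Φ * M = Φ →
      dag I (C * M * Ci) * (C * M * Ci) = 1 := by
    intro M hM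
    rw [hCi, dag_mul, dag_mul, dag_mul, dag_dag, dag_Φ]
    calc C * Φ * (dag I M * dag I C) * (C * M * (Φ * dag I C))
        = C * Φ * (dag I M * (dag I C * C) * M) * Φ * dag I C := by simp only [Matrix.mul_assoc]
      _ = C * Φ * Φ * Φ * dag I C := by rw [hC, hM]
      _ = C * (Φ * dag I C) := by rw [Matrix.mul_assoc C Φ Φ, Φ_mul_Φ, Matrix.mul_one, Matrix.mul_assoc]
      _ = 1 := h2
  let f : ↥(SUh I r e) →* Cfsg.SU n F q :=
    { toFun := fun g => ⟨⟨Matrix.reindexAlgEquiv F F eqv (C * mat g * Ci), by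
          rw [Matrix.det_reindexAlgEquiv, Matrix.det_mul, Matrix.det_mul, mul_comm C.det, mul_assoc, hcd,
            mul_one]
          exact g.1.2⟩, (mem_SU_iff hF).2 (by
            show dag I (Matrix.reindexAlgEquiv F F eqv (C * mat g * Ci)) * Matrix.reindexAlgEquiv F F eqv (C * mat g * Ci) = 1
            rw [Cfsg.Agent.H58.PSUFusion.dag_reindex, ← map_mul, hconj _ g.2, map_one])⟩
      map_one' := Subtype.ext (Subtype.ext (by
        show Matrix.reindexAlgEquiv F F eqv (C * mat (1 : ↥(SUh I r e)) * Ci) = 1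
        rw [mat_one, Matrix.mul_one, h2, map_one]))
      map_mul' := fun g g' => Subtype.ext (Subtype.ext (by
        show Matrix.reindexAlgEquiv F F eqv (C * mat (g * g') * Ci) =
          Matrix.reindexAlgEquiv F F eqv (C * mat g * Ci) * Matrix.reindexAlgEquiv F F eqv (C * mat g' * Ci)
        rw [← map_mul, mat_mul]
        congr 1
        calc C * (mat g * mat g') * Ci = C * mat g * 1 * mat g' * Ci := by simp only [Matrix.mul_assoc, Matrix.one_mul]
          _ = C * mat g * (Ci * C) * mat g' * Ci := by rw [h1]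
          _ = _ := by simp only [Matrix.mul_assoc])) }
  have hbij : Function.Bijective f := by
    constructor
    · intro g g' h
      have h' : C * mat g * Ci = C * mat g' * Ci :=
        (Matrix.reindexAlgEquiv F F eqv).injective (congrArg (fun x : Cfsg.SU n F q => x.1.1) h)
      refine ext_mat ?_
      have := congrArg (fun M => Ci * M * C) h'
      simpa only [← Matrix.mul_assoc, h1, Matrix.one_mul, Matrix.mul_assoc _ Ci C, Matrix.mul_one] using this
    · intro x
      set N := (Matrix.reindexAlgEquiv F F eqv).symm x.1.1 with hN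
      have hx := (mem_SU_iff hF).1 x.2
      have hxN : Matrix.reindexAlgEquiv F F eqv N = x.1.1 := AlgEquiv.apply_symm_apply _ _
      rw [← hxN, Cfsg.Agent.H58.PSUFusion.dag_reindex, ← map_mul, ← map_one (Matrix.reindexAlgEquiv F F eqv)] at hx
      have hN1 : dag I N * N = 1 := (Matrix.reindexAlgEquiv F F eqv).injective hx
      have hdetN : N.det = 1 := by
        have := congrArg Matrix.det hxN
        rw [Matrix.det_reindexAlgEquiv] at this
        exact this.trans x.1.2
      have hmem : dag I (Ci * N * C) * Φ * (Ci * N * C) = Φ := by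
        rw [hCi, dag_mul, dag_mul, dag_mul, dag_dag, dag_Φ]
        calc dag I C * (dag I N * (C * Φ)) * Φ * (Φ * dag I C * N * C)
            = dag I C * dag I N * (C * (Φ * (Φ * Φ) * dag I C)) * N * C := by simp only [Matrix.mul_assoc]
          _ = dag I C * dag I N * N * C := by rw [Φ_mul_Φ, Matrix.mul_one, h2, Matrix.mul_one]
          _ = dag I C * (dag I N * N) * C := by simp only [Matrix.mul_assoc]
          _ = Φ := by rw [hN1, Matrix.mul_one, hC]
      refine ⟨mk (Ci * N * C) (by
        rw [Matrix.det_mul, Matrix.det_mul, hdetN, mul_one, mul_comm, hcd]) hmem, Subtype.ext (Subtype.ext ?_)⟩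
      show Matrix.reindexAlgEquiv F F eqv (C * mat (mk (Ci * N * C) _ hmem) * Ci) = x.1.1
      rw [mat_mk, ← hxN]
      congr 1
      calc C * (Ci * N * C) * Ci = (C * Ci) * N * (C * Ci) := by simp only [Matrix.mul_assoc]
        _ = N := by rw [h2, Matrix.one_mul, Matrix.mul_one]
  exact ⟨MulEquiv.ofBijective f hbij⟩

include hF in
/-- The centre of the special unitary group is cyclic. -/
theorem center_su_cyclic {n : ℕ} (hn : 2 ≤ n) :
    ∃ z, Subgroup.center (Cfsg.SU n F q) = Subgroup.zpowers z := by
  classical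
  let i0 : Fin n := ⟨0, by omega⟩
  let φ : Subgroup.center (Cfsg.SU n F q) →* F :=
    { toFun := fun g => ((g.1.1 : SpecialLinearGroup (Fin n) F) : Matrix (Fin n) (Fin n) F) i0 i0
      map_one' := by simp
      map_mul' := fun g g' => by
        obtain ⟨l, hl⟩ := (H3.mem_center_SU_iff hF hn g.1).1 g.2
        have h := congrFun (hl fun i => ((g'.1.1 : SpecialLinearGroup (Fin n) F) : Matrix (Fin n) (Fin n) F) i i0) i0
        have h1 := congrFun (hl (Pi.single i0 1)) i0
        simp [Matrix.mulVec_single] at h1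
        show ((g.1.1 : SpecialLinearGroup (Fin n) F).1 * (g'.1.1 : SpecialLinearGroup (Fin n) F).1) i0 i0 = _
        rw [Matrix.mul_apply]
        refine Eq.trans ?_ (h.trans ?_)
        · simp [Matrix.mulVec, dotProduct]
        · simp [h1] }
  have hinj : Function.Injective φ := by
    intro g g' h
    obtain ⟨l, hl⟩ := (H3.mem_center_SU_iff hF hn g.1).1 g.2
    obtain ⟨l', hl'⟩ := (H3.mem_center_SU_iff hF hn g'.1).1 g'.2
    have h1 := congrFun (hl (Pi.single i0 1)) i0
    have h1' := congrFun (hl' (Pi.single i0 1)) i0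
    simp [Matrix.mulVec_single] at h1 h1'
    have hll : l = l' := by
      rw [← h1, ← h1']
      exact h
    refine Subtype.ext (Subtype.ext (Subtype.ext ?_))
    refine Matrix.ext_of_mulVec_single fun i => ?_
    rw [hl, hl', hll]
  haveI : IsCyclic (Subgroup.center (Cfsg.SU n F q)) := isCyclic_of_subgroup_isDomain φ hinj
  obtain ⟨z, hz⟩ := IsCyclic.exists_generator (α := Subgroup.center (Cfsg.SU n F q))
  refine ⟨z.1, le_antisymm (fun x hx => ?_) ((Subgroup.zpowers_le).2 z.2)⟩
  obtain ⟨k, hk⟩ := hz ⟨x, hx⟩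
  exact ⟨k, by simpa using congrArg Subtype.val hk⟩

end Cfsg.Agent.H81.SUPres
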