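import Cfsg.Agent.H81.SUPres.Levi

/-!
# Generation of the unitary group by the parabolic and the reflections
-/

set_option autoImplicit false
set_option linter.unusedSectionVars false
set_option maxHeartbeats 1000000

namespace Cfsg.Agent.H81.SUPres

open Equiv Matrix Cfsg.Agent.H58.PSUFusion Cfsg.Agent.H64.SLCover
open Cfsg.Agent.H81.SpPres (ap ap_mul ap_one ap_add ap_smul pm pm_single dg dg_single xg xg_single det_dg det_xg)

variable {F : Type*} [Field F] {I : Cfsg.Agent.H58.PSUFusion.Inv F} [Finite F] {r e : ℕ}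

/-- A vector from its three parts. -/
def v3 (x : Fin r → F) (m : Fin e → F) (y : Fin r → F) : Ix r e → F := Sum.elim x (Sum.elim m y)

theorem b3_mulVec (A00 : Matrix (Fin r) (Fin r) F) (A01 : Matrix (Fin r) (Fin e) F) (A02 : Matrix (Fin r) (Fin r) F)
    (A10 : Matrix (Fin e) (Fin r) F) (A11 : Matrix (Fin e) (Fin e) F) (A12 : Matrix (Fin e) (Fin r) F)
    (A20 : Matrix (Fin r) (Fin r) F) (A21 : Matrix (Fin r) (Fin e) F) (A22 : Matrix (Fin r) (Fin r) F)
    (x : Fin r → F) (m : Fin e → F) (y : Fin r → F) :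
    b3 A00 A01 A02 A10 A11 A12 A20 A21 A22 *ᵥ v3 x m y =
      v3 (A00 *ᵥ x + A01 *ᵥ m + A02 *ᵥ y) (A10 *ᵥ x + A11 *ᵥ m + A12 *ᵥ y) (A20 *ᵥ x + A21 *ᵥ m + A22 *ᵥ y) := by
  funext i
  rcases i with i | i | i <;> simp [b3, v3, Matrix.mulVec, dotProduct, Fintype.sum_sum_type, add_assoc]

/-- The first isotropic basis vector of a coordinate. -/
def be (i : Fin r) : Ix r e → F := Pi.single (.inl i) 1

/-- The second isotropic basis vector of a coordinate. -/
def bf (i : Fin r) : Ix r e → F := Pi.single (.inr (.inr i)) 1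

theorem be_eq (i : Fin r) : (be i : Ix r e → F) = v3 (Pi.single i 1) 0 0 := by
  funext x; rcases x with x | x | x <;> simp [be, v3, Pi.single_apply]

theorem bf_eq (i : Fin r) : (bf i : Ix r e → F) = v3 0 0 (Pi.single i 1) := by
  funext x; rcases x with x | x | x <;> simp [bf, v3, Pi.single_apply]

/-- The elements fixing the first coordinates. -/
def Fx (k : ℕ) (g : ↥(SUh I r e)) : Prop := ∀ i : Fin r, i.val < k → mat g *ᵥ be i = be i ∧ mat g *ᵥ bf i = bf i

theorem Fx.mul {k : ℕ} {g h : ↥(SUh I r e)} (hg : Fx k g) (hh : Fx k h) : Fx k (g * h) := fun i hi =>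
  ⟨by rw [mat_mul, ← Matrix.mulVec_mulVec, (hh i hi).1, (hg i hi).1],
    by rw [mat_mul, ← Matrix.mulVec_mulVec, (hh i hi).2, (hg i hi).2]⟩

theorem form_entry (g : ↥(SUh I r e)) (x y : Ix r e) :
    (∑ a, I.σ (mat g (.inl a) x) * mat g (.inr (.inr a)) y) +
      (∑ a, I.σ (mat g (.inr (.inl a)) x) * mat g (.inr (.inl a)) y) +
      (∑ a, I.σ (mat g (.inr (.inr a)) x) * mat g (.inl a) y) = (Φ : Matrix (Ix r e) (Ix r e) F) x y := by
  have h := congrFun (congrFun (show dag I (mat g) * Φ * mat g = Φ from g.2) x) y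
  rw [← h, Matrix.mul_assoc, Matrix.mul_apply]
  simp only [Fintype.sum_sum_type, dag_apply, add_assoc]
  congr 1
  · refine Finset.sum_congr rfl fun a _ => ?_
    congr 1
    simp [Φ, b3, Matrix.mul_apply, Fintype.sum_sum_type, Matrix.one_apply]
  congr 1 <;>
  · refine Finset.sum_congr rfl fun a _ => ?_
    congr 1
    simp [Φ, b3, Matrix.mul_apply, Fintype.sum_sum_type, Matrix.one_apply]

theorem col_eq (g : ↥(SUh I r e)) (x : Ix r e) : mat g *ᵥ Pi.single x 1 =
    v3 (fun a => mat g (.inl a) x) (fun a => mat g (.inr (.inl a)) x) (fun a => mat g (.inr (.inr a)) x) := by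
  rw [Matrix.mulVec_single_one]
  funext i
  rcases i with i | i | i <;> rfl

theorem zero_below {k : ℕ} {g : ↥(SUh I r e)} (hg : Fx k g) (x : Ix r e) (i : Fin r) (hi : i.val < k) :
    mat g (.inl i) x = (Φ : Matrix (Ix r e) (Ix r e) F) (.inr (.inr i)) x ∧
      mat g (.inr (.inr i)) x = (Φ : Matrix (Ix r e) (Ix r e) F) (.inl i) x := by
  have h1 := fun z => congrFun (hg i hi).1 z
  have h2 := fun z => congrFun (hg i hi).2 z
  simp only [be, bf, Matrix.mulVec_single_one, Matrix.col_apply] at h1 h2
  constructor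
  · rw [← form_entry g (.inr (.inr i)) x]
    simp [h2, Pi.single_apply, apply_ite I.σ]
  · rw [← form_entry g (.inl i) x]
    simp [h1, Pi.single_apply, apply_ite I.σ]

section

variable (H : Subgroup ↥(SUh I r e)) (he : e ≤ 1)
  (hA : ∀ A : Lev I r e, levG he A ∈ H)
  (hT : ∀ (k : Fin r) (a : Fin e → F) (s : F) (h : Rel I a s), tv I (Pi.single k 1) a s h ∈ H)
  (hP : ∀ (j k : Fin r), j ≠ k → ∀ x, nE 0 (pairS I j k x) (pairS_rel j k x) ∈ H)
  (hW : ∀ k : Fin r, ∃ g ∈ H, mat g = wM I e {k})

include hA hT hP in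
theorem kill {k : Fin r} {x : Fin r → F} {m : Fin e → F} {y : Fin r → F}
    (hx : ∀ i, i.val < k.val → x i = 0) (hy : ∀ i, i.val < k.val → y i = 0) (hk : y k ≠ 0)
    (hiso : ∑ a, I.σ (x a) * y a + ∑ a, I.σ (m a) * m a + ∑ a, I.σ (y a) * x a = 0) :
    ∃ h ∈ H, Fx k.val h ∧ mat h *ᵥ be k = be k ∧ mat h *ᵥ v3 x m y = y k • bf k := by
  classical
  -- the Levi element
  let t : Fin r → F := fun i => if i = k then 0 else I.σ (y i / y k)
  let N : Matrix (Fin r) (Fin r) F := Matrix.vecMulVec (Pi.single k 1) t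
  have hN : N * N = 0 := by
    rw [Matrix.vecMulVec_mul_vecMulVec]
    simp [t]
  have hinv : (1 + N) * (1 - N) = 1 ∧ (1 - N) * (1 + N) = 1 := by
    constructor <;> simp [Matrix.mul_sub, Matrix.sub_mul, Matrix.add_mul, Matrix.mul_add, hN] <;> abel
  let A0 : GL (Fin r) F := ⟨1 + N, 1 - N, hinv.1, hinv.2⟩
  have hd : Matrix.GeneralLinearGroup.det A0 = 1 := by
    apply Units.ext
    show (1 + N).det = 1
    rw [show N = Matrix.replicateCol Unit (Pi.single k (1 : F)) * Matrix.replicateRow Unit t from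
      (Matrix.vecMulVec_eq Unit _ _), Matrix.det_one_add_replicateCol_mul_replicateRow]
    simp [t]
  let A : Lev I r e := ⟨A0, mem_Lev_of_det I hd⟩
  have hdt : midM I e (dt A) = 1 := by rw [show dt A = 1 from hd, midM_one]
  have hmA : mat (levG he A) = b3 (1 + N) 0 0 0 1 0 0 0 (dag I (1 - N)) := by
    rw [mat_levG, hdt]; rfl
  have hdag : ∀ z : Fin r → F, dag I (1 - N) *ᵥ z = z - z k • (I.σ ∘ t) := by
    intro z
    funext i
    simp [dag_apply, Matrix.mulVec, dotProduct, N, Matrix.vecMulVec_apply, Matrix.one_apply, apply_ite I.σ,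
      Pi.single_apply, mul_sub, sub_mul, Finset.sum_sub_distrib, ite_mul, mul_ite, mul_comm]
  set x1 := (1 + N) *ᵥ x
  set c := y k
  have hy1 : dag I (1 - N) *ᵥ y = c • Pi.single k 1 := by
    rw [hdag]
    funext i
    by_cases hi : i = k
    · subst hi; simp [t, c]
    · simp [t, hi, I.invol, c, mul_div_cancel₀ _ hk]
  have hx1 : ∀ i, i.val < k.val → x1 i = 0 := by
    intro i hi
    have hik : i ≠ k := fun h => by subst h; omega
    simp [x1, Matrix.add_mulVec, N, Matrix.vecMulVec_mulVec, hik, hx i hi]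
  have hiso1 : I.σ (x1 k) * c + ∑ a, I.σ (m a) * m a + I.σ c * x1 k = 0 := by
    have e1 : ∀ u w : Fin r → F, (I.σ ∘ ((1 + N) *ᵥ u)) ⬝ᵥ (dag I (1 - N) *ᵥ w) = (I.σ ∘ u) ⬝ᵥ w := by
      intro u w
      have hmap : I.σ ∘ ((1 + N) *ᵥ u) = (dag I (1 + N))ᵀ *ᵥ (I.σ ∘ u) := by
        funext i
        exact RingHom.map_mulVec I.σ _ u i
      rw [hmap, Matrix.mulVec_transpose, ← Matrix.dotProduct_mulVec, Matrix.mulVec_mulVec, ← dag_mul, hinv.2,
        dag_one, Matrix.one_mulVec]
    have e2 := e1 x y
    rw [hy1, ← show x1 = (1 + N) *ᵥ x from rfl] at e2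
    simp only [dotProduct_smul, dotProduct_single, Function.comp_apply, mul_one, smul_eq_mul] at e2
    have e3 : ∑ a, I.σ (x a) * y a = c * I.σ (x1 k) := e2.symm
    have e4 : ∑ a, I.σ (y a) * x a = I.σ c * x1 k := by
      have := congrArg I.σ e3
      simpa [map_sum, map_mul, I.invol, mul_comm] using this
    rw [e3, e4] at hiso
    linear_combination hiso
  -- the upper element
  let a : Fin e → F := fun b => I.σ (m b / c)
  let s : F := -(x1 k + ∑ b, a b * m b) / c
  have hr : Rel I a s := by
    have hσc := σ_ne I hk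
    have e5 : ∑ b, a b * m b = (∑ b, I.σ (m b) * m b) / I.σ c := by
      rw [Finset.sum_div]
      exact Finset.sum_congr rfl fun b _ => by simp [a, map_div₀]; ring
    have e6 : ip I a a = (∑ b, I.σ (m b) * m b) / (c * I.σ c) := by
      rw [ip, Finset.sum_div]
      exact Finset.sum_congr rfl fun b _ => by
        simp only [a, I.invol, map_div₀]; field_simp
    have e7 : I.σ (∑ b, I.σ (m b) * m b) = ∑ b, I.σ (m b) * m b := by
      simp [map_sum, map_mul, I.invol, mul_comm]
    have hc : c ≠ 0 := hk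
    unfold Rel
    simp only [s, e5, e6, map_div₀, map_neg, map_add, I.invol, e7]
    field_simp
    linear_combination -hiso1
  have hsum : ∀ P : Finset (Fin r), k ∉ P → ∃ h', nE 0 (∑ i ∈ P, pairS I i k (-x1 i / c)) h' ∈ H := by
    intro P
    induction P using Finset.induction_on with
    | empty =>
      intro _
      refine ⟨by rw [Finset.sum_empty]; exact rel_zero, ?_⟩
      rw [show nE (I := I) (0 : Matrix (Fin r) (Fin e) F) (∑ i ∈ (∅ : Finset (Fin r)), pairS I i k (-x1 i / c))
          _ = 1 from (nE_congr rfl (Finset.sum_empty)).trans nE_zero]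
      exact one_mem _
    | @insert i P hiP ih =>
      intro hk'
      rw [Finset.mem_insert, not_or] at hk'
      obtain ⟨h', hm⟩ := ih hk'.2
      have e1 := nE_mul (pairS_rel (I := I) (e := e) i k (-x1 i / c)) h'
      have e2 : pairS I i k (-x1 i / c) + ∑ i ∈ P, pairS I i k (-x1 i / c) -
          (0 : Matrix (Fin r) (Fin e) F) * dag I (0 : Matrix (Fin r) (Fin e) F) = ∑ i ∈ insert i P, pairS I i k (-x1 i / c) := by
        rw [Finset.sum_insert hiP, dag_zero]; simp
      have hr' := nE_rel_mul (pairS_rel (I := I) (e := e) i k (-x1 i / c)) h'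
      simp only [add_zero, e2] at hr'
      refine ⟨hr', ?_⟩
      have := mul_mem (hP i k (fun h => hk'.1 h.symm) (-x1 i / c)) hm
      rwa [e1.trans (nE_congr (h' := hr') (add_zero _) e2)] at this
  obtain ⟨h', hm⟩ := hsum (Finset.univ.erase k) (Finset.notMem_erase _ _)
  set S := ∑ i ∈ Finset.univ.erase k, pairS I i k (-x1 i / c)
  have hu := mul_mem (hT k a s hr) hm
  rw [tv, nE_mul] at hu
  set Su := s • Matrix.vecMulVec (Pi.single k (1 : F)) (I.σ ∘ Pi.single k 1) + S -
    Matrix.vecMulVec (Pi.single k (1 : F)) a * dag I (0 : Matrix (Fin r) (Fin e) F) with hSu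
  obtain ⟨g0, hg0, hgm⟩ : ∃ g0 ∈ H, mat g0 = b3 1 (Matrix.vecMulVec (Pi.single k (1 : F)) a) Su 0 1
      (-dag I (Matrix.vecMulVec (Pi.single k (1 : F)) a)) 0 0 1 :=
    ⟨_, hu, by rw [mat_nE, add_zero]⟩
  refine ⟨_, mul_mem hg0 (hA A), ?_, ?_, ?_⟩
  all_goals
    have hSw : ∀ w : Fin r → F, Su *ᵥ w = fun i =>
        if i = k then s * w k - ∑ b ∈ Finset.univ.erase k, I.σ (-x1 b / c) * w b else -x1 i / c * w k := by
      intro w
      funext i
      rw [hSu, dag_zero, Matrix.mul_zero, sub_zero, Matrix.add_mulVec, Matrix.sum_mulVec, Pi.add_apply,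
        Finset.sum_apply, Matrix.smul_mulVec, Matrix.vecMulVec_mulVec]
      by_cases hi : i = k
      · subst hi
        rw [if_pos rfl, sub_eq_add_neg, ← Finset.sum_neg_distrib]
        congr 1
        · simp [dotProduct, Pi.single_apply, apply_ite I.σ]
        · refine Finset.sum_congr rfl fun b hb => ?_
          have hbk := Finset.ne_of_mem_erase hb
          simp [pairS, Matrix.sub_mulVec, Matrix.single_mulVec_eq, Pi.single_apply, hbk, Ne.symm hbk]
      · rw [if_neg hi, Finset.sum_eq_single i]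
        · simp [pairS, Matrix.sub_mulVec, Matrix.single_mulVec_eq, Pi.single_apply, hi]
        · intro b _ hbi
          simp [pairS, Matrix.sub_mulVec, Matrix.single_mulVec_eq, Pi.single_apply, hi, Ne.symm hbi]
        · simp [hi]
    have hmv : ∀ (u w : Fin r → F) (m' : Fin e → F),
        mat (g0 * levG he A) *ᵥ v3 u m' w =
        v3 ((u + (t ⬝ᵥ u) • Pi.single k 1) + (a ⬝ᵥ m') • Pi.single k 1 + Su *ᵥ (w - w k • (I.σ ∘ t)))
          (m' - (w - w k • (I.σ ∘ t)) k • (I.σ ∘ a)) (w - w k • (I.σ ∘ t)) := by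
      intro u w m'
      rw [mat_mul, ← Matrix.mulVec_mulVec, hmA, b3_mulVec, hgm, b3_mulVec]
      simp only [Matrix.zero_mulVec, add_zero, zero_add, Matrix.one_mulVec, hdag, Matrix.add_mulVec, N,
        Matrix.vecMulVec_mulVec]
      congr 1
      · funext i; simp [Pi.single_apply]
      · funext i
        simp [dag_apply, Matrix.neg_mulVec, Matrix.mulVec, dotProduct, Matrix.vecMulVec_apply, Pi.single_apply,
          apply_ite I.σ, ite_mul, sub_eq_add_neg]
        ring
    have htk : t k = 0 := by simp [t]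
  · intro i hi
    have hik : i ≠ k := fun h => by subst h; omega
    have hti : t i = 0 := by simp [t, hik, hy i hi]
    constructor
    · rw [be_eq, hmv]
      congr 1 <;> (funext z; simp [hSw, hti, Pi.single_apply, dotProduct])
    · rw [bf_eq, hmv]
      congr 1 <;> funext z <;>
        simp [hSw, hik, Ne.symm hik, dotProduct, Pi.single_apply, mul_ite, hx1 i hi]
  · rw [be_eq, hmv]
    congr 1 <;> (funext z; simp [hSw, htk, Pi.single_apply, dotProduct])
  · rw [hmv, show (y - y k • (I.σ ∘ t)) = c • Pi.single k 1 from (hdag y).symm.trans hy1, bf_eq]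
    have hs' : ∀ u w : Fin r → F, ∀ m' : Fin e → F, c • v3 u m' w = v3 (c • u) (c • m') (c • w) := by
      intro u w m'; funext z; rcases z with z | z | z <;> rfl
    rw [hs', smul_zero, smul_zero]
    have hxx : x + (t ⬝ᵥ x) • Pi.single k 1 = x1 := by
      simp [x1, Matrix.add_mulVec, N, Matrix.vecMulVec_mulVec]
    congr 1
    · rw [hxx]
      funext i
      have hc : c ≠ 0 := hk
      have hz : ∀ f : Fin r → F, ∑ b ∈ Finset.univ.erase k, f b * (Pi.single k 1 : Fin r → F) b = 0 := fun f =>
        Finset.sum_eq_zero fun b hb => by simp [Finset.ne_of_mem_erase hb]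
      by_cases hi : i = k
      · subst hi
        simp only [Pi.add_apply, Pi.smul_apply, Pi.single_eq_same, smul_eq_mul, mul_one, hSw, if_true, ← mul_assoc, hz, sub_zero,
          Pi.zero_apply, dotProduct, s]
        field_simp
        ring
      · simp [hSw, hi]
        field_simp
        ring
    · funext b
      simp [a, I.invol, map_div₀]
      field_simp
      ring

include hA hT hP hW in
theorem step {k : Fin r} {g : ↥(SUh I r e)} (hg : Fx k.val g) :
    ∃ h ∈ H, Fx k.val (h * g) ∧ ∃ c : F, c ≠ 0 ∧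
      mat (h * g) *ᵥ be k = c • be k ∧ mat (h * g) *ᵥ bf k = (I.σ c)⁻¹ • bf k := by
  classical
  have hwm : ∀ (l : Fin r) (gl : ↥(SUh I r e)), mat gl = wM I e {l} → ∀ x m y,
      mat gl *ᵥ v3 x m y = v3 (fun a => if a = l then I.ξ * y a else x a) m
        (fun a => if a = l then -I.ξ⁻¹ * x a else y a) := by
    intro l gl hl x m y
    rw [hl, wM, b3_mulVec]
    simp only [Matrix.zero_mulVec, add_zero, zero_add, Matrix.one_mulVec]
    congr 1 <;> funext a <;> by_cases ha : a = l <;> simp [Matrix.mulVec_diagonal, ha]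
  have hwfx : ∀ (l : Fin r) (gl : ↥(SUh I r e)), mat gl = wM I e {l} → k.val ≤ l.val → Fx k.val gl := by
    intro l gl hl hkl i hi
    have hil : i ≠ l := fun h => by subst h; omega
    constructor
    · rw [be_eq, hwm l gl hl]; congr 1 <;> funext a <;> by_cases ha : a = l <;> simp [ha, hil.symm]
    · rw [bf_eq, hwm l gl hl]; congr 1 <;> funext a <;> by_cases ha : a = l <;> simp [ha, hil.symm]
  have iso : ∀ (g : ↥(SUh I r e)) (x : Ix r e), (x = .inl k ∨ x = .inr (.inr k)) →
      ∑ a, I.σ (mat g (.inl a) x) * mat g (.inr (.inr a)) x + ∑ a, I.σ (mat g (.inr (.inl a)) x) * mat g (.inr (.inl a)) x +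
        ∑ a, I.σ (mat g (.inr (.inr a)) x) * mat g (.inl a) x = 0 := by
    rintro g x (rfl | rfl) <;> rw [form_entry] <;> simp [Φ, b3]
  have below : ∀ (g : ↥(SUh I r e)), Fx k.val g → ∀ x : Ix r e, (x = .inl k ∨ x = .inr (.inr k)) → ∀ i : Fin r,
      i.val < k.val → mat g (.inl i) x = 0 ∧ mat g (.inr (.inr i)) x = 0 := by
    intro g hg x hx i hi
    have hik : i ≠ k := fun h => by subst h; omega
    obtain ⟨h1, h2⟩ := zero_below hg x i hi
    rcases hx with rfl | rfl <;> exact ⟨h1.trans (by simp [Φ, b3, hik]), h2.trans (by simp [Φ, b3, hik])⟩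
  -- some coordinate of the image of the second vector
  obtain ⟨h1, h1H, h1F, hnz⟩ : ∃ h1 ∈ H, Fx k.val h1 ∧ mat (h1 * g) (.inr (.inr k)) (.inr (.inr k)) ≠ 0 := by
    have hne : ∃ j : Fin r, mat g (.inl j) (.inr (.inr k)) ≠ 0 ∨ mat g (.inr (.inr j)) (.inr (.inr k)) ≠ 0 := by
      by_contra hc
      push Not at hc
      have h0 := iso g (.inr (.inr k)) (Or.inr rfl)
      have h1 := form_entry g (.inr (.inr k)) (.inl k)
      simp only [(fun a => (hc a).1), (fun a => (hc a).2), map_zero, zero_mul, Finset.sum_const_zero, zero_add,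
        add_zero, mul_zero] at h0 h1
      have hm : ∀ a : Fin e, mat g (.inr (.inl a)) (.inr (.inr k)) = 0 := fun a => by
        rw [Finset.sum_eq_single a (fun j _ hj => absurd (Fin.ext (by omega)) hj) (by simp)] at h0
        rcases mul_eq_zero.1 h0 with h | h
        · exact (map_eq_zero I.σ).1 h
        · exact h
      simp only [hm, map_zero, zero_mul, Finset.sum_const_zero] at h1
      simp [Φ, b3] at h1
    obtain ⟨j, hj⟩ := hne
    have hkj : k.val ≤ j.val := by
      by_contra hlt
      obtain ⟨e1, e2⟩ := below g hg (.inr (.inr k)) (Or.inr rfl) j (by omega)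
      exact hj.elim (· e1) (· e2)
    obtain ⟨h0, h0H, h0F, hj'⟩ : ∃ h0 ∈ H, Fx k.val h0 ∧ mat (h0 * g) (.inr (.inr j)) (.inr (.inr k)) ≠ 0 := by
      by_cases hz : mat g (.inr (.inr j)) (.inr (.inr k)) = 0
      · obtain ⟨gl, glH, hgl⟩ := hW j
        refine ⟨gl, glH, hwfx j gl hgl hkj, ?_⟩
        have := congrFun (hwm j gl hgl (fun a => mat g (.inl a) (.inr (.inr k)))
          (fun a => mat g (.inr (.inl a)) (.inr (.inr k))) (fun a => mat g (.inr (.inr a)) (.inr (.inr k)))) (.inr (.inr j))
        rw [← col_eq, Matrix.mulVec_mulVec, ← mat_mul, Matrix.mulVec_single_one, Matrix.col_apply] at this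
        rw [this]
        simp [v3, I.ξ_ne, hj.resolve_right (fun h => h hz)]
      · exact ⟨1, one_mem _, fun i _ => by simp [mat_one], by rwa [one_mul]⟩
    by_cases hk0 : mat (h0 * g) (.inr (.inr k)) (.inr (.inr k)) = 0
    · have hjk : j ≠ k := fun h => hj' (h ▸ hk0)
      let L : Lev I r e := xq I j k 1
      refine ⟨levG he L * h0, mul_mem (hA L) h0H, Fx.mul ?_ h0F, ?_⟩
      · intro i hi
        have hik : i ≠ k := fun h => by subst h; omega
        have hij : i ≠ j := fun h => by subst h; omega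
        constructor
        · rw [be_eq, mat_levG, b3_mulVec]
          simp only [Matrix.zero_mulVec, Matrix.mulVec_zero, add_zero]
          congr 1
          have := xg_single (F := F) hjk 1 i
          rw [if_neg hik] at this
          exact this
        · rw [bf_eq, mat_levG, b3_mulVec]
          simp only [Matrix.zero_mulVec, Matrix.mulVec_zero, add_zero, zero_add]
          congr 1
          show dag I (((xg j k (1 : F)))⁻¹ : GL (Fin r) F).1 *ᵥ _ = _
          rw [SpPres.xg_inv, show (xg j k (-1 : F) : GL (Fin r) F).1 = 1 + Matrix.single j k (-1) from rx_coe hjk _,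
            dag_add, dag_one, dag_single, Matrix.add_mulVec, Matrix.one_mulVec, Matrix.single_mulVec_eq]
          simp [hij.symm]
      · rw [mul_assoc, mat_mul, Matrix.mul_apply, Fintype.sum_sum_type, Fintype.sum_sum_type, mat_levG]
        simp only [b3, Matrix.fromBlocks_apply₂₁, Matrix.fromBlocks_apply₂₂, Matrix.fromRows_apply_inr,
          Matrix.zero_apply, zero_mul, Finset.sum_const_zero, zero_add]
        show ∑ a, dag I (((xg j k (1 : F)))⁻¹ : GL (Fin r) F).1 k a * _ ≠ 0
        rw [SpPres.xg_inv, show (xg j k (-1 : F) : GL (Fin r) F).1 = 1 + Matrix.single j k (-1) from rx_coe hjk _,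
          dag_add, dag_one, dag_single]
        simpa [Matrix.add_apply, Matrix.one_apply, Matrix.single_apply, add_mul, Finset.sum_add_distrib, hk0] using hj'
    · exact ⟨h0, h0H, h0F, hk0⟩
  set g1 := h1 * g
  have hg1 : Fx k.val g1 := h1F.mul hg
  obtain ⟨h2, h2H, h2F, -, h2v⟩ := kill H he hA hT hP (k := k) (x := fun a => mat g1 (.inl a) (.inr (.inr k)))
    (m := fun a => mat g1 (.inr (.inl a)) (.inr (.inr k))) (y := fun a => mat g1 (.inr (.inr a)) (.inr (.inr k)))
    (fun i hi => (below g1 hg1 _ (Or.inr rfl) i hi).1) (fun i hi => (below g1 hg1 _ (Or.inr rfl) i hi).2) hnz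
    (iso g1 _ (Or.inr rfl))
  set c0 := mat g1 (.inr (.inr k)) (.inr (.inr k))
  set g2 := h2 * g1
  have hg2 : Fx k.val g2 := h2F.mul hg1
  have hf2 : mat g2 *ᵥ bf k = c0 • bf k := by
    rw [mat_mul, ← Matrix.mulVec_mulVec, bf, col_eq, ← bf]; exact h2v
  obtain ⟨w, wH, hw⟩ := hW k
  set g3 := w * g2
  have hg3 : Fx k.val g3 := (hwfx k w hw le_rfl).mul hg2
  have hf3 : mat g3 *ᵥ bf k = (c0 * I.ξ) • be k := by
    rw [mat_mul, ← Matrix.mulVec_mulVec, hf2, Matrix.mulVec_smul, bf_eq, hwm k w hw]
    rw [be_eq]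
    funext z
    rcases z with z | z | z <;> simp [v3, Pi.single_apply]
    all_goals (by_cases hz : z = k <;> simp [hz, mul_comm])
  have hnz3 : mat g3 (.inr (.inr k)) (.inl k) ≠ 0 := by
    intro h0
    have h1 := form_entry g3 (.inr (.inr k)) (.inl k)
    have hc := fun z => congrFun hf3 z
    simp only [bf, Matrix.mulVec_single_one, Matrix.col_apply] at hc
    simp [hc, be, Pi.single_apply, apply_ite I.σ, h0] at h1
    simp [Φ, b3] at h1
  obtain ⟨h4, h4H, h4F, h4e, h4v⟩ := kill H he hA hT hP (k := k) (x := fun a => mat g3 (.inl a) (.inl k))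
    (m := fun a => mat g3 (.inr (.inl a)) (.inl k)) (y := fun a => mat g3 (.inr (.inr a)) (.inl k))
    (fun i hi => (below g3 hg3 _ (Or.inl rfl) i hi).1) (fun i hi => (below g3 hg3 _ (Or.inl rfl) i hi).2) hnz3
    (iso g3 _ (Or.inl rfl))
  set d := mat g3 (.inr (.inr k)) (.inl k)
  refine ⟨w * h4 * w * h2 * h1, mul_mem (mul_mem (mul_mem (mul_mem wH h4H) wH) h2H) h1H, ?_⟩
  rw [show w * h4 * w * h2 * h1 * g = w * (h4 * g3) by simp only [g3, g2, g1, mul_assoc]]
  have e1 : mat (w * (h4 * g3)) *ᵥ be k = (d * I.ξ) • be k := by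
    rw [mat_mul, mat_mul, ← Matrix.mulVec_mulVec, ← Matrix.mulVec_mulVec, be, col_eq, ← be, h4v,
      Matrix.mulVec_smul, bf_eq, hwm k w hw, be_eq]
    funext z
    rcases z with z | z | z <;> simp [v3, Pi.single_apply]
    all_goals (by_cases hz : z = k <;> simp [hz, mul_comm])
  have e2 : mat (w * (h4 * g3)) *ᵥ bf k = (c0 * I.ξ * -I.ξ⁻¹) • bf k := by
    rw [mat_mul, mat_mul, ← Matrix.mulVec_mulVec, ← Matrix.mulVec_mulVec, hf3, Matrix.mulVec_smul, h4e,
      Matrix.mulVec_smul, be_eq, hwm k w hw, bf_eq]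
    funext z
    rcases z with z | z | z <;> simp [v3, Pi.single_apply]
    all_goals (by_cases hz : z = k <;> simp [hz, mul_comm, mul_left_comm])
  refine ⟨(hwfx k w hw le_rfl).mul (h4F.mul hg3), d * I.ξ, mul_ne_zero hnz3 I.ξ_ne, e1, ?_⟩
  rw [e2]
  congr 1
  have h1 := form_entry (w * (h4 * g3)) (.inl k) (.inr (.inr k))
  have hc1 := fun z => congrFun e1 z
  have hc2 := fun z => congrFun e2 z
  simp only [be, bf, Matrix.mulVec_single_one, Matrix.col_apply] at hc1 hc2
  simp [hc1, hc2, Pi.single_apply, Φ, b3, apply_ite I.σ] at h1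
  rw [map_mul]
  field_simp [I.ξ_ne, hnz3, σ_ne I hnz3] at h1 ⊢
  linear_combination h1

include hA hT hP hW in
theorem gen_eq_top : H = ⊤ := by
  classical
  rw [eq_top_iff]
  suffices h : ∀ j, j ≤ r → ∀ g : ↥(SUh I r e), Fx (r - j) g → g ∈ H by
    intro g _; exact h r le_rfl g (fun i hi => by omega)
  intro j
  induction j with
  | zero =>
    intro _ g hg
    have hcol : ∀ x i, mat g (.inl i) x = (1 : Matrix (Ix r e) (Ix r e) F) (.inl i) x ∧
        mat g (.inr (.inr i)) x = (1 : Matrix (Ix r e) (Ix r e) F) (.inr (.inr i)) x := by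
      intro x i
      obtain ⟨h1, h2⟩ := zero_below hg x i (by have := i.2; omega)
      rw [h1, h2]
      rcases x with x | x | x <;> simp [Φ, b3, Matrix.one_apply]
    have hb : mat g = b3 1 0 0 0 (blk11 (mat g)) 0 0 0 1 := by
      ext (i | i | i) (x | x | x) <;> try (first
        | (rw [(hcol _ i).1]; simp [b3, Matrix.one_apply]; done)
        | (rw [(hcol _ i).2]; simp [b3, Matrix.one_apply]; done))
      · have := congrFun (hg x (by have := x.2; omega)).1 (.inr (.inl i))
        simpa [be, b3, Pi.single_apply, Matrix.mulVec_single_one] using this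
      · simp [b3, blk11]
      · have := congrFun (hg x (by have := x.2; omega)).2 (.inr (.inl i))
        simpa [bf, b3, Pi.single_apply, Matrix.mulVec_single_one] using this
    have h1 : g = 1 := by
      have hdet : (blk11 (mat g)).det = 1 := by
        have := g.1.2
        rw [show (g.1 : Matrix (Ix r e) (Ix r e) F) = mat g from rfl, hb, det_upper] at this
        simpa using this
      apply ext_mat
      rw [mat_one, hb, ← b3_one]
      congr 1
      ext i i'
      have hsub : Subsingleton (Fin e) := Fin.subsingleton_iff_le_one.2 he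
      rw [Subsingleton.elim i' i, Matrix.one_apply_eq, ← hdet, Matrix.det_eq_elem_of_subsingleton _ i]
    rw [h1]; exact one_mem _
  | succ j ih =>
    intro hj g hg
    let k : Fin r := ⟨r - (j + 1), by omega⟩
    obtain ⟨h, hH, hF, c, hc, e1, e2⟩ := step H he hA hT hP hW (k := k) hg
    suffices h2 : ∃ L : Lev I r e, Fx (r - j) (levG he L * (h * g)) by
      obtain ⟨L, hL⟩ := h2
      have := ih (by omega) _ hL
      simpa using mul_mem (inv_mem hH) (mul_mem (inv_mem (hA L)) this)
    obtain ⟨D, hD0, hD1⟩ : ∃ D : Lev I r e, ∃ δ : Fin r → Fˣ,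
        (((D : GL (Fin r) F) : Matrix (Fin r) (Fin r) F) = Matrix.diagonal fun a => (δ a : F)) ∧
        (δ k : F) = c⁻¹ ∧ ∀ i, i.val < k.val → δ i = 1 := by
      by_cases hlast : j = 0
      · have hcD : Units.mk0 c⁻¹ (inv_ne_zero hc) ∈ Dl I e := by
          intro h0
          subst h0
          have hG := hF
          have hcol : ∀ x i, i ≠ k → mat (h * g) (.inl i) x = (1 : Matrix (Ix r 0) (Ix r 0) F) (.inl i) x ∧
              mat (h * g) (.inr (.inr i)) x = (1 : Matrix (Ix r 0) (Ix r 0) F) (.inr (.inr i)) x := by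
            intro x i hi
            obtain ⟨h1, h2⟩ := zero_below hF x i (by
              have := i.2; have : i.val ≠ k.val := fun e => hi (Fin.ext e)
              simp only [k] at this ⊢; omega)
            rw [h1, h2]
            rcases x with x | x | x <;> simp [Φ, b3, Matrix.one_apply]
          have hk1 := fun z => congrFun e1 z
          have hk2 := fun z => congrFun e2 z
          simp only [be, bf, Matrix.mulVec_single_one, Matrix.col_apply] at hk1 hk2
          have hz : ∀ x, x ≠ (.inl k : Ix r 0) → x ≠ .inr (.inr k) →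
              mat (h * g) *ᵥ Pi.single x 1 = Pi.single x 1 := by
            intro x hx hx'
            rcases x with x | x | x
            · exact (hF x (by have := x.2; have : x.val ≠ k.val := fun e => hx (by rw [Fin.ext e])
                              simp only [k] at this ⊢; omega)).1
            · exact x.elim0
            · exact (hF x (by have := x.2; have : x.val ≠ k.val := fun e => hx' (by rw [Fin.ext e])
                              simp only [k] at this ⊢; omega)).2
          have hm : mat (h * g) = Matrix.diagonal fun x : Ix r 0 =>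
              if x = .inl k then c else if x = .inr (.inr k) then (I.σ c)⁻¹ else 1 := by
            refine Matrix.ext_of_mulVec_single fun x => ?_
            rw [Matrix.diagonal_mulVec_single, mul_one]
            by_cases hx : x = .inl k
            · subst hx; rw [show (Pi.single (Sum.inl k) 1 : Ix r 0 → F) = be k from rfl, e1]
              funext z; simp [be, Pi.single_apply]
            by_cases hx' : x = .inr (.inr k)
            · subst hx'; rw [show (Pi.single (Sum.inr (Sum.inr k)) 1 : Ix r 0 → F) = bf k from rfl, e2]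
              funext z; simp [bf, Pi.single_apply]
            rw [hz x hx hx', if_neg hx, if_neg hx']
          have hd := (h * g).1.2
          rw [show ((h * g).1 : Matrix (Ix r 0) (Ix r 0) F) = mat (h * g) from rfl, hm, Matrix.det_diagonal,
            Fintype.prod_sum_type, Fintype.prod_sum_type] at hd
          simp at hd
          rw [Units.val_mk0, map_inv₀]
          have := σ_ne I hc
          field_simp at hd ⊢
          linear_combination hd
        refine ⟨dq I k ⟨_, hcD⟩, fun a => if a = k then Units.mk0 c⁻¹ (inv_ne_zero hc) else 1, ?_, by simp, ?_⟩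
        · rw [coe_dq]
          show Matrix.diagonal _ = _
          congr 1; funext a; split_ifs <;> simp_all
        · intro i hi; simp only; rw [if_neg]; intro h; subst h; omega
      · let k' : Fin r := ⟨k.val + 1, by simp only [k]; omega⟩
        have hkk : k ≠ k' := fun h => by have := congrArg Fin.val h; simp [k'] at this
        let u := Units.mk0 c⁻¹ (inv_ne_zero hc)
        refine ⟨⟨dg k u * dg k' u⁻¹, mem_Lev_of_det I (by rw [map_mul, det_dg, det_dg, mul_inv_cancel])⟩,
          fun a => (if a = k then u else 1) * (if a = k' then u⁻¹ else 1), ?_, ?_, ?_⟩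
        · show ((dg k u * dg k' u⁻¹ : GL (Fin r) F) : Matrix (Fin r) (Fin r) F) = _
          rw [Units.val_mul]
          refine Eq.trans (Matrix.diagonal_mul_diagonal _ _) ?_
          congr 1; funext a; split_ifs <;> simp_all
        · simp [hkk, u]
        · intro i hi
          have h1 : i ≠ k := fun h => by subst h; omega
          have h2 : i ≠ k' := fun h => by subst h; simp [k'] at hi
          simp [h1, h2]
    obtain ⟨hDm, hDk, hDi⟩ := hD1
    refine ⟨D, fun i hi => ?_⟩
    have hik : i.val ≤ k.val := by simp only [k]; omega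
    have hinv : (((D : GL (Fin r) F)⁻¹ : GL (Fin r) F) : Matrix (Fin r) (Fin r) F) =
        Matrix.diagonal fun a => (((hD0 a)⁻¹ : Fˣ) : F) := by
      rw [Matrix.coe_units_inv, hDm, Matrix.inv_eq_right_inv]
      rw [Matrix.diagonal_mul_diagonal, ← Matrix.diagonal_one]
      congr 1; funext a; simp
    have key : mat (levG he D) *ᵥ be i = (hD0 i : F) • be i ∧
        mat (levG he D) *ᵥ bf i = (I.σ (hD0 i : F))⁻¹ • bf i := by
      rw [mat_levG, hDm, hinv, be_eq, bf_eq]
      constructor
      · rw [b3_mulVec]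
        funext z; rcases z with z | z | z <;> simp [v3, Pi.single_apply]
      · rw [b3_mulVec]
        funext z
        rcases z with z | z | z <;> simp [v3, Pi.single_apply, dag_apply, Matrix.mulVec, dotProduct, Matrix.diagonal]
        all_goals (by_cases hz : z = i <;> simp [hz, Ne.symm, map_inv₀, apply_ite I.σ])
    rw [mat_mul, ← Matrix.mulVec_mulVec, ← Matrix.mulVec_mulVec]
    rcases hik.lt_or_eq with hlt | heq
    · rw [(hF i hlt).1, (hF i hlt).2, key.1, key.2, hDi i hlt]
      simp
    · have : i = k := Fin.ext heq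
      subst this
      rw [e1, e2, Matrix.mulVec_smul, Matrix.mulVec_smul, key.1, key.2, hDk, smul_smul, smul_smul,
        mul_inv_cancel₀ hc, map_inv₀, inv_inv, inv_mul_cancel₀ (σ_ne I hc), one_smul, one_smul]
      exact ⟨rfl, rfl⟩

end

end Cfsg.Agent.H81.SUPres
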