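import Cfsg.Agent.H81.SUPres.Unip
import Cfsg.Agent.H81.SUPres.Gen

/-!
# The double cosets of the parabolic subgroup and the comparison with the unitary group
-/

set_option autoImplicit false
set_option linter.unusedSectionVars false
set_option maxHeartbeats 1000000

namespace Cfsg.Agent.H81.SUPres

open Equiv Matrix Cfsg.Agent.H58.PSUFusion Cfsg.Agent.H64.SLCover
open Cfsg.Agent.H81.SpPres (ap ap_mul ap_one ap_add ap_smul pm pm_single pm_inv pm_mul dg dg_single xg xg_single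
  det_dg det_xg gl_ext slPart toGL_slPart pm_swap_eq pm_dg)
open scoped MatrixGroups

variable {F : Type*} [Field F] {I : Cfsg.Agent.H58.PSUFusion.Inv F} [Finite F] {e : ℕ}
variable {G : Type*} [Group G] {M : ℕ}

local notation "Vn" => (Fin (M + 2) → F)
local notation "Ln" => Lev I (M + 2) e
local notation "GLn" => GL (Fin (M + 2)) F

/-- The norm of a unit as an admissible determinant. -/
def nU (l : Fˣ) : Dl I e := ⟨l * sU I l, fun _ => by simp [I.invol, mul_comm]⟩

theorem nU_one : nU (I := I) (e := e) 1 = 1 := Subtype.ext (by simp [nU])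

theorem row_lin (X Y : GLn) {l l' : Fin (M + 2)}
    (h : ∀ a, ap X (Pi.single a 1) l = ap Y (Pi.single a 1) l') (v : Vn) : ap X v l = ap Y v l' := by
  simp only [ap, Matrix.mulVec, dotProduct]
  refine Finset.sum_congr rfl fun b _ => ?_
  have := h b
  simp only [ap, Matrix.mulVec_single_one, Matrix.col_apply] at this
  rw [this]

theorem mat_levG_inv_zero (he : e ≤ 1) (A : Ln) :
    blk20 (mat (levG he A)) = 0 ∧ blk00 (mat (levG he A)) =
      ((A : GLn) : Matrix (Fin (M + 2)) (Fin (M + 2)) F) := by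
  rw [mat_levG, blk20_b3, blk00_b3]; exact ⟨rfl, rfl⟩

/-- The first `k` coordinates. -/
def seg (M k : ℕ) : Finset (Fin (M + 2)) := Finset.univ.filter fun a => a.val < k

namespace SuBase

variable {B : SuBase G I e M} (R : B.Rels)

include R

omit R in
/-- The diagonal elements of the Levi subgroup. -/
def IsDiag (A : Ln) : Prop := ∀ a, ∃ l : Fˣ, ap (A : GLn) (Pi.single a 1) = (l : F) • Pi.single a 1

omit R in
theorem isDiag_dq (i : Fin (M + 2)) (c : Dl I e) : IsDiag (dq I i c : Ln) := fun a => by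
  by_cases ha : a = i
  · exact ⟨(c : Fˣ), by rw [coe_dq, dg_single, if_pos ha]⟩
  · exact ⟨1, by rw [coe_dq, dg_single, if_neg ha, Units.val_one]⟩

omit R in
theorem IsDiag.mul {A A' : Ln} (h : IsDiag A) (h' : IsDiag A') : IsDiag (A * A') := fun a => by
  obtain ⟨l, hl⟩ := h a
  obtain ⟨l', hl'⟩ := h' a
  exact ⟨l' * l, by rw [Subgroup.coe_mul, ap_mul, hl', ap_smul, hl, smul_smul, Units.val_mul]⟩

omit R in
theorem IsDiag.inv {A : Ln} (h : IsDiag A) : IsDiag A⁻¹ := fun a => by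
  obtain ⟨l, hl⟩ := h a
  refine ⟨l⁻¹, ?_⟩
  have := congrArg (ap ((A : GLn))⁻¹) hl
  rw [← ap_mul, inv_mul_cancel, ap_one, ap_smul] at this
  rw [Subgroup.coe_inv]
  conv_rhs => rw [this]
  rw [smul_smul, Units.inv_mul, one_smul]

theorem Lk_tor (k : Fin (M + 2)) (c : Dl I e) : Lk R k (t1 B.he c) = Xi R (dq I k c) := by
  have e1 : (dq I k c : Ln) = pq I (swap 0 k) * dq I 0 c * (pq I (swap 0 k))⁻¹ := Subtype.ext (by
    rw [Subgroup.coe_mul, Subgroup.coe_mul, Subgroup.coe_inv, coe_pq, coe_dq, coe_dq, pm_dg, swap_apply_left])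
  rw [e1, map_mul, map_mul, map_inv, Xi_dq0, Lk_apply]

theorem wk_sq (k : Fin (M + 2)) : wk R k * wk R k = Xi R (dq I k ⟨-1, neg_one_mem_Dl I⟩) := by
  rw [← Lk_tor R, wk, ← map_mul, wq_sq B.he]

theorem wk_diag {A : Ln} (hA : IsDiag A) (k : Fin (M + 2)) {l : Fˣ}
    (hl : ap (A : GLn) (Pi.single k 1) = (l : F) • Pi.single k 1) :
    Xi R A * wk R k * (Xi R A)⁻¹ = Xi R (dq I k (nU l)) * wk R k := by
  set π := (pq I (swap 0 k) : Ln)
  have hπ : ∀ a, ap ((π⁻¹ : Ln) : GLn) (Pi.single a 1) = Pi.single (swap 0 k a) 1 := fun a => by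
    rw [Subgroup.coe_inv, coe_pq, pm_inv, swap_inv, pm_single]
  have hb : BlkL (((π⁻¹ * A * π : Ln)) : GLn) l := by
    refine ⟨?_, fun a ha => ?_⟩
    · rw [BlkL.ev', Subgroup.coe_mul, Subgroup.coe_mul, ap_mul, ap_mul, coe_pq, pm_single, swap_apply_left, hl,
        ap_smul, hπ, swap_apply_right]
    · rw [Subgroup.coe_mul, Subgroup.coe_mul, ap_mul, ap_mul, coe_pq, pm_single]
      obtain ⟨l', hl'⟩ := hA (swap 0 k a)
      rw [hl', ap_smul, hπ, swap_apply_self, Pi.smul_apply, Pi.single_eq_of_ne ha.symm, smul_zero]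
  have := blk R (π⁻¹ * A * π) hb wq
  rw [map_mul (Xi R), map_mul (Xi R), map_inv, sig_wq B.he, map_mul B.κ] at this
  have e2 : Xi R π * (B.κ (t1 B.he (nU l)) * B.κ wq) * (Xi R π)⁻¹ = Xi R (dq I k (nU l)) * wk R k := by
    rw [← Lk_tor R, wk, Lk_apply, Lk_apply]; simp only [π]; group
  rw [← e2, show B.κ (t1 B.he (nU l)) * B.κ wq = _ from this.symm, wk, Lk_apply]
  simp only [π]
  group

theorem diag_wk {A : Ln} (hA : IsDiag A) (k : Fin (M + 2)) :
    ∃ A' : Ln, IsDiag A' ∧ wk R k * Xi R A * (wk R k)⁻¹ = Xi R A' := by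
  obtain ⟨l, hl⟩ := hA.inv k
  refine ⟨A * dq I k (nU l), hA.mul (isDiag_dq _ _), ?_⟩
  have := wk_diag R hA.inv k hl
  rw [map_inv, inv_inv] at this
  rw [map_mul]
  calc wk R k * Xi R A * (wk R k)⁻¹ = Xi R A * ((Xi R A)⁻¹ * wk R k * Xi R A) * (wk R k)⁻¹ := by group
    _ = _ := by rw [this]; group

theorem diag_commute {A : Ln} (hA : IsDiag A) {k : Fin (M + 2)}
    (hk : ap (A : GLn) (Pi.single k 1) = Pi.single k 1) : Commute (Xi R A) (wk R k) := by
  have := wk_diag R hA k (l := 1) (by rw [hk, Units.val_one, one_smul])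
  rw [nU_one, map_one, map_one, one_mul] at this
  exact mul_inv_eq_iff_eq_mul.1 this

theorem wk_pairwise (s : Finset (Fin (M + 2))) :
    (s : Set (Fin (M + 2))).Pairwise (Function.onFun Commute (wk R)) :=
  fun _ _ _ _ h => wk_Lk R h _

/-- The product of Weyl elements over a set of coordinates. -/
noncomputable def W (s : Finset (Fin (M + 2))) : G := s.noncommProd (wk R) (wk_pairwise R s)

theorem W_insert {s : Finset (Fin (M + 2))} {l : Fin (M + 2)} (h : l ∉ s) :
    W R (insert l s) = W R s * wk R l :=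
  Finset.noncommProd_insert_of_notMem' _ _ _ _ h

theorem W_erase {s : Finset (Fin (M + 2))} {l : Fin (M + 2)} (h : l ∈ s) :
    W R s = W R (s.erase l) * wk R l := by
  rw [← W_insert R (Finset.notMem_erase l s)]
  congr 1
  exact (Finset.insert_erase h).symm

theorem W_commute {s : Finset (Fin (M + 2))} {y : G} (h : ∀ i ∈ s, Commute (wk R i) y) :
    Commute (W R s) y :=
  (Finset.noncommProd_commute _ _ _ _ fun i hi => (h i hi).symm).symm

theorem W_empty : W R ∅ = 1 := Finset.noncommProd_empty _ _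

theorem f_W (s : Finset (Fin (M + 2))) : mat (B.f (W R s)) = wM I e s := by
  classical
  induction s using Finset.induction_on with
  | empty =>
    rw [W_empty, map_one, mat_one, wM]
    simp [b3_one]
  | @insert l s hls ih =>
    rw [W_insert R hls, map_mul, mat_mul, ih, f_wk R, wM_mul (Finset.disjoint_singleton_right.2 hls),
      Finset.union_comm, ← Finset.insert_eq]

variable (hM : Mix R)
include hM

theorem oh_wk {i j k : Fin (M + 2)} (hjk : j ≠ k) (hij : i ≠ j) (hik : i ≠ k) (c : F) :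
    Commute (wk R i) (oh R j k c) := by
  have h1 : Commute (wk R i) (wk R k) := wk_Lk R hik _
  have h2 : Commute (wk R i) (Xi R (xq I j k (-c / I.ξ))) := (Lk_xq R hjk hij.symm hik.symm _ _).symm
  exact (h1.mul_right h2).mul_right h1.inv_right

/-- The parabolic subgroup of `G`. -/
def P : Subgroup G where
  carrier := {x | ∃ (A : Ln) (y : G), y ∈ U R ∧ x = Xi R A * y}
  one_mem' := ⟨1, 1, one_mem _, by rw [map_one, one_mul]⟩
  mul_mem' := by
    rintro _ _ ⟨A, y, hy, rfl⟩ ⟨A', y', hy', rfl⟩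
    have h := Xi_U R hM A'⁻¹ hy
    refine ⟨A * A', _, mul_mem h hy', ?_⟩
    rw [map_mul, map_inv]; group
  inv_mem' := by
    rintro _ ⟨A, y, hy, rfl⟩
    refine ⟨A⁻¹, _, Xi_U R hM A (inv_mem hy), ?_⟩
    rw [map_inv]; group

theorem Xi_mem (A : Ln) : Xi R A ∈ P R hM := ⟨A, 1, one_mem _, (mul_one _).symm⟩

theorem U_mem_P {y : G} (hy : y ∈ U R) : y ∈ P R hM := ⟨1, y, hy, by rw [map_one, one_mul]⟩

/-- The Levi elements staying in the parabolic after conjugation by a Weyl element. -/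
noncomputable def side (s : Finset (Fin (M + 2))) : Subgroup Ln :=
  (P R hM).comap ((MulAut.conj (W R s)).toMonoidHom.comp (Xi R))

theorem mem_side {s : Finset (Fin (M + 2))} {A : Ln} :
    A ∈ side R hM s ↔ W R s * Xi R A * (W R s)⁻¹ ∈ P R hM := Iff.rfl

theorem diag_side (s : Finset (Fin (M + 2))) {A : Ln} (hA : IsDiag A) : A ∈ side R hM s := by
  classical
  suffices h : ∀ (A : Ln), IsDiag A → ∃ A' : Ln, IsDiag A' ∧ W R s * Xi R A * (W R s)⁻¹ = Xi R A' by
    obtain ⟨A', -, h'⟩ := h A hA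
    rw [mem_side, h']
    exact Xi_mem R hM _
  induction s using Finset.induction_on with
  | empty => exact fun A hA => ⟨A, hA, by rw [W_empty, one_mul, inv_one, mul_one]⟩
  | @insert l s hls ih =>
    intro A hA
    obtain ⟨A1, hA1, e1⟩ := diag_wk R hA l
    obtain ⟨A2, hA2, e2⟩ := ih A1 hA1
    refine ⟨A2, hA2, ?_⟩
    rw [W_insert R hls, ← e2, ← e1]; group

theorem xq_side {s : Finset (Fin (M + 2))} {j i : Fin (M + 2)} (hji : j ≠ i) (h : j ∈ s → i ∈ s) (a : F) :
    xq I j i a ∈ side R hM s := by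
  classical
  rw [mem_side]
  have split : ∀ a b x : G, a * b * x * (a * b)⁻¹ = a * (b * x * b⁻¹) * a⁻¹ := fun a b x => by group
  have hoh : ∀ i j : Fin (M + 2), ∀ a, wk R i * Xi R (xq I j i a) * (wk R i)⁻¹ = oh R j i (-(a * I.ξ)) := by
    intro i j a
    rw [oh, neg_neg, mul_div_cancel_right₀ _ I.ξ_ne]
  by_cases hi : i ∈ s
  · rw [W_erase R hi, split, hoh]
    by_cases hj : j ∈ s
    · have hj' : j ∈ s.erase i := Finset.mem_erase.2 ⟨hji, hj⟩
      let D : Ln := dq I j ⟨-1, neg_one_mem_Dl I⟩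
      let b : F := -(-I.σ (-(a * I.ξ))) / I.ξ
      have e : wk R j * oh R j i (-(a * I.ξ)) * (wk R j)⁻¹ = Xi R (D * xq I i j b * D⁻¹) := by
        rw [← oh_symm R hM hji, oh, map_mul, map_mul, map_inv, ← wk_sq]
        simp only [b]
        group
      rw [W_erase R hj', split, e]
      have hc : Commute (W R ((s.erase i).erase j)) (Xi R (D * xq I i j b * D⁻¹)) := by
        refine W_commute R fun l hl => ?_
        have hlj : l ≠ j := Finset.ne_of_mem_erase hl
        have hli : l ≠ i := Finset.ne_of_mem_erase (Finset.mem_of_mem_erase hl)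
        rw [map_mul, map_mul, map_inv]
        have c1 : Commute (wk R l) (Xi R D) :=
          (diag_commute R (isDiag_dq _ _) (by rw [coe_dq, dg_single, if_neg hlj, one_smul])).symm
        have c2 : Commute (wk R l) (Xi R (xq I i j b)) := (Lk_xq R hji.symm hli.symm hlj.symm _ _).symm
        exact (c1.mul_right c2).mul_right c1.inv_right
      rw [hc.eq, mul_inv_cancel_right]
      exact Xi_mem R hM _
    · have hc : Commute (W R (s.erase i)) (oh R j i (-(a * I.ξ))) :=
        W_commute R fun l hl => oh_wk R hM hji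
          (fun (e : l = j) => hj (e ▸ Finset.mem_of_mem_erase hl)) (Finset.ne_of_mem_erase hl) _
      rw [hc.eq, mul_inv_cancel_right]
      exact U_mem_P R hM (oh_mem R hji _)
  · have hj : j ∉ s := fun hj => hi (h hj)
    have hc : Commute (W R s) (Xi R (xq I j i a)) :=
      W_commute R fun l hl => (Lk_xq R hji (fun (e : j = l) => hj (e ▸ hl)) (fun (e : i = l) => hi (e ▸ hl)) _ _).symm
    rw [hc.eq, mul_inv_cancel_right]
    exact Xi_mem R hM _

theorem pq_side {s : Finset (Fin (M + 2))} {j l : Fin (M + 2)} (h : j ∈ s ↔ l ∈ s) :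
    pq I (swap j l) ∈ side R hM s := by
  rcases eq_or_ne j l with rfl | hjl
  · rw [swap_self, show (pq I (Equiv.refl (Fin (M + 2))) : Ln) = 1 from pq_one]
    exact one_mem _
  · rw [show (pq I (swap j l) : Ln) = dq I l ⟨-1, neg_one_mem_Dl I⟩ * xq I j l 1 * xq I l j (-1) * xq I j l 1 from
      Subtype.ext (pm_swap_eq hjl)]
    exact mul_mem (mul_mem (mul_mem (diag_side R hM s (isDiag_dq _ _)) (xq_side R hM hjl h.1 _))
      (xq_side R hM hjl.symm h.2 _)) (xq_side R hM hjl h.1 _)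

theorem exists_row {s : Finset (Fin (M + 2))} (j : Fin (M + 2)) (t : Finset (Fin (M + 2))) :
    ∀ φ : Vn, φ j ≠ 0 → (∀ a, a ∉ t → a ≠ j → φ a = 0) → (∀ a, φ a ≠ 0 → j ∈ s → a ∈ s) →
      ∃ Q ∈ side R hM s, ∀ a, ap (Q : GLn) (Pi.single a 1) j = φ a := by
  induction t using Finset.induction_on with
  | empty =>
    intro φ hj hsup _
    obtain ⟨o, ho⟩ := exists_ne j
    let u := Units.mk0 (φ j) hj
    let A : Ln := ⟨dg j u * dg o u⁻¹, mem_Lev_of_det I (by rw [map_mul, det_dg, det_dg, mul_inv_cancel])⟩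
    have hA : ∀ a, ap (A : GLn) (Pi.single a 1) =
        ((if a = j then (u : F) else 1) * (if a = o then ((u⁻¹ : Fˣ) : F) else 1)) • (Pi.single a 1 : Vn) := by
      intro a
      show ap (dg j u * dg o u⁻¹) _ = _
      rw [ap_mul, dg_single, ap_smul, dg_single, smul_smul, mul_comm]
    refine ⟨A, diag_side R hM s fun a => ?_, fun a => ?_⟩
    · exact ⟨(if a = j then u else 1) * (if a = o then u⁻¹ else 1), by
        rw [hA, Units.val_mul]; split_ifs <;> simp⟩
    · rw [hA, Pi.smul_apply, Pi.single_apply]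
      by_cases ha : a = j
      · subst ha; simp [ho.symm, u]
      · simp [Ne.symm ha, hsup a (Finset.notMem_empty _) ha]
  | @insert i t hit ih =>
    intro φ hj hsup hall
    by_cases hi : i = j ∨ φ i = 0
    · refine ih φ hj (fun a hat haj => ?_) hall
      by_cases hai : a = i
      · subst hai; exact hi.resolve_left haj
      · exact hsup a (by simp [hai, hat]) haj
    push Not at hi
    obtain ⟨hij, hφi⟩ := hi
    obtain ⟨Q, hQ, hrow⟩ := ih (Function.update φ i 0) (by rwa [Function.update_of_ne hij.symm])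
      (fun a hat haj => by
        by_cases hai : a = i
        · subst hai; exact Function.update_self _ _ _
        · rw [Function.update_of_ne hai]; exact hsup a (by simp [hai, hat]) haj)
      (fun a ha hjs => by
        by_cases hai : a = i
        · subst hai; simp at ha
        · rw [Function.update_of_ne hai] at ha; exact hall a ha hjs)
    refine ⟨Q * xq I j i (φ i / φ j), mul_mem hQ (xq_side R hM hij.symm (fun h => hall i hφi h) _), fun a => ?_⟩
    rw [Subgroup.coe_mul, coe_xq, ap_mul, xg_single hij.symm]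
    by_cases hai : a = i
    · subst hai
      rw [if_pos rfl, ap_add, ap_smul, Pi.add_apply, Pi.smul_apply, hrow, hrow,
        Function.update_self, Function.update_of_ne hij.symm, smul_eq_mul, zero_add, div_mul_cancel₀ _ hj]
    · rw [if_neg hai, hrow, Function.update_of_ne hai]

/-- The Levi elements staying in the parabolic after conjugation by the first Weyl element. -/
noncomputable def side0 : Subgroup Ln :=
  (P R hM).comap ((MulAut.conj (wk R 0)⁻¹).toMonoidHom.comp (Xi R))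

theorem mem_side0 {A : Ln} : A ∈ side0 R hM ↔ (wk R 0)⁻¹ * Xi R A * wk R 0 ∈ P R hM := by
  show (wk R 0)⁻¹ * Xi R A * ((wk R 0)⁻¹)⁻¹ ∈ P R hM ↔ _
  rw [inv_inv]

theorem xq_side0 {a : Fin (M + 2)} (ha : a ≠ 0) (c : F) : xq I a 0 c ∈ side0 R hM := by
  rw [mem_side0]
  let D : Ln := dq I 0 ⟨-1, neg_one_mem_Dl I⟩
  have hd : (D⁻¹ * xq I a 0 c * D : Ln) = xq I a 0 (-c) := by
    rw [mul_assoc, inv_mul_eq_iff_eq_mul]
    refine Subtype.ext (gl_ext fun b => ?_)
    simp only [D, Subgroup.coe_mul, coe_dq, coe_xq, ap_mul, dg_single, ap_smul, xg_single ha]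
    by_cases hb : b = 0
    · subst hb
      simp [ha, smul_smul, dg_single]
    · simp [hb, dg_single]
  have e : (wk R 0)⁻¹ * Xi R (xq I a 0 c) * wk R 0 = oh R a 0 (c * I.ξ) := by
    have hw : wk R 0 * wk R 0 = Xi R D := wk_sq R 0
    calc (wk R 0)⁻¹ * Xi R (xq I a 0 c) * wk R 0
        = wk R 0 * ((wk R 0 * wk R 0)⁻¹ * Xi R (xq I a 0 c) * (wk R 0 * wk R 0)) * (wk R 0)⁻¹ := by group
      _ = _ := by
        rw [hw, ← map_inv, ← map_mul, ← map_mul, hd, oh]
        rw [show -(c * I.ξ) / I.ξ = -c by field_simp [I.ξ_ne]]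
  rw [e]
  exact U_mem_P R hM (oh_mem R ha _)

theorem lower_side0 {A : Ln} (hrow : ∀ a, ap (A : GLn) (Pi.single a 1) 0 = if a = 0 then 1 else 0) :
    A ∈ side0 R hM := by
  classical
  suffices h : ∀ (t : Finset (Fin (M + 2))) (A : Ln),
      (∀ a, ap (A : GLn) (Pi.single a 1) 0 = if a = 0 then 1 else 0) →
      (∀ i, i ≠ 0 → i ∉ t → ap (A : GLn) (Pi.single 0 1) i = 0) → A ∈ side0 R hM from
    h Finset.univ A hrow fun i _ h => absurd (Finset.mem_univ i) h
  intro t
  induction t using Finset.induction_on with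
  | empty =>
    intro A hrow hcol
    have hb : BlkL (A : GLn) 1 := by
      refine ⟨funext fun i => ?_, fun a ha => by rw [hrow, if_neg ha]⟩
      rw [BlkL.ev']
      by_cases hi : i = 0
      · subst hi; rw [hrow, if_pos rfl]; simp
      · rw [hcol i hi (Finset.notMem_empty _)]; simp [hi]
    rw [mem_side0]
    have hc : Commute (Xi R A) (wk R 0) := by
      rw [wk_zero]
      have := blk R A hb wq
      rw [sig_wq B.he] at this
      rw [show (⟨(1 : Fˣ) * sU I 1, fun _ => by simp⟩ : Dl I e) = 1 from Subtype.ext (by simp), map_one,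
        one_mul] at this
      exact mul_inv_eq_iff_eq_mul.1 this
    rw [mul_assoc, hc.eq, ← mul_assoc, inv_mul_cancel, one_mul]
    exact Xi_mem R hM _
  | @insert i t hit ih =>
    intro A hrow hcol
    by_cases hi : i = 0
    · exact ih A hrow fun a ha hat => hcol a ha (by simp [hi, ha, hat])
    let c := ap (A : GLn) (Pi.single 0 1) i
    have hA' : xq I i 0 (-c) * A ∈ side0 R hM := by
      have hz : ∀ v : Vn, ap (xg i 0 (-c) : GLn) v = v + (-c * v 0) • Pi.single i 1 := by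
        intro v
        show ((xg i 0 (-c) : GLn) : Matrix (Fin (M + 2)) (Fin (M + 2)) F) *ᵥ v = _
        rw [show ((xg i 0 (-c) : GLn) : Matrix (Fin (M + 2)) (Fin (M + 2)) F) = 1 + Matrix.single i 0 (-c) from
          rx_coe hi _, Matrix.add_mulVec, Matrix.one_mulVec, Matrix.single_mulVec_eq]
      refine ih _ (fun a => ?_) fun a ha hat => ?_
      · rw [Subgroup.coe_mul, coe_xq, ap_mul, hz, Pi.add_apply, Pi.smul_apply, hrow a]; simp [Ne.symm hi]
      · rw [Subgroup.coe_mul, coe_xq, ap_mul, hz, Pi.add_apply, Pi.smul_apply, hrow 0, if_pos rfl]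
        by_cases hai : a = i
        · subst hai; simp [c]
        · rw [hcol a ha (by simp [hai, hat])]; simp [hai]
    have e : A = xq I i 0 c * (xq I i 0 (-c) * A) := by
      rw [← mul_assoc, show (xq I i 0 c : Ln) * xq I i 0 (-c) = 1 from Subtype.ext (by
        rw [Subgroup.coe_mul, coe_xq, coe_xq, ← SpPres.xg_add, add_neg_cancel, SpPres.xg_zero]; rfl), one_mul]
    rw [e]
    exact mul_mem (xq_side0 R hM hi c) hA'

omit hM in
/-- The unipotent radical without its first root group. -/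
def U' : Subgroup G := Subgroup.closure
  ({x | ∃ l p, l ≠ 0 ∧ x = B.T (Pi.single l 1) p} ∪ {x | ∃ j k t, j ≠ k ∧ x = oh R j k t})

theorem U'_side0 {y : G} (hy : y ∈ U' R) : (wk R 0)⁻¹ * y * wk R 0 ∈ P R hM := by
  refine (Subgroup.closure_le ((P R hM).comap (MulAut.conj (wk R 0)⁻¹).toMonoidHom)).2 ?_ hy |> fun h => by
    rw [Subgroup.mem_comap] at h
    simpa [MulAut.conj_apply] using h
  intro y hy
  show (wk R 0)⁻¹ * y * ((wk R 0)⁻¹)⁻¹ ∈ P R hM
  rw [inv_inv]
  have hfix : Commute (wk R 0) y → y ∈ P R hM → (wk R 0)⁻¹ * y * wk R 0 ∈ P R hM := by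
    intro hc hm
    rwa [mul_assoc, ← hc.eq, inv_mul_cancel_left]
  have back : ∀ a x, (wk R 0)⁻¹ * oh R a 0 x * wk R 0 ∈ P R hM := fun a x => by
    rw [oh, show ∀ w x : G, w⁻¹ * (w * x * w⁻¹) * w = x from fun w x => by group]
    exact Xi_mem R hM _
  rcases hy with ⟨l, p, hl, rfl⟩ | ⟨j, k, t, hjk, rfl⟩
  · refine hfix ?_ (U_mem_P R hM (T_single_mem R l p))
    rw [T_single R]; exact wk_Lk R hl.symm _
  · by_cases hk : k = 0
    · subst hk; exact back j t
    by_cases hj : j = 0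
    · subst hj; rw [← oh_symm R hM hjk]; exact back k _
    exact hfix (oh_wk R hM hjk (Ne.symm hj) (Ne.symm hk) t) (U_mem_P R hM (oh_mem R hjk t))

theorem U_split {x : G} (hx : x ∈ U R) :
    ∃ p, ∃ y ∈ U' R, x = B.T (Pi.single 0 1) p * y := by
  have hn : ∀ p, ∀ y ∈ U' R, B.T (Pi.single 0 1) p * y * (B.T (Pi.single 0 1) p)⁻¹ ∈ U' R := by
    intro p y hy
    refine (Subgroup.closure_le ((U' R).comap (MulAut.conj (B.T (Pi.single 0 1) p)).toMonoidHom)).2 ?_ hy
    rintro _ (⟨m, q, hm, rfl⟩ | ⟨j, k, t, hjk, rfl⟩)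
    · show _ * _ * _ ∈ U' R
      obtain ⟨z, hz', e1⟩ := commutator_Z R hM hm p q
      have hz := Zo_le R hz'
      have e2 : B.T (Pi.single 0 1) p * B.T (Pi.single m 1) q * (B.T (Pi.single 0 1) p)⁻¹ =
          B.T (Pi.single m 1) q * z⁻¹ := by
        rw [mul_inv_eq_iff_eq_mul, mul_assoc _ z⁻¹, ((Z_commute R hM hz _ p).inv_left).eq, ← mul_assoc, e1,
          mul_inv_cancel_right]
      rw [e2]
      refine mul_mem (Subgroup.subset_closure (Or.inl ⟨m, q, hm, rfl⟩)) (inv_mem ?_)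
      exact Subgroup.closure_mono Set.subset_union_right hz'
    · show _ * _ * _ ∈ U' R
      rw [← (oh_central R hM hjk t _ p).eq, mul_inv_cancel_right]
      exact Subgroup.subset_closure (Or.inr ⟨j, k, t, hjk, rfl⟩)
  let S : Subgroup G :=
    { carrier := {x | ∃ p, ∃ y ∈ U' R, x = B.T (Pi.single 0 1) p * y}
      one_mem' := ⟨UP.zero, 1, one_mem _, by rw [T_zero_param R, one_mul]⟩
      mul_mem' := by
        rintro _ _ ⟨p, y, hy, rfl⟩ ⟨p', y', hy', rfl⟩
        refine ⟨p.mu p', _, mul_mem (hn p'.inv y hy) hy', ?_⟩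
        rw [← T_mu R, T_inv R]; group
      inv_mem' := by
        rintro _ ⟨p, y, hy, rfl⟩
        refine ⟨p.inv, _, hn p y⁻¹ (inv_mem hy), ?_⟩
        rw [T_inv R]; group }
  refine (Subgroup.closure_le S).2 ?_ hx
  rintro _ (⟨m, q, rfl⟩ | ho)
  · by_cases hm : m = 0
    · subst hm; exact ⟨q, 1, one_mem _, (mul_one _).symm⟩
    · exact ⟨UP.zero, _, Subgroup.subset_closure (Or.inl ⟨m, q, hm, rfl⟩), by rw [T_zero_param R, one_mul]⟩
  · exact ⟨UP.zero, _, Subgroup.subset_closure (Or.inr ho), by rw [T_zero_param R, one_mul]⟩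

/-- The union of the double cosets. -/
def cells : Set G :=
  {x | ∃ (p p' : G) (k : ℕ), p ∈ P R hM ∧ p' ∈ P R hM ∧ k ≤ M + 2 ∧ x = p * W R (seg M k) * p'}

theorem cells_mul_P {x p : G} (hx : x ∈ cells R hM) (hp : p ∈ P R hM) : x * p ∈ cells R hM := by
  obtain ⟨a, b, k, ha, hb, hk, rfl⟩ := hx
  exact ⟨a, b * p, k, ha, mul_mem hb hp, hk, by group⟩

theorem step_core (k : ℕ) (hkM : k ≤ M + 2) (l : Fin (M + 2)) (hl : l.val = k ∨ l.val + 1 = k) (p : UP I e) :
    W R (seg M k) * Lk R l (uu p) * wk R l ∈ cells R hM := by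
  classical
  have hT : ∀ p, Lk R l (uu p) ∈ P R hM := fun s => by
    rw [← T_single]; exact U_mem_P R hM (T_single_mem R _ _)
  have hcom : ∀ s : Finset (Fin (M + 2)), l ∉ s → ∀ y, Commute (W R s) (Lk R l y) := fun s hs y =>
    W_commute R fun i hi => wk_Lk R (fun (e : i = l) => hs (e ▸ hi)) _
  rcases hl with hl | hl
  · have hls : l ∉ seg M k := by simp [seg, hl]
    have e : seg M (k + 1) = insert l (seg M k) := by
      ext a; simp [seg, Fin.ext_iff, hl]; omega
    refine ⟨Lk R l (uu p), 1, k + 1, hT p, one_mem _, by omega, ?_⟩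
    rw [e, W_insert R hls, (hcom _ hls _).eq]
    group
  · have hls : l ∈ seg M k := by simp [seg]; omega
    set s' := (seg M k).erase l
    have hls' : l ∉ s' := Finset.notMem_erase _ _
    rcases eq_or_ne p.1.2 0 with hp | hp
    · have hseg : seg M l.val = s' := by
        ext a; simp [s', seg, Fin.ext_iff]; omega
      have ha : p.1.1 = 0 := by
        by_contra h
        exact p.2.s_ne B.he h hp
      have hu : uu p = 1 := (uz_congr ha hp (h' := Rel.zero)).trans uz_zero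
      refine ⟨1, Xi R (dq I l ⟨-1, neg_one_mem_Dl I⟩), l.val, one_mem _, Xi_mem R hM _, by omega, ?_⟩
      rw [hu, map_one, mul_one, W_erase R hls, mul_assoc, wk_sq, hseg]
      simp only [s', one_mul]
    · obtain ⟨c, h1, h2, e1⟩ := cell B.he p.2 hp
      refine ⟨Lk R l (uu ⟨(_, _), h1⟩) * Lk R l (t1 B.he c), Lk R l (uu ⟨(_, _), h2⟩), k,
        mul_mem (hT _) (by rw [Lk_tor]; exact Xi_mem R hM _), hT _, hkM, ?_⟩
      rw [W_erase R hls]
      calc W R s' * wk R l * Lk R l (uu p) * wk R l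
          = W R s' * Lk R l (wq * uu p * wq) := by rw [map_mul, map_mul]; simp only [wk, mul_assoc]
        _ = W R s' * (Lk R l (uu ⟨(_, _), h1⟩) * Lk R l (t1 B.he c)) * (wk R l * Lk R l (uu ⟨(_, _), h2⟩)) := by
            rw [show wq * uu p * wq = _ from e1, map_mul, map_mul, map_mul]; simp only [wk, uu, mul_assoc]
        _ = _ := by
            rw [← map_mul, (hcom s' hls' _).eq]
            simp only [mul_assoc, s']

theorem cells_w0 {x : G} (hx : x ∈ cells R hM) : x * wk R 0 ∈ cells R hM := by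
  classical
  obtain ⟨p, _, k, hp, ⟨A, y, hy, rfl⟩, hkM, rfl⟩ := hx
  set s := seg M k
  obtain ⟨q, y', hy', rfl⟩ := U_split R hM hy
  let φ : Vn := fun a => ap ((A : GLn))⁻¹ (Pi.single a 1) 0
  have hφ : φ ≠ 0 := by
    intro h
    have h2 : ap ((A : GLn))⁻¹ (ap (A : GLn) (Pi.single 0 1)) 0 = 0 := by
      simp only [ap, Matrix.mulVec, dotProduct]
      refine Finset.sum_eq_zero fun b _ => ?_
      have hb := congrFun h b
      simp only [φ, ap, Matrix.mulVec_single_one, Matrix.col_apply, Pi.zero_apply] at hb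
      rw [hb, zero_mul]
    rw [← ap_mul, inv_mul_cancel, ap_one] at h2
    simp at h2
  obtain ⟨j, hj, hsup, l, hside, hl⟩ : ∃ j, φ j ≠ 0 ∧ (∀ a, φ a ≠ 0 → j ∈ s → a ∈ s) ∧
      ∃ l, (j ∈ s ↔ l ∈ s) ∧ (l.val = k ∨ l.val + 1 = k) := by
    by_cases h : ∃ j, φ j ≠ 0 ∧ j ∉ s
    · obtain ⟨j, hj, hjs⟩ := h
      have hk : k ≤ j.val := by simpa [s, seg] using hjs
      refine ⟨j, hj, fun a _ h => absurd h hjs, ⟨k, by omega⟩, ?_, Or.inl rfl⟩
      simp [s, seg, hk]
    · push Not at h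
      obtain ⟨j, hj⟩ := Function.ne_iff.1 hφ
      have hjs := h j hj
      have hk : j.val < k := by simpa [s, seg] using hjs
      refine ⟨j, hj, fun a ha _ => h a ha, ⟨min (k - 1) (M + 1), by omega⟩, ?_, ?_⟩
      · simp only [s, seg, Finset.mem_filter, Finset.mem_univ, true_and]; constructor <;> intro <;> omega
      · right; show min (k - 1) (M + 1) + 1 = k; omega
  obtain ⟨Q, hQ, hrow⟩ := exists_row R hM j Finset.univ φ hj
    (fun a h => absurd (Finset.mem_univ a) h) hsup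
  let Q2 : Ln := pq I (swap j l) * Q
  have hQ2 : Q2 ∈ side R hM s := mul_mem (pq_side R hM hside) hQ
  have hpm : ∀ (i j : Fin (M + 2)) (v : Vn), ap ((pq I (swap i j) : Ln) : GLn) v j = v i := by
    intro i j v
    show ((swap i j)⁻¹.permMatrix F *ᵥ v) j = v i
    rw [Matrix.permMatrix_mulVec]; simp
  have hrow2 : ∀ v, ap (Q2 : GLn) v l = ap ((A : GLn))⁻¹ v 0 := fun v => by
    show ap (((pq I (swap j l) : Ln) : GLn) * (Q : GLn)) v l = _
    rw [ap_mul, hpm]
    exact row_lin (Q : GLn) ((A : GLn))⁻¹ hrow v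
  let A0 : Ln := pq I (swap 0 l) * (Q2 * A)
  have hA0 : ∀ a, ap (A0 : GLn) (Pi.single a 1) 0 = if a = 0 then 1 else 0 := by
    intro a
    show ap (((pq I (swap 0 l) : Ln) : GLn) * ((Q2 : GLn) * (A : GLn))) (Pi.single a 1) 0 = _
    rw [ap_mul, Equiv.swap_comm, hpm, ap_mul, hrow2, ← ap_mul, inv_mul_cancel, ap_one, Pi.single_apply]
    simp [eq_comm]
  have hA : A = Q2⁻¹ * (pq I (swap 0 l) * A0) := by
    have : (pq I (swap 0 l) : Ln) * pq I (swap 0 l) = 1 := by
      rw [← pq_mul, Equiv.swap_mul_self, pq_one]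
    show A = Q2⁻¹ * (pq I (swap 0 l) * (pq I (swap 0 l) * (Q2 * A)))
    rw [← mul_assoc (pq I (swap 0 l)), this, one_mul, inv_mul_cancel_left]
  obtain ⟨q'', y'', hy'', hsplit⟩ := U_split R hM
    (T_mem R hM (ap (A0 : GLn) (Pi.single 0 1)) (q.tw (dt A0)))
  have z1 : (wk R 0)⁻¹ * y'' * wk R 0 ∈ P R hM := U'_side0 R hM hy''
  have z2 : (wk R 0)⁻¹ * Xi R A0 * wk R 0 ∈ P R hM := (mem_side0 R hM).1 (lower_side0 R hM hA0)
  have z3 : (wk R 0)⁻¹ * y' * wk R 0 ∈ P R hM := U'_side0 R hM hy'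
  have hπu : ∀ y, Xi R (pq I (swap 0 l)) * B.κ y = Lk R l y * Xi R (pq I (swap 0 l)) := fun y => by
    rw [Lk_apply]; group
  obtain ⟨r, r', k', hr, hr', hk', e⟩ := step_core R hM k hkM l hl q''
  have hn : W R s * Xi R Q2⁻¹ * (W R s)⁻¹ ∈ P R hM := (mem_side R hM).1 (inv_mem hQ2)
  refine ⟨p * (W R s * Xi R Q2⁻¹ * (W R s)⁻¹) * r,
    r' * Xi R (pq I (swap 0 l)) * ((wk R 0)⁻¹ * y'' * wk R 0) * ((wk R 0)⁻¹ * Xi R A0 * wk R 0) *
      ((wk R 0)⁻¹ * y' * wk R 0), k', mul_mem (mul_mem hp hn) hr,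
    mul_mem (mul_mem (mul_mem (mul_mem hr' (Xi_mem R hM _)) z1) z2) z3, hk', ?_⟩
  have key : Xi R A * B.T (Pi.single 0 1) q =
      Xi R Q2⁻¹ * (Lk R l (uu q'') * Xi R (pq I (swap 0 l))) * y'' * Xi R A0 := by
    rw [← hπu]
    have e2 := T_conj R A0 (Pi.single 0 1) q
    rw [hsplit, T_single R, T_single R, Lk_zero, Lk_zero] at e2
    rw [hA, map_mul, map_mul, T_single R, Lk_zero]
    calc Xi R Q2⁻¹ * (Xi R (pq I (swap 0 l)) * Xi R A0) * B.κ (uu q)
        = Xi R Q2⁻¹ * Xi R (pq I (swap 0 l)) * (Xi R A0 * B.κ (uu q) * (Xi R A0)⁻¹) * Xi R A0 := by group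
      _ = _ := by rw [e2]; group
  have hπw : Xi R (pq I (swap 0 l)) * wk R 0 = wk R l * Xi R (pq I (swap 0 l)) := by
    rw [wk_zero]; exact hπu _
  calc p * W R s * (Xi R A * (B.T (Pi.single 0 1) q * y')) * wk R 0
      = p * W R s * (Xi R A * B.T (Pi.single 0 1) q) * y' * wk R 0 := by group
    _ = p * (W R s * Xi R Q2⁻¹ * (W R s)⁻¹) * (W R s * Lk R l (uu q'') * (Xi R (pq I (swap 0 l)) * wk R 0)) *
          ((wk R 0)⁻¹ * y'' * wk R 0) * ((wk R 0)⁻¹ * Xi R A0 * wk R 0) *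
          ((wk R 0)⁻¹ * y' * wk R 0) := by rw [key]; group
    _ = p * (W R s * Xi R Q2⁻¹ * (W R s)⁻¹) * (W R s * Lk R l (uu q'') * wk R l) *
          Xi R (pq I (swap 0 l)) *
          ((wk R 0)⁻¹ * y'' * wk R 0) * ((wk R 0)⁻¹ * Xi R A0 * wk R 0) *
          ((wk R 0)⁻¹ * y' * wk R 0) := by rw [hπw]; group
    _ = _ := by rw [e]; group

omit R hM in
theorem mat_nE_blk20 {a : Matrix (Fin (M + 2)) (Fin e) F} {S : Matrix (Fin (M + 2)) (Fin (M + 2)) F}
    (A : Ln) (he : e ≤ 1) (h : S + dag I S + a * dag I a = 0) :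
    blk20 (mat (levG he A * nE a S h)) = 0 ∧
      blk00 (mat (levG he A * nE a S h)) = ((A : GLn) : Matrix (Fin (M + 2)) (Fin (M + 2)) F) := by
  rw [mat_mul, mat_levG, mat_nE, b3_mul, blk20_b3, blk00_b3]
  simp

theorem f_U {y : G} (hy : y ∈ U R) : B.f y ∈ Rad I e M := by
  refine (Subgroup.closure_le ((Rad I e M).comap B.f)).2 ?_ hy
  rintro _ (⟨l, p, rfl⟩ | ⟨j, k, t, hjk, rfl⟩)
  · obtain ⟨h, e1⟩ := f_T R (Pi.single l 1) p
    exact ⟨_, _, _, e1⟩
  · exact ⟨_, _, _, f_oh R hjk t⟩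

theorem f_P {x : G} (hx : x ∈ P R hM) : blk20 (mat (B.f x)) = 0 ∧ (B.f x = 1 → x = 1) := by
  obtain ⟨A, y, hy, rfl⟩ := hx
  obtain ⟨a, S, h, e1⟩ := f_U R hM hy
  obtain ⟨h20, h00⟩ := mat_nE_blk20 A B.he h
  rw [map_mul, f_Xi R, e1]
  refine ⟨h20, fun h1 => ?_⟩
  rw [h1, mat_one, ← b3_one, blk00_b3] at h00
  have hA : A = 1 := Subtype.ext (Units.ext h00.symm)
  subst hA
  rw [map_one, one_mul] at h1
  rw [map_one, one_mul]
  exact U_injective R hM hy (e1.trans h1)

theorem bijective (hG : Subgroup.closure (Set.range B.Φ ∪ Set.range B.κ) = ⊤)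
    (hK : ∀ y : ↥(SUh I 1 e), y ∈ Subgroup.closure
      (Set.range (uu : UP I e → ↥(SUh I 1 e)) ∪ (Set.range (t1 B.he) ∪ {wq}))) :
    Function.Bijective B.f := by
  classical
  have htop : ∀ x : G, x ∈ cells R hM := by
    intro x
    let Ks : Set G := {y | ∀ z ∈ cells R hM, z * y ∈ cells R hM ∧ z * y⁻¹ ∈ cells R hM}
    let K : Subgroup G :=
      { carrier := Ks
        one_mem' := fun z hz => by simp [hz]
        mul_mem' := fun {a b} ha hb z hz => by
          refine ⟨?_, ?_⟩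
          · rw [← mul_assoc]; exact (hb _ (ha z hz).1).1
          · rw [_root_.mul_inv_rev, ← mul_assoc]; exact (ha _ (hb z hz).2).2
        inv_mem' := fun {a} ha z hz => by rw [inv_inv]; exact (ha z hz).symm }
    have hP : ∀ y ∈ P R hM, y ∈ K := fun y hy z hz =>
      ⟨cells_mul_P R hM hz hy, cells_mul_P R hM hz (inv_mem hy)⟩
    have hw : wk R 0 ∈ K := fun z hz => ⟨cells_w0 R hM hz, by
      have e1 : (wk R 0)⁻¹ = wk R 0 * (Xi R (dq I 0 ⟨-1, neg_one_mem_Dl I⟩))⁻¹ := by rw [← wk_sq]; group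
      rw [e1, ← mul_assoc]; exact cells_mul_P R hM (cells_w0 R hM hz) (inv_mem (Xi_mem R hM _))⟩
    have hκ : ∀ y, B.κ y ∈ K := fun y => by
      refine (Subgroup.closure_le (K.comap B.κ)).2 ?_ (hK y)
      rintro _ (⟨p, rfl⟩ | ⟨c, rfl⟩ | rfl)
      · show B.κ _ ∈ K
        rw [← Lk_zero R, ← T_single R]
        exact hP _ (U_mem_P R hM (T_single_mem R _ _))
      · show B.κ _ ∈ K
        rw [← Xi_dq0 R]
        exact hP _ (Xi_mem R hM _)
      · show B.κ wq ∈ K
        rw [← wk_zero R]; exact hw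
    have hx : x ∈ K := by
      refine (Subgroup.closure_le K).2 ?_ (hG ▸ Subgroup.mem_top x)
      rintro _ (⟨S, rfl⟩ | ⟨y, rfl⟩)
      · exact hP _ (by rw [← Xi_sl R]; exact Xi_mem R hM _)
      · exact hκ y
    have h1 : (1 : G) ∈ cells R hM :=
      ⟨1, 1, 0, one_mem _, one_mem _, Nat.zero_le _, by rw [show seg M 0 = ∅ by simp [seg], W_empty]; group⟩
    simpa using (hx 1 h1).1
  refine ⟨(injective_iff_map_eq_one B.f).2 fun x hx => ?_, ?_⟩
  · obtain ⟨p, p', k, hp, hp', -, rfl⟩ := htop x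
    have hW : B.f (W R (seg M k)) = B.f (p⁻¹ * p'⁻¹) := by
      rw [map_mul, map_mul, mul_eq_one_iff_eq_inv, ← eq_inv_mul_iff_mul_eq] at hx
      rw [hx, map_mul, map_inv, map_inv]
    have hk : seg M k = ∅ := by
      by_contra hne
      obtain ⟨l, hl⟩ := Finset.nonempty_iff_ne_empty.2 hne
      have h2 := congrFun (congrFun (f_P R hM (mul_mem (inv_mem hp) (inv_mem hp'))).1 l) l
      rw [← hW, f_W R, wM, blk20_b3, Matrix.diagonal_apply_eq, if_pos hl] at h2
      simp [I.ξ_ne] at h2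
    rw [hk, W_empty, mul_one] at hx ⊢
    exact (f_P R hM (mul_mem hp hp')).2 hx
  · rw [← MonoidHom.range_eq_top]
    refine gen_eq_top B.f.range B.he (fun A => ⟨_, f_Xi R A⟩) (fun k a s h => ?_)
      (fun j k hjk x => ⟨_, f_oh R hjk x⟩) fun k => ⟨_, ⟨wk R k, rfl⟩, f_wk R k⟩
    obtain ⟨h', e1⟩ := f_T R (Pi.single k 1) (⟨(a, s), h⟩ : UP I e)
    exact ⟨_, e1⟩

end SuBase

end Cfsg.Agent.H81.SUPres
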