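import Cfsg.Agent.H81.SUPres.Cells
import Cfsg.Agent.H81.SpPres.SpAssemble

/-!
# The relations follow from finitely many instances
-/

set_option autoImplicit false
set_option linter.unusedSectionVars false
set_option maxHeartbeats 1000000

namespace Cfsg.Agent.H81.SUPres

open Equiv Matrix Cfsg.Agent.H58.PSUFusion Cfsg.Agent.H64.SLCover
open Cfsg.Agent.H81.SpPres (ap ap_mul ap_one ap_add ap_smul pm pm_single pm_inv pm_mul dg dg_single xg xg_single
  det_dg det_xg gl_ext slPart toGL_slPart dg_xg cjS toGL_cjS blockHom exists_blockHom blk_blockHom)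
open scoped MatrixGroups

variable {F : Type*} [Field F] {I : Cfsg.Agent.H58.PSUFusion.Inv F} [Finite F] {e : ℕ}
variable {G : Type*} [Group G] {M : ℕ}

local notation "Vn" => (Fin (M + 2) → F)
local notation "Ln" => Lev I (M + 2) e
local notation "GLn" => GL (Fin (M + 2)) F

theorem two_span {w : F} (hw : I.σ w ≠ w) (x : F) :
    ∃ α β : F, I.σ α = α ∧ I.σ β = β ∧ x = α + β * w := by
  have h : w - I.σ w ≠ 0 := sub_ne_zero.2 (Ne.symm hw)
  have h' : I.σ w - w ≠ 0 := sub_ne_zero.2 hw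
  set β := (x - I.σ x) / (w - I.σ w) with hβ
  have hb : I.σ β = β := by
    rw [hβ, map_div₀, map_sub, map_sub, I.invol, I.invol]
    field_simp
    ring
  refine ⟨x - β * w, β, ?_, hb, (sub_add_cancel x _).symm⟩
  rw [map_sub, map_mul, hb]
  have : β * (w - I.σ w) = x - I.σ x := div_mul_cancel₀ _ h
  linear_combination this

theorem fix_ind {Q : F → Prop} (h0 : Q 0) (hneg : ∀ s, Q s → Q (-s)) (hadd : ∀ s t, Q s → Q t → Q (s + t))
    (hsq : ∀ k, I.σ k = k → k ≠ 0 → Q (k ^ 2)) {x : F} (hx : I.σ x = x) : Q x := by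
  have hsq' : ∀ k, I.σ k = k → Q (k ^ 2) := fun k hk => by
    rcases eq_or_ne k 0 with rfl | h
    · simpa using h0
    · exact hsq k hk h
  by_cases h2 : (2 : F) = 0
  · haveI : CharP F 2 := (CharP.charP_iff_prime_eq_zero Nat.prime_two).2 (by exact_mod_cast h2)
    obtain ⟨p, hp⟩ : ∃ p, p ^ 2 = x := by
      have hinj : Function.Injective fun y : F => y ^ 2 := fun a b hab => by
        have : (a - b) ^ 2 = 0 := by linear_combination hab + (b ^ 2 - a * b) * h2
        exact sub_eq_zero.1 (pow_eq_zero_iff two_ne_zero |>.1 this)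
      exact Finite.surjective_of_injective hinj x
    rw [← hp]
    refine hsq' p ?_
    have : (I.σ p - p) ^ 2 = 0 := by
      have e1 : I.σ p ^ 2 = p ^ 2 := by rw [← map_pow, hp, hx]
      linear_combination e1 + (p ^ 2 - I.σ p * p) * h2
    exact sub_eq_zero.1 (pow_eq_zero_iff two_ne_zero |>.1 this)
  · rw [show x = ((x + 1) / 2) ^ 2 + -(((x - 1) / 2) ^ 2) by field_simp; ring]
    exact hadd _ _ (hsq' _ (by simp [map_div₀, hx, map_ofNat]))
      (hneg _ (hsq' _ (by simp [map_div₀, hx, map_ofNat])))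

theorem gen_not_fixed {z : Fˣ} (hz : ∀ c : Fˣ, c ∈ Subgroup.zpowers z) :
    I.σ (z : F) ≠ z ∧ I.σ ((chi I z : F)⁻¹) ≠ (chi I z : F)⁻¹ := by
  let K : Subgroup Fˣ :=
    { carrier := {c | I.σ (c : F) = c}
      one_mem' := map_one I.σ
      mul_mem' := fun {a b} ha hb => show I.σ _ = _ by rw [Units.val_mul, map_mul, ha, hb]
      inv_mem' := fun {a} ha => show I.σ _ = _ by rw [Units.val_inv_eq_inv_val, map_inv₀, ha] }
  obtain ⟨x, hx⟩ := I.exists_ne
  have key : ¬ z ^ 2 ∈ K := by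
    intro h
    have hsq : ∀ c : F, I.σ (c ^ 2) = c ^ 2 := fun c => by
      rcases eq_or_ne c 0 with rfl | hc
      · simp
      · obtain ⟨k, hk⟩ := hz (Units.mk0 c hc)
        have h2 := zpow_mem h k
        rw [← zpow_natCast, ← _root_.zpow_mul, mul_comm, _root_.zpow_mul, zpow_natCast, show z ^ k = Units.mk0 c hc from hk] at h2
        simpa [K] using h2
    have a := hsq x
    have b := hsq (x + 1)
    simp only [map_pow, map_add, map_one] at a b
    by_cases h2 : (2 : F) = 0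
    · apply hx
      have : (I.σ x - x) ^ 2 = 0 := by linear_combination a + (x ^ 2 - I.σ x * x) * h2
      exact sub_eq_zero.1 (pow_eq_zero_iff two_ne_zero |>.1 this)
    · exact hx (mul_left_cancel₀ h2 (by linear_combination b - a))
  refine ⟨fun h => key (pow_mem (show z ∈ K from h) 2), fun h => key ?_⟩
  rw [map_inv₀, _root_.inv_inj, σ_chi, chi_val, inv_div, div_eq_div_iff (Units.ne_zero z) (σ_ne I (Units.ne_zero z))] at h
  show I.σ _ = _
  rw [Units.val_pow_eq_pow_val, map_pow, pow_two, pow_two, h]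

theorem mat_t1_dD (he : e ≤ 1) (c : Dl I e) : mat (t1 he c) = dD I e (c : Fˣ) (c : Fˣ) := rfl

theorem sig_t1 (he : e ≤ 1) (c : Dl I e) (y : ↥(SUh I 1 e)) :
    sig I (c : Fˣ) (c : Fˣ) y = t1 he c * y * (t1 he c)⁻¹ := by
  rw [eq_mul_inv_iff_mul_eq]
  apply ext_mat
  rw [mat_mul, mat_mul, mat_sig, mat_t1_dD, Matrix.mul_assoc, dD_mul, inv_mul_cancel, dD_one, Matrix.mul_one]

theorem sig_sig (l d l' d' : Fˣ) (y : ↥(SUh I 1 e)) :
    sig I l d (sig I l' d' y) = sig I (l * l') (d * d') y := by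
  apply ext_mat
  rw [mat_sig, mat_sig, mat_sig, ← dD_mul, show dD I e (l * l')⁻¹ (d * d')⁻¹ = dD I e l'⁻¹ d'⁻¹ * dD I e l⁻¹ d⁻¹ by
    rw [dD_mul, _root_.mul_inv_rev, _root_.mul_inv_rev]]
  simp only [Matrix.mul_assoc]

theorem sig_one (y : ↥(SUh I 1 e)) : sig I 1 1 y = y := sig_of_chi (map_one _) y

/-- An element of determinant one as an element of `SL`. -/
def slOf (A : GLn) (h : Matrix.GeneralLinearGroup.det A = 1) : Matrix.SpecialLinearGroup (Fin (M + 2)) F :=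
  ⟨(A : Matrix (Fin (M + 2)) (Fin (M + 2)) F), congrArg Units.val h⟩

theorem toGL_slOf (A : GLn) (h : Matrix.GeneralLinearGroup.det A = 1) :
    Matrix.SpecialLinearGroup.toGL (slOf A h) = A := Units.ext rfl

theorem det_tS (l : Fˣ) : Matrix.GeneralLinearGroup.det (dg 0 l * dg 1 l⁻¹ : GLn) = 1 := by
  rw [map_mul, det_dg, det_dg, mul_inv_cancel]

variable (M) in
/-- The diagonal determinant one element. -/
def tS : Fˣ →* Matrix.SpecialLinearGroup (Fin (M + 2)) F where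
  toFun l := slOf (dg 0 l * dg 1 l⁻¹ : GLn) (det_tS l)
  map_one' := Matrix.SpecialLinearGroup.toGL_injective (by
    rw [toGL_slOf, map_one, map_one, inv_one, map_one, one_mul])
  map_mul' a b := Matrix.SpecialLinearGroup.toGL_injective (by
    rw [map_mul Matrix.SpecialLinearGroup.toGL, toGL_slOf, toGL_slOf, toGL_slOf]
    have hc : ∀ x y : Fˣ, Commute (dg (1 : Fin (M + 2)) x) (dg (0 : Fin (M + 2)) y) := fun x y => gl_ext fun i => by
      simp only [ap_mul, dg_single, ap_smul, smul_smul, mul_comm]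
    rw [mul_inv, map_mul, map_mul, show ∀ x y u v : GLn, x * y * (u * v) = x * (y * u) * v from
      fun x y u v => by group, ← (hc a⁻¹ b).eq]
    group)

theorem toGL_tS (l : Fˣ) :
    Matrix.SpecialLinearGroup.toGL (tS (F := F) M l) = (dg 0 l * dg 1 l⁻¹ : GLn) := toGL_slOf _ (det_tS l)

/-- A diagonal element of the Levi subgroup. -/
def dia (l m : Fˣ) (h : l * m ∈ Dl I e) : Ln :=
  ⟨dg 0 l * dg 1 m, show Matrix.GeneralLinearGroup.det _ ∈ Dl I e by rw [map_mul, det_dg, det_dg]; exact h⟩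

theorem dt_dia (l m : Fˣ) (h : l * m ∈ Dl I e) : dt (dia l m h : Ln) = l * m := by
  show Matrix.GeneralLinearGroup.det (dg 0 l * dg 1 m : GLn) = _
  rw [map_mul, det_dg, det_dg]

theorem dia_single (l m : Fˣ) (h : l * m ∈ Dl I e) (a : Fin (M + 2)) :
    ap (((dia l m h : Ln)) : GLn) (Pi.single a 1) =
      ((if a = 1 then (m : F) else 1) * (if a = 0 then (l : F) else 1)) • (Pi.single a 1 : Vn) := by
  show ap (dg 0 l * dg 1 m) _ = _
  rw [ap_mul, dg_single, ap_smul, dg_single, smul_smul]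

theorem dia_blk (l m : Fˣ) (h : l * m ∈ Dl I e) : BlkL (((dia l m h : Ln)) : GLn) l := by
  refine ⟨?_, fun a ha => ?_⟩
  · simp [BlkL.ev', dia_single]
  · rw [dia_single, Pi.smul_apply, Pi.single_eq_of_ne ha.symm, smul_zero]

theorem one_mem_Dl' (l : Fˣ) : l * l⁻¹ ∈ Dl I e := by rw [mul_inv_cancel]; exact one_mem _

namespace SuBase

variable (B : SuBase G I e M)

/-- Conjugation by the torus. -/
def HD : Prop :=
  ∀ (c : Dl I e) (S S' : Matrix.SpecialLinearGroup (Fin (M + 2)) F),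
    Matrix.SpecialLinearGroup.toGL S' = dg 0 (c : Fˣ) * Matrix.SpecialLinearGroup.toGL S * (dg 0 (c : Fˣ))⁻¹ →
    B.d c * B.Φ S * (B.d c)⁻¹ = B.Φ S'

variable {B}

theorem xi_mul (hd : B.HD) (A A' : Ln) : B.xi (A * A') = B.xi A * B.xi A' := by
  let a := dt A
  let S' : Matrix.SpecialLinearGroup (Fin (M + 2)) F :=
    ⟨((dg 0 a * Matrix.SpecialLinearGroup.toGL (slPart (A' : GLn)) * (dg 0 a)⁻¹ : GLn) :
        Matrix (Fin (M + 2)) (Fin (M + 2)) F), by
      have : Matrix.GeneralLinearGroup.det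
          (dg 0 a * Matrix.SpecialLinearGroup.toGL (slPart (A' : GLn)) * (dg 0 a)⁻¹) = 1 := by
        rw [toGL_slPart, map_mul, map_mul, map_inv, map_mul, map_inv, det_dg, det_dg, mul_inv_cancel,
          mul_one, mul_inv_cancel]
      exact congrArg Units.val this⟩
  have hS' : Matrix.SpecialLinearGroup.toGL S' =
      dg 0 a * Matrix.SpecialLinearGroup.toGL (slPart (A' : GLn)) * (dg 0 a)⁻¹ := Units.ext rfl
  have e1 : slPart ((A * A' : Ln) : GLn) = slPart (A : GLn) * S' :=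
    Matrix.SpecialLinearGroup.toGL_injective (by
    rw [toGL_slPart, map_mul Matrix.SpecialLinearGroup.toGL, hS', toGL_slPart, toGL_slPart, Subgroup.coe_mul,
      map_mul Matrix.GeneralLinearGroup.det, map_mul (dg 0)]
    simp only [a, dt_apply, mul_assoc, _root_.mul_inv_rev, inv_mul_cancel_left])
  have e2 : (⟨dt (A * A'), (A * A').2⟩ : Dl I e) = ⟨dt A, A.2⟩ * ⟨dt A', A'.2⟩ := Subtype.ext (map_mul dt A A')
  show B.Φ _ * B.d _ = B.Φ _ * B.d _ * (B.Φ _ * B.d _)
  rw [e1, map_mul B.Φ, e2, map_mul B.d, ← hd ⟨dt A, A.2⟩ _ S' hS']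
  group

theorem xi_sl (S : Matrix.SpecialLinearGroup (Fin (M + 2)) F) : B.xi (sl S) = B.Φ S := by
  have h1 := dt_sl (I := I) (e := e) S
  have e1 : slPart (((sl S : Ln)) : GLn) = S := Matrix.SpecialLinearGroup.toGL_injective (by
    rw [toGL_slPart, ← dt_apply, h1, map_one, inv_one, mul_one]; rfl)
  have e2 : (⟨dt (sl S : Ln), (sl S : Ln).2⟩ : Dl I e) = 1 := Subtype.ext h1
  show B.Φ _ * B.d _ = _
  rw [e1, e2, map_one, mul_one]

theorem rels_of_gens {ι : Type*} (y : ι → ↥(SUh I 1 e)) (hy : Subgroup.closure (Set.range y) = ⊤)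
    (g : Dl I e) (hg : ∀ c : Dl I e, c ∈ Subgroup.zpowers g)
    (z : Fˣ) (hz : ∀ c : Fˣ, c ∈ Subgroup.zpowers z)
    (xS : Fin 2 → Matrix.SpecialLinearGroup (Fin (M + 2)) F) (hxS : Subgroup.closure (Set.range xS) = ⊤)
    (xB : Fin 2 → Matrix.SpecialLinearGroup (Fin (M + 1)) F) (hxB : Subgroup.closure (Set.range xB) = ⊤)
    (pu : UP I e) (hpu : ∀ a : Fin e → F, ∃ x : F, a = x • pu.1.1)
    (hd : ∀ i, B.d g * B.Φ (xS i) * (B.d g)⁻¹ = B.Φ (cjS (g : Fˣ) (xS i)))
    (hb : ∀ i j, Commute (B.Φ (blockHom (xB i))) (B.κ (y j)))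
    (htor : ∀ j, B.Φ (tS M z) * B.κ (y j) * (B.Φ (tS M z))⁻¹ = B.κ (sig I z 1 (y j)))
    (hx1 : ∀ c : F, (c = 1 ∨ c = (z : F)) → Commute (B.Φ (rx 0 1 c)) (B.κ (uu pu)))
    (hx2 : ∀ c : F, (c = 1 ∨ c = (z : F)) → Commute (B.Φ (rx 0 1 c)) (B.κ (uu (UP.lo I.ξ I.ξ_trace))))
    (h01u : ∀ j, Commute (B.κ (uu (UP.lo I.ξ I.ξ_trace))) (B.xi π01 * B.κ (y j) * (B.xi π01)⁻¹))
    (h01w : ∀ j, Commute (B.κ wq) (B.xi π01 * B.κ (y j) * (B.xi π01)⁻¹)) :
    B.Rels := by
  classical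
  -- torus
  have hHD : B.HD := by
    have hg1 : ∀ S, B.d g * B.Φ S * (B.d g)⁻¹ = B.Φ (cjS (g : Fˣ) S) := by
      have e1 := MonoidHom.eq_of_eqOn_top (f := (MulAut.conj (B.d g)).toMonoidHom.comp B.Φ)
        (g := B.Φ.comp (cjS (g : Fˣ))) (by
          rw [← hxS]
          refine MonoidHom.eqOn_closure ?_
          rintro _ ⟨i, rfl⟩
          exact hd i)
      exact fun S => DFunLike.congr_fun e1 S
    intro c S S' h
    obtain ⟨k, rfl⟩ : ∃ k : ℕ, g ^ k = c :=
      Submonoid.mem_powers_iff _ _ |>.1 (mem_powers_iff_mem_zpowers.2 (hg c))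
    suffices h2 : ∀ S, B.d (g ^ k) * B.Φ S * (B.d (g ^ k))⁻¹ = B.Φ (cjS ((g ^ k : Dl I e) : Fˣ) S) by
      rw [h2]
      congr 1
      exact Matrix.SpecialLinearGroup.toGL_injective (by rw [toGL_cjS, h])
    clear h
    induction k with
    | zero =>
      intro S
      rw [pow_zero, map_one, one_mul, inv_one, mul_one]
      congr 1
      exact Matrix.SpecialLinearGroup.toGL_injective (by
        rw [toGL_cjS, OneMemClass.coe_one, map_one, one_mul, inv_one, mul_one])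
    | succ k ih =>
      intro S
      have e1 : cjS ((g ^ (k + 1) : Dl I e) : Fˣ) S = cjS ((g ^ k : Dl I e) : Fˣ) (cjS (g : Fˣ) S) :=
        Matrix.SpecialLinearGroup.toGL_injective (by
        rw [toGL_cjS, toGL_cjS, toGL_cjS, pow_succ, Subgroup.coe_mul, map_mul, _root_.mul_inv_rev]
        simp only [mul_assoc])
      rw [e1, ← ih, ← hg1, pow_succ, map_mul]
      group
  -- the block subgroup
  have hblock : ∀ S y', Commute (B.Φ (blockHom S)) (B.κ y') := by
    intro S y'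
    have h1 : ∀ i y', Commute (B.Φ (blockHom (xB i))) (B.κ y') := by
      intro i y'
      have hle : Subgroup.closure (Set.range y) ≤ (Subgroup.centralizer {B.Φ (blockHom (xB i))}).comap B.κ := by
        rw [Subgroup.closure_le]
        rintro _ ⟨j, rfl⟩
        refine Subgroup.mem_centralizer_iff.2 ?_
        rintro w rfl
        exact hb i j
      exact Subgroup.mem_centralizer_iff.1 (hle (hy ▸ Subgroup.mem_top y')) _ rfl
    have hle : Subgroup.closure (Set.range xB) ≤ (Subgroup.centralizer {B.κ y'}).comap (B.Φ.comp blockHom) := by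
      rw [Subgroup.closure_le]
      rintro _ ⟨i, rfl⟩
      refine Subgroup.mem_centralizer_iff.2 ?_
      rintro w rfl
      exact (h1 i y').symm
    exact (Subgroup.mem_centralizer_iff.1 (hle (hxB ▸ Subgroup.mem_top S)) _ rfl).symm
  have htor' : ∀ l y', B.Φ (tS M l) * B.κ y' * (B.Φ (tS M l))⁻¹ = B.κ (sig I l 1 y') := by
    intro l
    obtain ⟨k, rfl⟩ : ∃ k : ℕ, z ^ k = l :=
      Submonoid.mem_powers_iff _ _ |>.1 (mem_powers_iff_mem_zpowers.2 (hz l))
    have hz1 : ∀ y', B.Φ (tS M z) * B.κ y' * (B.Φ (tS M z))⁻¹ = B.κ (sig I z 1 y') := by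
      have e1 := MonoidHom.eq_of_eqOn_top (f := (MulAut.conj (B.Φ (tS M z))).toMonoidHom.comp B.κ)
        (g := B.κ.comp (sig I z 1)) (by
          rw [← hy]
          refine MonoidHom.eqOn_closure ?_
          rintro _ ⟨i, rfl⟩
          exact htor i)
      exact fun S => DFunLike.congr_fun e1 S
    induction k with
    | zero => intro y'; rw [pow_zero, map_one, map_one, one_mul, inv_one, mul_one, sig_one]
    | succ k ih =>
      intro y'
      rw [pow_succ, map_mul, map_mul, show B.Φ (tS M (z ^ k)) * B.Φ (tS M z) * B.κ y' *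
        (B.Φ (tS M (z ^ k)) * B.Φ (tS M z))⁻¹ = B.Φ (tS M (z ^ k)) *
          (B.Φ (tS M z) * B.κ y' * (B.Φ (tS M z))⁻¹) * (B.Φ (tS M (z ^ k)))⁻¹ by group, hz1, ih, sig_sig, one_mul]
  have hblk : ∀ (A : Ln) (l : Fˣ), BlkL (A : GLn) l → ∀ y',
      B.xi A * B.κ y' * (B.xi A)⁻¹ = B.κ (sig I l (dt A) y') := by
    intro A l hA y'
    let c : Dl I e := ⟨dt A, A.2⟩
    let l' := l * (dt A)⁻¹
    set S := slPart (A : GLn)
    have key : ∀ a, ap (Matrix.SpecialLinearGroup.toGL (S * (tS M l')⁻¹)) (Pi.single a 1) =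
        (((if a = 1 then (l' : F) else 1) * (if a = 0 then ((l'⁻¹ : Fˣ) : F) else 1)) *
          (if a = 0 then (((dt A)⁻¹ : Fˣ) : F) else 1)) • ap (A : GLn) (Pi.single a 1) := fun a => by
      rw [map_mul, ← map_inv (tS M), toGL_tS, toGL_slPart, ← map_inv (dg (0 : Fin (M + 2))), inv_inv, ap_mul,
        ap_mul, ap_mul, dg_single, ap_smul, dg_single, smul_smul, ap_smul, dg_single, smul_smul, ap_smul]
      rfl
    obtain ⟨S0, hS0⟩ := exists_blockHom (S := S * (tS M l')⁻¹) (by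
      refine ⟨?_, fun a ha => ?_⟩
      · have h1 := key 0
        rw [if_pos rfl, if_pos rfl, if_neg (by simp), one_mul,
          show ap (A : GLn) (Pi.single 0 1) = (l : F) • Pi.single 0 1 from hA.1, smul_smul] at h1
        refine h1.trans ?_
        have hl : ((l'⁻¹ : Fˣ) : F) * (((dt A)⁻¹ : Fˣ) : F) * (l : F) = 1 := by
          rw [← Units.val_mul, ← Units.val_mul, ← Units.val_one]
          congr 1
          simp [l']
        rw [hl, one_smul]
        rfl
      · have h1 := key a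
        have h2 := congrFun h1 0
        rw [Pi.smul_apply, hA.2 a ha, smul_zero] at h2
        exact h2)
    have e1 : B.xi A = B.Φ (blockHom S0) * B.Φ (tS M l') * B.κ (t1 B.he c) := by
      rw [hS0, ← map_mul, inv_mul_cancel_right]; rfl
    rw [e1, show B.Φ (blockHom S0) * B.Φ (tS M l') * B.κ (t1 B.he c) * B.κ y' *
      (B.Φ (blockHom S0) * B.Φ (tS M l') * B.κ (t1 B.he c))⁻¹ = B.Φ (blockHom S0) * (B.Φ (tS M l') *
      (B.κ (t1 B.he c) * B.κ y' * (B.κ (t1 B.he c))⁻¹) * (B.Φ (tS M l'))⁻¹) * (B.Φ (blockHom S0))⁻¹ by group,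
      ← map_inv, ← map_mul, ← map_mul, ← sig_t1, htor', (hblock S0 _).eq, mul_inv_cancel_right, sig_sig]
    simp [l', c]
  have conj_rx : ∀ (l m : Fˣ) (h : l * m ∈ Dl I e) (c : F),
      B.xi (dia l m h) * B.Φ (rx 0 1 c) * (B.xi (dia l m h))⁻¹ = B.Φ (rx 0 1 ((l : F) / m * c)) := by
    intro l m h c
    rw [← xi_sl, ← xi_sl, mul_inv_eq_iff_eq_mul, ← xi_mul hHD, ← xi_mul hHD]
    congr 1
    refine Subtype.ext ?_
    rw [Subgroup.coe_mul, Subgroup.coe_mul]
    have h01 : (0 : Fin (M + 2)) ≠ 1 := by simp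
    show (dg 0 l * dg 1 m : GLn) * xg 0 1 c = xg 0 1 ((l : F) / m * c) * (dg 0 l * dg 1 m)
    have e1 := dg_xg (0 : Fin (M + 2)) l h01 ((1 / (m : F)) * c)
    have e2 := dg_xg (1 : Fin (M + 2)) m h01 c
    simp only [if_pos, if_neg h01, if_neg h01.symm, div_one] at e1 e2
    rw [mul_inv_eq_iff_eq_mul] at e1 e2
    rw [mul_assoc, e2, ← mul_assoc, e1, mul_assoc]
    congr 2
    ring
  have conj_u : ∀ (l m : Fˣ) (h : l * m ∈ Dl I e) (p : UP I e),
      B.xi (dia l m h) * B.κ (uu p) * (B.xi (dia l m h))⁻¹ = B.κ (uu ((p.tw (l * m)).sc (l : F))) := by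
    intro l m h p
    rw [hblk _ l (dia_blk l m h), dt_dia, sig_uu]
  have split : ∀ p : UP I e, ∃ x : F, ∃ t : UP I e, t.1.1 = 0 ∧ p = (pu.sc x).mu t := fun p => by
    obtain ⟨x, hx⟩ := hpu p.1.1
    obtain ⟨t, ht, hp⟩ := UP.exists_long (p := p) (q := pu.sc x) hx
    exact ⟨x, t, ht, hp⟩
  have norm : ∀ t : UP I e, t.1.1 = 0 → t = UP.zero ∨ ∃ l : Fˣ, t = (UP.lo I.ξ I.ξ_trace : UP I e).sc (l : F) := by
    intro t ht
    rcases eq_or_ne t.1.2 0 with h0 | h0
    · exact Or.inl (Subtype.ext (Prod.ext ht h0))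
    · have hs : t.1.2 + I.σ t.1.2 = 0 := (UP.lo_zero t ht).1
      obtain ⟨a, ha⟩ := I.exists_norm (t.1.2 / I.ξ) (by
        rw [map_div₀, σ_ξ, div_neg, ← neg_div, show -I.σ t.1.2 = t.1.2 by linear_combination -hs])
      have ha0 : a ≠ 0 := by
        rintro rfl
        rw [zero_mul, eq_comm, div_eq_zero_iff] at ha
        exact ha.elim h0 I.ξ_ne
      refine Or.inr ⟨Units.mk0 a ha0, Subtype.ext (Prod.ext (by simp [UP.sc, UP.lo, ht]) ?_)⟩
      show t.1.2 = a * I.σ a * I.ξ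
      rw [ha, div_mul_cancel₀ _ I.ξ_ne]
  have uu0 : B.κ (uu (UP.zero : UP I e)) = 1 := by
    rw [show uu (UP.zero : UP I e) = 1 from uz_zero, map_one]
  -- the commutation with the transvections
  have seeds : ∀ p : UP I e, (∀ c, (c = 1 ∨ c = (z : F)) → Commute (B.Φ (rx 0 1 c)) (B.κ (uu p))) →
      ∀ c, Commute (B.Φ (rx 0 1 c)) (B.κ (uu p)) := by
    intro p hp c
    obtain ⟨α, β, hα, hβ, rfl⟩ := two_span (gen_not_fixed (I := I) hz).1 c
    have sc : ∀ k c0 : F, I.σ k = k → Commute (B.Φ (rx 0 1 c0)) (B.κ (uu p)) →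
        Commute (B.Φ (rx 0 1 (k * c0))) (B.κ (uu p)) := by
      intro k c0 hk h0
      rcases eq_or_ne k 0 with rfl | hk0
      · rw [zero_mul, rx_zero, map_one]; exact Commute.one_left _
      have hm : (1 : Fˣ) * (Units.mk0 k hk0)⁻¹ ∈ Dl I e := fun _ => by simp [hk]
      have h1 := (Commute.conj_iff (B.xi (dia 1 (Units.mk0 k hk0)⁻¹ hm))).2 h0
      rw [conj_rx, conj_u, one_mul, UP.tw_of_chi (chi_of_fix I (by simp [hk])), Units.val_one, UP.sc_one] at h1
      simpa [div_eq_mul_inv] using h1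
    rw [rx_add, map_mul, ← mul_one α]
    exact (sc α 1 hα (hp 1 (Or.inl rfl))).mul_left (sc β _ hβ (hp _ (Or.inr rfl)))
  have orbit : ∀ p : UP I e, (∀ c, Commute (B.Φ (rx 0 1 c)) (B.κ (uu p))) →
      ∀ (x : F) c, Commute (B.Φ (rx 0 1 c)) (B.κ (uu (p.sc x))) := by
    intro p hp x c
    rcases eq_or_ne x 0 with rfl | hx0
    · rw [show p.sc 0 = UP.zero from
        Subtype.ext (Prod.ext (by simp [UP.sc, UP.zero]) (by simp [UP.sc, UP.zero])), uu0]
      exact Commute.one_right _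
    let l := Units.mk0 x hx0
    have h1 := (Commute.conj_iff (B.xi (dia l l⁻¹ (one_mem_Dl' l)))).2 (hp (c / (x * x)))
    rw [conj_rx, conj_u, mul_inv_cancel, UP.tw_one] at h1
    simp only [l, Units.val_inv_eq_inv_val, Units.val_mk0] at h1
    convert h1 using 4
    field_simp
  have hxlong : ∀ t : UP I e, t.1.1 = 0 → ∀ c, Commute (B.Φ (rx 0 1 c)) (B.κ (uu t)) := by
    intro t ht c
    rcases norm t ht with rfl | ⟨l, rfl⟩
    · rw [uu0]; exact Commute.one_right _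
    · exact orbit _ (seeds _ hx2) _ _
  have hX : ∀ c p, Commute (B.Φ (rx 0 1 c)) (B.κ (uu p)) := by
    intro c p
    obtain ⟨x, t, ht, rfl⟩ := split p
    rw [← uu_mu, map_mul]
    exact (orbit _ (seeds _ hx1) x c).mul_right (hxlong t ht c)
  -- commutation at two coordinates
  have ext01 : ∀ u, (∀ j, Commute (B.κ u) (B.xi π01 * B.κ (y j) * (B.xi π01)⁻¹)) →
      ∀ z', Commute (B.κ u) (B.xi π01 * B.κ z' * (B.xi π01)⁻¹) := by
    intro u hu z'
    have hle : Subgroup.closure (Set.range y) ≤ (Subgroup.centralizer {B.κ u}).comap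
        ((MulAut.conj (B.xi π01)).toMonoidHom.comp B.κ) := by
      rw [Subgroup.closure_le]
      rintro _ ⟨j, rfl⟩
      refine Subgroup.mem_centralizer_iff.2 ?_
      rintro w rfl
      exact hu j
    exact Subgroup.mem_centralizer_iff.1 (hle (hy ▸ Subgroup.mem_top z')) _ rfl
  refine ⟨hHD, hblk, hX, fun p hp z' => ?_, ext01 wq h01w⟩
  rcases norm p hp with rfl | ⟨l, rfl⟩
  · rw [uu0]; exact Commute.one_left _
  · let A : Ln := dia l l⁻¹ (one_mem_Dl' l)
    let A' : Ln := dia l⁻¹ l (by rw [inv_mul_cancel]; exact one_mem _)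
    have hswap : A * π01 = π01 * A' := by
      refine Subtype.ext (gl_ext fun a => ?_)
      simp only [A, A', π01, Subgroup.coe_mul, ap_mul, coe_pq, pm_single, dia_single, ap_smul]
      congr 1
      by_cases h0 : a = 0
      · subst h0; simp
      by_cases h1 : a = 1
      · subst h1; simp
      simp [h0, h1, swap_apply_of_ne_of_ne h0 h1]
    have e1 : ∀ w, B.xi A * (B.xi π01 * B.κ w * (B.xi π01)⁻¹) * (B.xi A)⁻¹ =
        B.xi π01 * B.κ (sig I l⁻¹ (dt A') w) * (B.xi π01)⁻¹ := by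
      intro w
      rw [show B.xi A * (B.xi π01 * B.κ w * (B.xi π01)⁻¹) * (B.xi A)⁻¹ =
        (B.xi A * B.xi π01) * B.κ w * (B.xi A * B.xi π01)⁻¹ by group, ← xi_mul hHD, hswap, xi_mul hHD,
        ← hblk A' l⁻¹ (dia_blk _ _ _) w]
      group
    have h1 := (Commute.conj_iff (B.xi A)).2
      (ext01 _ h01u (sig I l (dt A')⁻¹ z'))
    rw [e1, conj_u, mul_inv_cancel, UP.tw_one, sig_sig, inv_mul_cancel, mul_inv_cancel, sig_one] at h1
    exact h1

variable (R : B.Rels)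

include R

theorem conj_oh_diag {A : Ln} (hA : IsDiag A) (x : F) :
    ∃ x', Xi R A * oh R 1 0 x * (Xi R A)⁻¹ = oh R 1 0 x' := by
  obtain ⟨l, hl⟩ := hA 0
  have h10 : (1 : Fin (M + 2)) ≠ 0 := by simp
  set D : Ln := dq I 0 (nU l)
  have hD : IsDiag D := isDiag_dq _ _
  obtain ⟨D', hD', eD⟩ := diag_wk R hD 0
  have hs : Commute (Xi R D) (wk R 0 * wk R 0) := by
    rw [wk_sq]
    refine Commute.map (Subtype.ext (gl_ext fun a => ?_)) (Xi R)
    simp only [D, Subgroup.coe_mul, ap_mul, coe_dq, dg_single, ap_smul, smul_smul, mul_comm]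
  have e0 : Xi R D * wk R 0 = wk R 0 * Xi R D' := by
    rw [← eD]
    calc Xi R D * wk R 0 = Xi R D * (wk R 0 * wk R 0) * (wk R 0)⁻¹ := by group
      _ = _ := by rw [hs.eq]; group
  obtain ⟨u, hu⟩ : ∃ u, Xi R (D' * A) * Xi R (xq I 1 0 (-x / I.ξ)) * (Xi R (D' * A))⁻¹ = Xi R (xq I 1 0 u) := by
    obtain ⟨a, ha⟩ := (hD'.mul hA) 1
    obtain ⟨b, hb⟩ := (hD'.mul hA) 0
    refine ⟨(a : F) / b * (-x / I.ξ), ?_⟩
    rw [← map_inv, ← map_mul, ← map_mul]
    congr 1
    rw [mul_inv_eq_iff_eq_mul]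
    refine Subtype.ext (gl_ext fun c => ?_)
    rw [Subgroup.coe_mul, Subgroup.coe_mul (Lev I (M + 2) e) (xq I 1 0 _), coe_xq, coe_xq, ap_mul, ap_mul,
      xg_single h10]
    obtain ⟨n, hn⟩ := (hD'.mul hA) c
    by_cases hc : c = 0
    · subst hc
      rw [if_pos rfl, ap_add, ap_smul, ha, hb, ap_smul, xg_single h10, if_pos rfl, smul_add, smul_smul, smul_smul]
      congr 2
      field_simp
    · rw [if_neg hc, hn, ap_smul, xg_single h10, if_neg hc]
  refine ⟨-u * I.ξ, ?_⟩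
  have e1 := wk_diag R hA 0 hl
  rw [mul_inv_eq_iff_eq_mul] at e1
  calc Xi R A * oh R 1 0 x * (Xi R A)⁻¹
      = (Xi R A * wk R 0) * Xi R (xq I 1 0 (-x / I.ξ)) * (Xi R A * wk R 0)⁻¹ := by rw [oh]; group
    _ = wk R 0 * (Xi R (D' * A) * Xi R (xq I 1 0 (-x / I.ξ)) * (Xi R (D' * A))⁻¹) * (wk R 0)⁻¹ := by
        rw [e1, show Xi R (dq I 0 (nU l) : Ln) = Xi R D from rfl, e0, map_mul]; group
    _ = _ := by rw [hu, oh, neg_mul, neg_neg, mul_div_cancel_right₀ _ I.ξ_ne]

theorem mix_of_seeds (z : Fˣ) (hz : ∀ c : Fˣ, c ∈ Subgroup.zpowers z)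
    (pu : UP I e) (hpu : ∀ a : Fin e → F, ∃ x : F, a = x • pu.1.1)
    (hm : ∀ c : F, (c = 1 ∨ c = (z : F)) → ∀ p : UP I e, (p = pu ∨ p = UP.lo I.ξ I.ξ_trace) →
      ∃ x, B.Φ (rx 1 0 c) * B.κ (uu p) * (B.Φ (rx 1 0 c))⁻¹ =
        B.κ (uu p) * (B.xi π01 * B.κ (uu (p.sc c)) * (B.xi π01)⁻¹) * oh R 1 0 x)
    (hc : ∀ c : F, (c = 1 ∨ c = (z : F)) → ∃ x,
      B.κ (uu pu) * (B.xi π01 * B.κ (uu (pu.sc c)) * (B.xi π01)⁻¹) =
        B.xi π01 * B.κ (uu (pu.sc c)) * (B.xi π01)⁻¹ * B.κ (uu pu) * oh R 1 0 x) :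
    Mix R := by
  classical
  have h01 : (0 : Fin (M + 2)) ≠ 1 := by simp
  have hT0 : ∀ p, B.T (Pi.single 0 1) p = B.κ (uu p) := fun p => by rw [T_single R, Lk_zero]
  have hT1 : ∀ p, B.T (Pi.single 1 1) p = B.xi π01 * B.κ (uu p) * (B.xi π01)⁻¹ := fun p => by
    rw [T_single R, Lk_apply]; rfl
  have hTc : ∀ (c : F) p, B.T (Pi.single 0 1 + c • Pi.single 1 1) p =
      B.Φ (rx 1 0 c) * B.κ (uu p) * (B.Φ (rx 1 0 c))⁻¹ := fun c p => by
    have := T_eq R (xq I 1 0 c) p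
    rw [coe_xq, xg_single h01.symm, if_pos rfl, dt_xq, UP.tw_one, Xi_xq] at this
    exact this.symm
  let Good : F → UP I e → Prop := fun c p => ∃ x, B.T (Pi.single 0 1 + c • Pi.single 1 1) p =
    B.T (Pi.single 0 1) p * B.T (Pi.single 1 1) (p.sc c) * oh R 1 0 x
  have hseed : ∀ c : F, (c = 1 ∨ c = (z : F)) → ∀ p : UP I e, (p = pu ∨ p = UP.lo I.ξ I.ξ_trace) → Good c p := by
    intro c hc0 p hp
    obtain ⟨x, hx⟩ := hm c hc0 p hp
    exact ⟨x, by rw [hTc, hT0, hT1]; exact hx⟩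
  have orbit : ∀ (c : F) p, Good c p → ∀ (l m : Fˣ), l * m ∈ Dl I e →
      Good (c * m / l) ((p.tw (l * m)).sc (l : F)) := by
    rintro c p ⟨x, hx⟩ l m h
    obtain ⟨x', hx'⟩ := conj_oh_diag R (A := dia l m h) (fun a => ⟨(if a = 1 then m else 1) * (if a = 0 then l else 1), by
      rw [dia_single, Units.val_mul]; split_ifs <;> simp⟩) x
    refine ⟨x', ?_⟩
    have e1 := congrArg (fun w => Xi R (dia l m h) * w * (Xi R (dia l m h))⁻¹) hx
    have hd : ∀ a b d w : G, w * (a * b * d) * w⁻¹ = w * a * w⁻¹ * (w * b * w⁻¹) * (w * d * w⁻¹) := fun a b d w => by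
      group
    simp only [hd, T_conj R, hx', dt_dia, ap_add, ap_smul, dia_single, if_pos, if_neg h01, if_neg h01.symm,
      one_mul, mul_one] at e1
    rw [T_sc R (Units.ne_zero l), T_sc R (Units.ne_zero m)] at e1
    rw [show ((l : F) • (Pi.single 0 1 : Vn) + c • (m : F) • Pi.single 1 1) =
      (l : F) • (Pi.single 0 1 + (c * m / l) • Pi.single 1 1) by
        rw [smul_add, smul_smul, smul_smul, mul_div_cancel₀ _ (Units.ne_zero l)],
      T_sc R (Units.ne_zero l)] at e1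
    rw [e1]
    congr 3
    rw [← UP.sc_tw, UP.sc_sc, UP.sc_sc, div_mul_cancel₀ _ (Units.ne_zero l), mul_comm]
  have val : ∀ (c : F) (p : UP I e) x, B.T (Pi.single 0 1 + c • Pi.single 1 1) p =
      B.T (Pi.single 0 1) p * B.T (Pi.single 1 1) (p.sc c) * oh R 1 0 x → x = c * p.1.2 := by
    intro c p x hx
    have e3 := congrArg B.f hx
    obtain ⟨g1, e4⟩ := f_T R (Pi.single 0 1 + c • Pi.single 1 1 : Vn) p
    obtain ⟨g2, e5⟩ := f_T R (Pi.single 0 1 : Vn) p
    obtain ⟨g3, e6⟩ := f_T R (Pi.single 1 1 : Vn) (p.sc c)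
    rw [map_mul, map_mul, f_oh R h01.symm, e4, e5, e6, tv, tv, tv, nE_mul, nE_mul] at e3
    have e7 := congrFun (congrFun (nE_inj e3).2 1) 0
    simp [Matrix.vecMulVec_apply, Matrix.mul_apply, dag_apply, pairS, h01, h01.symm, Matrix.single, UP.sc] at e7
    linear_combination -e7
  have hlξ : (UP.lo (I := I) (e := e) I.ξ I.ξ_trace).1.1 = 0 := rfl
  -- long parameters
  have longAdd : ∀ c p q, p.1.1 = 0 → q.1.1 = 0 → Good c p → Good c q → Good c (p.mu q) := by
    rintro c p q hp hq ⟨x, hx⟩ ⟨y, hy⟩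
    refine ⟨x + y, ?_⟩
    have hcen : Commute (oh R 1 0 x) (B.T (Pi.single 0 1) q * B.T (Pi.single 1 1) (q.sc c)) := by
      rw [eq_inv_mul_of_mul_eq hx.symm]
      refine ((Commute.inv_left ?_).mul_left ?_) <;>
        refine (Commute.mul_right ?_ ?_)
      all_goals
        first
          | exact (T_long_commute R hp _ _ _).mul_left (T_long_commute R (UP.long_sc hp c) _ _ _)
          | exact T_long_commute R hp _ _ _
    rw [← T_mu R, ← T_mu R, hx, hy, UP.sc_mu, ← T_mu R, oh_add]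
    calc B.T (Pi.single 0 1) p * B.T (Pi.single 1 1) (p.sc c) * oh R 1 0 x *
          (B.T (Pi.single 0 1) q * B.T (Pi.single 1 1) (q.sc c) * oh R 1 0 y)
        = B.T (Pi.single 0 1) p * B.T (Pi.single 1 1) (p.sc c) *
            (oh R 1 0 x * (B.T (Pi.single 0 1) q * B.T (Pi.single 1 1) (q.sc c))) * oh R 1 0 y := by group
      _ = B.T (Pi.single 0 1) p * (B.T (Pi.single 1 1) (p.sc c) * B.T (Pi.single 0 1) q) *
            B.T (Pi.single 1 1) (q.sc c) * (oh R 1 0 x * oh R 1 0 y) := by rw [hcen.eq]; group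
      _ = _ := by rw [(T_long_commute R (UP.long_sc hp c) _ _ _).eq]; group
  have good0 : ∀ c, Good c UP.zero := fun c => ⟨0, by
    rw [T_zero_param R, T_zero_param R, oh_zero R,
      show (UP.zero : UP I e).sc c = UP.zero from Subtype.ext (Prod.ext (by simp [UP.sc, UP.zero]) (by simp [UP.sc, UP.zero])),
      T_zero_param R, mul_one, mul_one]⟩
  have good0c : ∀ p, Good 0 p := fun p => ⟨0, by
    rw [zero_smul, add_zero, T_sc_zero R, oh_zero R, mul_one, mul_one]⟩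
  have goodLong : ∀ c (p : UP I e), p.1.1 = 0 → Good c p := by
    intro c p hp
    rcases eq_or_ne c 0 with rfl | hc0
    · exact good0c p
    obtain ⟨hs, hpe⟩ := UP.lo_zero p hp
    -- the class of `c`
    obtain ⟨g, c0, hc1, hgc⟩ : ∃ (g : Fˣ) (c0 : F), (c0 = 1 ∨ c0 = (z : F)) ∧ c = c0 * g * g := by
      obtain ⟨i, hi⟩ := hz (Units.mk0 c hc0)
      have hc' : c = ((z ^ i : Fˣ) : F) := by
        rw [show z ^ i = Units.mk0 c hc0 from hi]; rfl
      rcases Int.even_or_odd' i with ⟨j, rfl | rfl⟩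
      · exact ⟨z ^ j, 1, Or.inl rfl, by rw [hc', two_mul, _root_.zpow_add, Units.val_mul, one_mul]⟩
      · refine ⟨z ^ j, z, Or.inr rfl, ?_⟩
        rw [hc', _root_.zpow_add, two_mul, _root_.zpow_add, zpow_one, Units.val_mul, Units.val_mul]; ring
    set n := (g : F) * I.σ (g : F)
    have hn : n ≠ 0 := mul_ne_zero g.ne_zero (σ_ne I g.ne_zero)
    have hnfix : I.σ n = n := by simp [n, I.invol, mul_comm]
    have hsfix : I.σ (p.1.2 / I.ξ * n) = p.1.2 / I.ξ * n := by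
      rw [map_mul, hnfix, map_div₀, σ_ξ, div_neg, ← neg_div, show -I.σ p.1.2 = p.1.2 by linear_combination -hs]
    let Q : F → Prop := fun t => ∃ q : UP I e, q.1.1 = 0 ∧ q.1.2 = t / n * I.ξ ∧ Good c q
    have hQ : Q (p.1.2 / I.ξ * n) := by
      refine fix_ind ?_ ?_ ?_ ?_ hsfix
      · exact ⟨UP.zero, rfl, by simp [UP.zero], good0 c⟩
      · rintro s ⟨q, hq, hqs, x, hx⟩
        refine ⟨q.inv, by simp [UP.inv, hq], ?_, -x, ?_⟩
        · have h1 : q.1.2 + I.σ q.1.2 = 0 := (UP.lo_zero q hq).1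
          show I.σ q.1.2 = _
          rw [neg_div, neg_mul, ← hqs]
          linear_combination h1
        · have hcen : ∀ w : G, Commute (B.T (Pi.single 0 1) q) w → Commute (B.T (Pi.single 1 1) (q.sc c)) w →
              Commute (B.T (Pi.single 0 1 + c • Pi.single 1 1) q) w → Commute (oh R 1 0 x) w := by
            intro w h1 h2 h3
            rw [eq_inv_mul_of_mul_eq hx.symm]
            exact ((h1.mul_left h2).inv_left).mul_left h3
          have k1 := hcen _ (Commute.refl _) (T_long_commute R (UP.long_sc hq c) _ _ _) (T_long_commute R hq _ _ _)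
          have k2 := hcen _ (T_long_commute R hq _ _ _) (Commute.refl _) (T_long_commute R hq _ _ _)
          have e2 : (q.inv).sc c = (q.sc c).inv := Subtype.ext (Prod.ext (by simp [UP.sc, UP.inv])
            (by simp [UP.sc, UP.inv, I.invol]; left; ring))
          rw [e2, T_inv R, T_inv R, T_inv R, hx,
            show oh R 1 0 (-x) = (oh R 1 0 x)⁻¹ from eq_inv_of_mul_eq_one_left (by
              rw [← oh_add, neg_add_cancel, oh_zero]),
            ← (k1.mul_right k2).eq, _root_.mul_inv_rev, _root_.mul_inv_rev,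
            ((T_long_commute R hq _ _ _).inv_inv).eq]
      · rintro s t ⟨q, hq, hqs, hgq⟩ ⟨q', hq', hqt, hgq'⟩
        exact ⟨q.mu q', by simp [UP.mu, hq, hq'],
          by simp [UP.mu, hq, ip_zero_left, hqs, hqt]; ring, longAdd c q q' hq hq' hgq hgq'⟩
      · intro k hk hk0
        let l := Units.mk0 k hk0 * g⁻¹
        let m := Units.mk0 k hk0 * g
        have hlm : l * m ∈ Dl I e := fun _ => by
          simp only [l, m, Units.val_mul, Units.val_mk0, map_mul, hk]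
          rw [show k * I.σ ((g⁻¹ : Fˣ) : F) * (k * I.σ (g : F)) = k * k * (I.σ ((g⁻¹ : Fˣ) : F) * I.σ (g : F)) by ring,
            ← map_mul, Units.inv_mul, map_one, mul_one,
            show k * ((g⁻¹ : Fˣ) : F) * (k * (g : F)) = k * k * (((g⁻¹ : Fˣ) : F) * (g : F)) by ring, Units.inv_mul,
            mul_one]
        have h1 := orbit c0 _ (hseed c0 hc1 _ (Or.inr rfl)) l m hlm
        rw [show c0 * (m : F) / (l : F) = c by
          rw [hgc]; simp only [l, m, Units.val_mul, Units.val_mk0, Units.val_inv_eq_inv_val]; field_simp] at h1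
        refine ⟨_, ?_, ?_, h1⟩
        · simp [UP.sc, UP.tw, UP.lo]
        · simp only [UP.sc, UP.tw, UP.lo, l, n, Units.val_mul, Units.val_mk0, Units.val_inv_eq_inv_val, map_mul,
            map_inv₀, hk]
          field_simp
    obtain ⟨q, hq, hqs, hgq⟩ := hQ
    rw [hpe, show (UP.lo p.1.2 hs : UP I e) = q from Subtype.ext (Prod.ext hq.symm (by
      show p.1.2 = q.1.2
      rw [hqs]; field_simp [hn, I.ξ_ne]))]
    exact hgq
  have central : ∀ (x : F) (v : Vn) (p : UP I e), Commute (oh R 1 0 x) (B.T v p) := by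
    intro x v p
    rcases eq_or_ne x 0 with rfl | hx0
    · rw [oh_zero]; exact Commute.one_left _
    obtain ⟨x', hx'⟩ := goodLong (x / I.ξ) _ hlξ
    have hv := val _ _ _ hx'
    rw [show (UP.lo (I := I) (e := e) I.ξ I.ξ_trace).1.2 = I.ξ from rfl, div_mul_cancel₀ _ I.ξ_ne] at hv
    subst hv
    rw [eq_inv_mul_of_mul_eq hx'.symm]
    exact ((T_long_commute R hlξ _ _ _).mul_left (T_long_commute R (UP.long_sc hlξ _) _ _ _)).inv_left.mul_left
      (T_long_commute R hlξ _ _ _)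
  -- the commutators
  let Cm : UP I e → UP I e → Prop := fun p q => ∃ x, B.T (Pi.single 0 1) p * B.T (Pi.single 1 1) q =
    B.T (Pi.single 1 1) q * B.T (Pi.single 0 1) p * oh R 1 0 x
  have cmLongL : ∀ p q, p.1.1 = 0 → Cm p q := fun p q hp => ⟨0, by
    rw [oh_zero, mul_one]; exact (T_long_commute R hp _ _ _).eq⟩
  have cmLongR : ∀ p q, q.1.1 = 0 → Cm p q := fun p q hq => ⟨0, by
    rw [oh_zero, mul_one]; exact (T_long_commute R hq _ _ _).eq.symm⟩
  have cmR : ∀ p q q', Cm p q → Cm p q' → Cm p (q.mu q') := by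
    rintro p q q' ⟨x, hx⟩ ⟨y, hy⟩
    refine ⟨x + y, ?_⟩
    rw [← T_mu R, oh_add]
    calc B.T (Pi.single 0 1) p * (B.T (Pi.single 1 1) q * B.T (Pi.single 1 1) q')
        = B.T (Pi.single 1 1) q * B.T (Pi.single 0 1) p * (oh R 1 0 x * B.T (Pi.single 1 1) q') := by
          rw [← mul_assoc, hx]; group
      _ = B.T (Pi.single 1 1) q * (B.T (Pi.single 0 1) p * B.T (Pi.single 1 1) q') * oh R 1 0 x := by
          rw [(central x _ q').eq]; group
      _ = _ := by
          have hxy : oh R 1 0 x * oh R 1 0 y = oh R 1 0 y * oh R 1 0 x := by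
            rw [← oh_add, ← oh_add]; exact congrArg (oh R 1 0) (add_comm x y)
          rw [hy, hxy]
          group
  have cmL : ∀ p p' q, Cm p q → Cm p' q → Cm (p.mu p') q := by
    rintro p p' q ⟨x, hx⟩ ⟨y, hy⟩
    refine ⟨x + y, ?_⟩
    rw [← T_mu R, oh_add]
    calc B.T (Pi.single 0 1) p * B.T (Pi.single 0 1) p' * B.T (Pi.single 1 1) q
        = (B.T (Pi.single 0 1) p * B.T (Pi.single 1 1) q) * B.T (Pi.single 0 1) p' * oh R 1 0 y := by
          rw [mul_assoc, hy]; group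
      _ = B.T (Pi.single 1 1) q * B.T (Pi.single 0 1) p * (oh R 1 0 x * B.T (Pi.single 0 1) p') * oh R 1 0 y := by
          rw [hx]; group
      _ = _ := by rw [(central x _ p').eq]; group
  have cmOrbit : ∀ p q, Cm p q → ∀ (l m : Fˣ), l * m ∈ Dl I e →
      Cm ((p.tw (l * m)).sc (l : F)) ((q.tw (l * m)).sc (m : F)) := by
    rintro p q ⟨x, hx⟩ l m h
    obtain ⟨x', hx'⟩ := conj_oh_diag R (A := dia l m h) (fun a => ⟨(if a = 1 then m else 1) * (if a = 0 then l else 1), by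
      rw [dia_single, Units.val_mul]; split_ifs <;> simp⟩) x
    refine ⟨x', ?_⟩
    have e1 := congrArg (fun w => Xi R (dia l m h) * w * (Xi R (dia l m h))⁻¹) hx
    have hd : ∀ a b d w : G, w * (a * b * d) * w⁻¹ = w * a * w⁻¹ * (w * b * w⁻¹) * (w * d * w⁻¹) := fun a b d w => by
      group
    have hd2 : ∀ a b w : G, w * (a * b) * w⁻¹ = w * a * w⁻¹ * (w * b * w⁻¹) := fun a b w => by group
    simp only [hd, hd2, T_conj R, hx', dt_dia, dia_single, if_pos, if_neg h01, if_neg h01.symm,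
      one_mul, mul_one] at e1
    rw [T_sc R (Units.ne_zero l), T_sc R (Units.ne_zero m)] at e1
    exact e1
  have cmPu : ∀ x : F, Cm pu (pu.sc x) := by
    intro x
    obtain ⟨α, β, hα, hβ, rfl⟩ := two_span (gen_not_fixed (I := I) hz).1 x
    have part : ∀ k c0 : F, I.σ k = k → (c0 = 1 ∨ c0 = (z : F)) → Cm pu (pu.sc (k * c0)) := by
      intro k c0 hk hc0
      rcases eq_or_ne k 0 with rfl | hk0
      · exact cmLongR _ _ (by simp [UP.sc])
      obtain ⟨x, hx⟩ := hc c0 hc0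
      have h0 : Cm pu (pu.sc c0) := ⟨x, by rw [hT0, hT1]; exact hx⟩
      have hm : (1 : Fˣ) * Units.mk0 k hk0 ∈ Dl I e := fun _ => by simp [hk]
      have h1 := cmOrbit _ _ h0 1 (Units.mk0 k hk0) hm
      rw [one_mul, UP.tw_of_chi (chi_of_fix I (by simp [hk])), UP.tw_of_chi (chi_of_fix I (by simp [hk])),
        Units.val_one, UP.sc_one, Units.val_mk0, UP.sc_sc] at h1
      exact h1
    obtain ⟨t, ht, e1⟩ := UP.exists_long (p := pu.sc (α + β * (z : F))) (q := (pu.sc (α * 1)).mu (pu.sc (β * (z : F))))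
      (by simp [UP.sc, UP.mu, add_smul])
    rw [e1]
    exact cmR _ _ _ (cmR _ _ _ (part α 1 hα (Or.inl rfl)) (part β _ hβ (Or.inr rfl))) (cmLongR _ _ ht)
  have cmAll : ∀ p q, Cm p q := by
    intro p q
    obtain ⟨x, hx⟩ := hpu p.1.1
    obtain ⟨t, ht, hp⟩ := UP.exists_long (p := p) (q := pu.sc x) hx
    obtain ⟨y, hy⟩ := hpu q.1.1
    obtain ⟨t', ht', hq⟩ := UP.exists_long (p := q) (q := pu.sc y) hy
    rw [hp, hq]
    refine cmR _ _ _ (cmL _ _ _ ?_ (cmLongL _ _ ht)) (cmLongR _ _ ht')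
    rcases eq_or_ne x 0 with rfl | hx0
    · exact cmLongL _ _ (by simp [UP.sc])
    have h1 := cmOrbit _ _ (cmPu (x * y)) (Units.mk0 x hx0) (Units.mk0 x hx0)⁻¹ (one_mem_Dl' _)
    rw [mul_inv_cancel, UP.tw_one, UP.tw_one, Units.val_mk0, UP.sc_sc, Units.val_inv_eq_inv_val, Units.val_mk0,
      inv_mul_cancel_left₀ hx0] at h1
    exact h1
  have shortAdd : ∀ c p q, Good c p → Good c q → Good c (p.mu q) := by
    rintro c p q ⟨x, hx⟩ ⟨y, hy⟩
    obtain ⟨w, hw⟩ := cmAll q (p.sc c)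
    refine ⟨-w + x + y, ?_⟩
    rw [← T_mu R, ← T_mu R, hx, hy, UP.sc_mu, ← T_mu R, oh_add, oh_add]
    have e1 : B.T (Pi.single 1 1) (p.sc c) * B.T (Pi.single 0 1) q =
        B.T (Pi.single 0 1) q * B.T (Pi.single 1 1) (p.sc c) * oh R 1 0 (-w) := by
      rw [show oh R 1 0 (-w) = (oh R 1 0 w)⁻¹ from eq_inv_of_mul_eq_one_left (by
        rw [← oh_add, neg_add_cancel, oh_zero]), hw, mul_inv_cancel_right]
    calc B.T (Pi.single 0 1) p * B.T (Pi.single 1 1) (p.sc c) * oh R 1 0 x *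
          (B.T (Pi.single 0 1) q * B.T (Pi.single 1 1) (q.sc c) * oh R 1 0 y)
        = B.T (Pi.single 0 1) p * B.T (Pi.single 1 1) (p.sc c) *
            (oh R 1 0 x * (B.T (Pi.single 0 1) q * B.T (Pi.single 1 1) (q.sc c))) * oh R 1 0 y := by group
      _ = B.T (Pi.single 0 1) p * (B.T (Pi.single 1 1) (p.sc c) * B.T (Pi.single 0 1) q) *
            B.T (Pi.single 1 1) (q.sc c) * oh R 1 0 x * oh R 1 0 y := by
          rw [((central x _ q).mul_right (central x _ (q.sc c))).eq]; group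
      _ = B.T (Pi.single 0 1) p * B.T (Pi.single 0 1) q * B.T (Pi.single 1 1) (p.sc c) *
            (oh R 1 0 (-w) * B.T (Pi.single 1 1) (q.sc c)) * oh R 1 0 x * oh R 1 0 y := by rw [e1]; group
      _ = _ := by rw [(central (-w) _ (q.sc c)).eq]; group
  intro c p
  rcases eq_or_ne c 0 with rfl | hc0
  · exact good0c p
  by_cases hp : p.1.1 = 0
  · exact goodLong c p hp
  have he1 : e ≠ 0 := by
    rintro rfl
    exact hp (funext fun i => i.elim0)
  set u := Units.mk0 c hc0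
  obtain ⟨x, hx⟩ := hpu p.1.1
  obtain ⟨α, β, hα, hβ, hab⟩ := two_span (gen_not_fixed (I := I) hz).2 (x / (chi I u : F))
  have part : ∀ (k : F) (c0 : Fˣ), I.σ k = k → ((c0 : F) = 1 ∨ (c0 : F) = (z : F)) →
      ∃ q, Good c q ∧ q.1.1 = (k * (chi I u : F) * ((chi I c0 : F))⁻¹) • pu.1.1 := by
    intro k c0 hk hc0
    rcases eq_or_ne k 0 with rfl | hk0
    · exact ⟨UP.zero, good0 c, by simp [UP.zero]⟩
    let l := Units.mk0 k hk0
    have h1 := orbit (c0 : F) pu (hseed _ hc0 _ (Or.inl rfl)) l (l * u * c0⁻¹) (fun h => absurd h he1)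
    rw [show (c0 : F) * ((l * u * c0⁻¹ : Fˣ) : F) / (l : F) = c by
      simp only [Units.val_mul, Units.val_inv_eq_inv_val, u, Units.val_mk0, l]; field_simp] at h1
    refine ⟨_, h1, ?_⟩
    have hl : chi I l = 1 := chi_of_fix I hk
    simp only [UP.sc, UP.tw, map_mul, hl, map_inv, one_mul, Units.val_mul, Units.val_inv_eq_inv_val, smul_smul]
    congr 1
    simp only [l, Units.val_mk0]
    ring
  obtain ⟨q1, g1, h1⟩ := part α 1 hα (Or.inl Units.val_one)
  obtain ⟨q2, g2, h2⟩ := part β z hβ (Or.inr rfl)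
  obtain ⟨t, ht, e1⟩ := UP.exists_long (p := p) (q := q1.mu q2) (by
    show p.1.1 = q1.1.1 + q2.1.1
    rw [hx, h1, h2, ← add_smul, map_one, Units.val_one, inv_one, mul_one]
    congr 1
    have hne : (chi I u : F) ≠ 0 := Units.ne_zero _
    rw [div_eq_iff hne] at hab
    linear_combination hab)
  rw [e1]
  exact shortAdd c _ _ (shortAdd c _ _ g1 g2) (goodLong c t ht)

end SuBase

end Cfsg.Agent.H81.SUPres
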