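import Mathlib

/-!
# Presentations of cyclic extensions and of groups with a rank one decomposition
-/

set_option autoImplicit false
set_option linter.unusedSectionVars false

namespace Cfsg.Agent.H81.SUPres.Ext

variable {G : Type*} [Group G] {κ : Type} [Fintype κ]

/-- The word maps between a presentation on `κ` and one on `κ ⊕ Unit`. -/
theorem lift_inl {H : Type*} [Group H] (f : κ ⊕ Unit → H) (r : FreeGroup κ) :
    FreeGroup.lift f (FreeGroup.map Sum.inl r) = FreeGroup.lift (fun i => f (Sum.inl i)) r :=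
  DFunLike.congr_fun (FreeGroup.ext_hom ((FreeGroup.lift f).comp (FreeGroup.map Sum.inl))
    (FreeGroup.lift fun i => f (Sum.inl i)) fun i => by simp) r

section Common

variable (R : Finset (FreeGroup κ)) (N : Subgroup G) (eN : PresentedGroup (↑R : Set (FreeGroup κ)) ≃* ↥N)
  (x : G)

/-- The evaluation in the group. -/
def val : κ ⊕ Unit → G := Sum.elim (fun i => (eN (PresentedGroup.of i) : G)) fun _ => x

/-- A word for an element of the subgroup. -/
noncomputable def word (n : G) : FreeGroup κ :=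
  open Classical in
  if h : n ∈ N then Function.surjInv (PresentedGroup.mk_surjective (↑R : Set (FreeGroup κ))) (eN.symm ⟨n, h⟩)
  else 1

theorem val_inl (r : FreeGroup κ) :
    FreeGroup.lift (val R N eN x) (FreeGroup.map Sum.inl r) = (eN (PresentedGroup.mk _ r) : G) :=
  DFunLike.congr_fun (FreeGroup.ext_hom ((FreeGroup.lift (val R N eN x)).comp (FreeGroup.map Sum.inl))
    ((N.subtype.comp eN.toMonoidHom).comp (PresentedGroup.mk _)) fun i => by simp [val]; rfl) r

theorem val_word {n : G} (h : n ∈ N) :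
    FreeGroup.lift (val R N eN x) (FreeGroup.map Sum.inl (word R N eN n)) = n := by
  rw [val_inl, word, dif_pos h, Function.surjInv_eq (PresentedGroup.mk_surjective _), MulEquiv.apply_symm_apply]

/-- The map of a subgroup into a group with the relations of the presentation. -/
theorem exists_sub (S : Finset (FreeGroup (κ ⊕ Unit))) (hS : ∀ r ∈ R, FreeGroup.map Sum.inl r ∈ S) :
    ∃ ψ : ↥N →* PresentedGroup (↑S : Set (FreeGroup (κ ⊕ Unit))),
      (∀ i, PresentedGroup.of (Sum.inl i) ∈ ψ.range) ∧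
      ∀ (n : G) (h : n ∈ N), PresentedGroup.mk _ (FreeGroup.map Sum.inl (word R N eN n)) = ψ ⟨n, h⟩ := by
  classical
  let g : κ → PresentedGroup (↑S : Set (FreeGroup (κ ⊕ Unit))) := fun i => PresentedGroup.of (Sum.inl i)
  have hg : ∀ r, FreeGroup.lift g r = PresentedGroup.mk _ (FreeGroup.map Sum.inl r) := fun r =>
    DFunLike.congr_fun (FreeGroup.ext_hom (FreeGroup.lift g)
      ((PresentedGroup.mk _).comp (FreeGroup.map Sum.inl)) fun i => by simp [g]; rfl) r
  have hB : ∀ r ∈ (↑R : Set (FreeGroup κ)), FreeGroup.lift g r = 1 := fun r hr => by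
    rw [hg]
    exact PresentedGroup.one_of_mem (Finset.mem_coe.2 (hS _ (Finset.mem_coe.1 hr)))
  refine ⟨(PresentedGroup.toGroup hB).comp eN.symm.toMonoidHom, fun i => ⟨eN (PresentedGroup.of i), ?_⟩,
    fun n h => ?_⟩
  · show PresentedGroup.toGroup hB (eN.symm (eN (PresentedGroup.of i))) = _
    rw [MulEquiv.symm_apply_apply]
    exact PresentedGroup.toGroup.of (h := hB)
  · show _ = PresentedGroup.toGroup hB (eN.symm ⟨n, h⟩)
    rw [← hg]
    conv_rhs => rw [show eN.symm ⟨n, h⟩ = PresentedGroup.mk _ (word R N eN n) by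
      rw [word, dif_pos h, Function.surjInv_eq (PresentedGroup.mk_surjective _)]]
    rfl

end Common

/-- A presentation of an extension by a cyclic group. -/
theorem cyclic_ext (R : Finset (FreeGroup κ)) (N N' : Subgroup G) [Finite N]
    (eN : PresentedGroup (↑R : Set (FreeGroup κ)) ≃* ↥N) (hle : N ≤ N') (x : G) (hx : x ∈ N')
    (m : ℕ) (hm : 0 < m) (hxm : x ^ m ∈ N) (hmin : ∀ j, j < m → x ^ j ∈ N → j = 0)
    (hconj : ∀ n ∈ N, x * n * x⁻¹ ∈ N) (hcov : ∀ g ∈ N', ∃ j < m, g * (x ^ j)⁻¹ ∈ N) :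
    ∃ R' : Finset (FreeGroup (κ ⊕ Unit)), R'.card ≤ R.card + 1 + Fintype.card κ ∧
      Nonempty (PresentedGroup (↑R' : Set (FreeGroup (κ ⊕ Unit))) ≃* ↥N') := by
  classical
  let val := val R N eN x
  let wN : G → FreeGroup (κ ⊕ Unit) := fun n => FreeGroup.map Sum.inl (word R N eN n)
  let a : κ → G := fun i => (eN (PresentedGroup.of i) : G)
  let rp : FreeGroup (κ ⊕ Unit) := FreeGroup.of (Sum.inr ()) ^ m * (wN (x ^ m))⁻¹
  let rc : κ → FreeGroup (κ ⊕ Unit) := fun i =>
    FreeGroup.of (Sum.inr ()) * FreeGroup.of (Sum.inl i) * (FreeGroup.of (Sum.inr ()))⁻¹ * (wN (x * a i * x⁻¹))⁻¹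
  let R' : Finset (FreeGroup (κ ⊕ Unit)) := R.image (FreeGroup.map Sum.inl) ∪ ({rp} ∪ Finset.univ.image rc)
  have hcard : R'.card ≤ R.card + 1 + Fintype.card κ := by
    refine (Finset.card_union_le _ _).trans ?_
    have h1 : (R.image (FreeGroup.map (Sum.inl : κ → κ ⊕ Unit))).card ≤ R.card := Finset.card_image_le
    have h2 := Finset.card_union_le ({rp} : Finset (FreeGroup (κ ⊕ Unit))) (Finset.univ.image rc)
    have h3 : (Finset.univ.image rc).card ≤ Fintype.card κ := Finset.card_image_le.trans (by simp)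
    simp only [Finset.card_singleton] at h2
    omega
  refine ⟨R', hcard, ?_⟩
  -- into the group
  have va : ∀ i, FreeGroup.lift val (FreeGroup.of (Sum.inl i)) = a i := fun i => FreeGroup.lift_apply_of
  have vx : FreeGroup.lift val (FreeGroup.of (Sum.inr ())) = x := FreeGroup.lift_apply_of
  have vw : ∀ n ∈ N, FreeGroup.lift val (wN n) = n := fun n h => val_word R N eN x h
  let fN : κ ⊕ Unit → ↥N' := fun i => ⟨val i, by
    rcases i with i | i
    · exact hle (eN (PresentedGroup.of i)).2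
    · exact hx⟩
  have hcoe : ∀ r, ((FreeGroup.lift fN r : ↥N') : G) = FreeGroup.lift val r := fun r =>
    DFunLike.congr_fun (FreeGroup.ext_hom (N'.subtype.comp (FreeGroup.lift fN)) (FreeGroup.lift val)
      fun i => by simp [fN]) r
  have hA : ∀ r ∈ (↑R' : Set (FreeGroup (κ ⊕ Unit))), FreeGroup.lift fN r = 1 := by
    intro r hr
    apply Subtype.ext
    rw [hcoe, OneMemClass.coe_one]
    simp only [R', Finset.coe_union, Finset.coe_image, Finset.coe_singleton, Finset.coe_univ, Set.image_univ,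
      Set.mem_union, Set.mem_image, Finset.mem_coe, Set.mem_singleton_iff, Set.mem_range] at hr
    rcases hr with ⟨r', hr', rfl⟩ | rfl | ⟨i, rfl⟩
    · rw [val_inl, PresentedGroup.one_of_mem (Finset.mem_coe.2 hr'), map_one, OneMemClass.coe_one]
    · simp only [rp, map_mul, map_inv, map_pow, vx, vw _ hxm, mul_inv_cancel]
    · simp only [rc, map_mul, map_inv, vx, va, vw _ (hconj (a i) (eN (PresentedGroup.of i)).2), mul_inv_cancel]
  let f : PresentedGroup (↑R' : Set (FreeGroup (κ ⊕ Unit))) →* ↥N' := PresentedGroup.toGroup hA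
  have hfmk : ∀ w, ((f (PresentedGroup.mk _ w) : ↥N') : G) = FreeGroup.lift val w := fun w => hcoe w
  -- inside the presented group
  obtain ⟨ψ, hψr, hψw⟩ := exists_sub R N eN R' (fun r hr => Finset.mem_union_left _ (Finset.mem_image_of_mem _ hr))
  let mk := PresentedGroup.mk (↑R' : Set (FreeGroup (κ ⊕ Unit)))
  have hfψ : ∀ n, ((f (ψ n) : ↥N') : G) = n := fun n => by
    rw [← hψw n.1 n.2, hfmk]; exact vw _ n.2
  let P := ψ.range
  let X := mk (FreeGroup.of (Sum.inr ()))
  have hrel : ∀ r ∈ R', mk r = 1 := fun r hr => PresentedGroup.one_of_mem (Finset.mem_coe.2 hr)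
  have hXm : X ^ m ∈ P := by
    have := hrel rp (Finset.mem_union_right _ (Finset.mem_union_left _ (Finset.mem_singleton_self _)))
    simp only [rp, map_mul, map_inv, map_pow, mul_inv_eq_one] at this
    exact ⟨_, (hψw _ hxm).symm.trans this.symm⟩
  have hXc : ∀ y ∈ P, X * y * X⁻¹ ∈ P := by
    have hgenN : Subgroup.closure (Set.range a) = N := by
      have : Set.range a = (N.subtype.comp eN.toMonoidHom) '' Set.range PresentedGroup.of :=
        Set.range_comp (N.subtype.comp eN.toMonoidHom) (PresentedGroup.of (rels := (↑R : Set (FreeGroup κ))))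
      rw [this, ← MonoidHom.map_closure, PresentedGroup.closure_range_of, ← MonoidHom.range_eq_map,
        MonoidHom.range_comp, MonoidHom.range_eq_top.2 eN.surjective, ← MonoidHom.range_eq_map, Subgroup.range_subtype]
    rintro _ ⟨n, rfl⟩
    have key : ∀ n, n ∈ Subgroup.closure (Set.range a) → ∀ h : n ∈ N, X * ψ ⟨n, h⟩ * X⁻¹ ∈ P := by
      intro n hn
      induction hn using Subgroup.closure_induction with
      | mem y hy =>
        obtain ⟨i, rfl⟩ := hy
        intro h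
        have := hrel (rc i) (Finset.mem_union_right _ (Finset.mem_union_right _
          (Finset.mem_image_of_mem _ (Finset.mem_univ i))))
        simp only [rc, map_mul, map_inv, mul_inv_eq_one] at this
        refine ⟨⟨_, hconj (a i) h⟩, ?_⟩
        rw [← hψw (x * a i * x⁻¹) (hconj _ h), ← this]
        have e1 : ψ ⟨a i, h⟩ = mk (FreeGroup.of (Sum.inl i)) := by
          obtain ⟨n', hn'⟩ := hψr i
          have e2 : (n' : G) = a i := by
            rw [← hfψ n', hn']
            exact (hfmk _).trans (va i)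
          exact (congrArg ψ (Subtype.ext e2.symm)).trans hn'
        rw [e1]
      | one => intro h; exact ⟨1, by rw [map_one]; show _ = X * ψ 1 * X⁻¹; rw [map_one, mul_one, mul_inv_cancel]⟩
      | mul y z hy hz ihy ihz =>
        intro h
        rw [hgenN] at hy hz
        have := mul_mem (ihy hy) (ihz hz)
        rwa [show X * ψ ⟨y, hy⟩ * X⁻¹ * (X * ψ ⟨z, hz⟩ * X⁻¹) = X * (ψ ⟨y, hy⟩ * ψ ⟨z, hz⟩) * X⁻¹ by group,
          ← map_mul] at this
      | inv y hy ih =>
        intro h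
        rw [hgenN] at hy
        have := inv_mem (ih hy)
        rwa [show (X * ψ ⟨y, hy⟩ * X⁻¹)⁻¹ = X * (ψ ⟨y, hy⟩)⁻¹ * X⁻¹ by group, ← map_inv] at this
    exact key n (by rw [hgenN]; exact n.2) n.2
  have hXci : ∀ y ∈ P, X⁻¹ * y * X ∈ P := by
    let c : ↥P → ↥P := fun y => ⟨X * y * X⁻¹, hXc _ y.2⟩
    haveI : Finite ↥P := Finite.of_surjective _ ψ.rangeRestrict_surjective
    have hc : Function.Surjective c := Finite.injective_iff_surjective.1 fun y z h => by
      simpa [c] using h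
    intro y hy
    obtain ⟨z, hz⟩ := hc ⟨y, hy⟩
    have hz' : X * z * X⁻¹ = y := congrArg Subtype.val hz
    rw [show X⁻¹ * y * X = z by rw [← hz']; group]
    exact z.2
  have hpow : ∀ i : ℕ, ∀ y ∈ P, X ^ i * y * (X ^ i)⁻¹ ∈ P := by
    intro i
    induction i with
    | zero => intro y hy; simpa using hy
    | succ i ih =>
      intro y hy
      rw [show X ^ (i + 1) * y * (X ^ (i + 1))⁻¹ = X * (X ^ i * y * (X ^ i)⁻¹) * X⁻¹ by rw [pow_succ']; group]
      exact hXc _ (ih y hy)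
  have hall : ∀ z, ∃ y ∈ P, ∃ j < m, z = y * X ^ j := by
    have key : ∀ i : ℕ, ∃ y ∈ P, ∃ j < m, X ^ i = y * X ^ j := fun i =>
      ⟨(X ^ m) ^ (i / m), pow_mem hXm _, i % m, Nat.mod_lt _ hm, by
        rw [← pow_mul, ← pow_add, Nat.div_add_mod]⟩
    intro z
    have hz : z ∈ Subgroup.closure (Set.range (PresentedGroup.of (rels := (↑R' : Set (FreeGroup (κ ⊕ Unit)))))) := by
      rw [PresentedGroup.closure_range_of]; trivial
    induction hz using Subgroup.closure_induction_left with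
    | one => exact ⟨1, one_mem _, 0, hm, by simp⟩
    | mul_left g hg z _ ih =>
      obtain ⟨i | i, rfl⟩ := hg <;> obtain ⟨y, hy, j, hj, rfl⟩ := ih
      · exact ⟨_, mul_mem (hψr i) hy, j, hj, (mul_assoc _ _ _).symm⟩
      · obtain ⟨y', hy', j', hj', e⟩ := key (j + 1)
        refine ⟨_, mul_mem (hXc y hy) hy', j', hj', ?_⟩
        show X * (y * X ^ j) = _
        rw [mul_assoc, ← e, pow_succ']
        group
    | inv_mul_cancel g hg z _ ih =>
      obtain ⟨i | i, rfl⟩ := hg <;> obtain ⟨y, hy, j, hj, rfl⟩ := ih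
      · exact ⟨_, mul_mem (inv_mem (hψr i)) hy, j, hj, (mul_assoc _ _ _).symm⟩
      · obtain ⟨y', hy', j', hj', e⟩ := key (m - 1 + j)
        refine ⟨_, mul_mem (mul_mem (hXci y hy) (inv_mem hXm)) hy', j', hj', ?_⟩
        show X⁻¹ * (y * X ^ j) = _
        rw [mul_assoc, ← e, mul_assoc, show (X ^ m)⁻¹ * X ^ (m - 1 + j) = X⁻¹ * X ^ j by
          rw [pow_add, ← mul_assoc, show m = m - 1 + 1 by omega, pow_succ, Nat.add_sub_cancel, mul_inv_rev]
          group]
        group
  have hfX : ((f X : ↥N') : G) = x := (hfmk _).trans vx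
  refine ⟨MulEquiv.ofBijective f ⟨(injective_iff_map_eq_one f).2 fun z hz => ?_, fun g => ?_⟩⟩
  · obtain ⟨y, ⟨n, rfl⟩, j, hj, rfl⟩ := hall z
    have h1 : (n : G) * x ^ j = 1 := by
      have := congrArg Subtype.val hz
      simp only [map_mul, map_pow, Subgroup.coe_mul, SubgroupClass.coe_pow, hfψ, hfX, OneMemClass.coe_one] at this
      exact this
    have hj0 : j = 0 := hmin j hj (by rw [eq_inv_of_mul_eq_one_right h1]; exact inv_mem n.2)
    subst hj0
    have hn : n = 1 := Subtype.ext (by simpa using h1)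
    rw [hn]; simp
  · obtain ⟨j, _, hj⟩ := hcov g g.2
    refine ⟨ψ ⟨_, hj⟩ * X ^ j, Subtype.ext ?_⟩
    rw [map_mul, map_pow, Subgroup.coe_mul, SubgroupClass.coe_pow, hfψ, hfX]
    show (g : G) * (x ^ j)⁻¹ * x ^ j = g
    group

/-- A presentation from a decomposition `G = B ∪ BwB` with an involution `w`. -/
theorem rank_one (R : Finset (FreeGroup κ)) (B : Subgroup G)
    (eB : PresentedGroup (↑R : Set (FreeGroup κ)) ≃* ↥B) (w : G) (hw : w * w = 1) (hwB : w ∉ B)
    (h : G) (hh : h ∈ B) (hwh : w * h * w ∈ B) (L : List G)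
    (hcell : ∀ r ∈ L, r ∈ B ∧ ∃ y ∈ B, ∃ z ∈ B, w * r * w = y * w * z)
    (hdec : ∀ b ∈ B, b ∈ Subgroup.zpowers h ∨ ∃ r ∈ L, ∃ t ∈ Subgroup.zpowers h, ∃ t' ∈ Subgroup.zpowers h,
      b = t * r * t' ∨ b = t * r⁻¹ * t')
    (hgen : Subgroup.closure ((B : Set G) ∪ {w}) = ⊤) :
    ∃ R' : Finset (FreeGroup (κ ⊕ Unit)), R'.card ≤ R.card + 2 + L.length ∧
      Nonempty (PresentedGroup (↑R' : Set (FreeGroup (κ ⊕ Unit))) ≃* G) := by
  classical
  let val := val R B eB w
  let wB : G → FreeGroup (κ ⊕ Unit) := fun n => FreeGroup.map Sum.inl (word R B eB n)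
  let W : FreeGroup (κ ⊕ Unit) := FreeGroup.of (Sum.inr ())
  have hex : ∀ r : G, ∃ y z : G, r ∈ L → y ∈ B ∧ z ∈ B ∧ w * r * w = y * w * z := fun r => by
    by_cases hr : r ∈ L
    · obtain ⟨-, y, hy, z, hz, e⟩ := hcell r hr
      exact ⟨y, z, fun _ => ⟨hy, hz, e⟩⟩
    · exact ⟨1, 1, fun h' => absurd h' hr⟩
  choose cy cz hyz using hex
  let rw2 : FreeGroup (κ ⊕ Unit) := W * W
  let rh : FreeGroup (κ ⊕ Unit) := W * wB h * W * (wB (w * h * w))⁻¹
  let rr : G → FreeGroup (κ ⊕ Unit) := fun r => W * wB r * W * (wB (cy r) * W * wB (cz r))⁻¹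
  let R' : Finset (FreeGroup (κ ⊕ Unit)) := R.image (FreeGroup.map Sum.inl) ∪ (rw2 :: rh :: L.map rr).toFinset
  have hcard : R'.card ≤ R.card + 2 + L.length := by
    refine (Finset.card_union_le _ _).trans ?_
    have h1 : (R.image (FreeGroup.map (Sum.inl : κ → κ ⊕ Unit))).card ≤ R.card := Finset.card_image_le
    have h2 := List.toFinset_card_le (rw2 :: rh :: L.map rr)
    simp only [List.length_cons, List.length_map] at h2
    omega
  refine ⟨R', hcard, ?_⟩
  have vw : FreeGroup.lift val W = w := FreeGroup.lift_apply_of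
  have vB : ∀ n ∈ B, FreeGroup.lift val (wB n) = n := fun n h => val_word R B eB w h
  have hA : ∀ r ∈ (↑R' : Set (FreeGroup (κ ⊕ Unit))), FreeGroup.lift val r = 1 := by
    intro r hr
    simp only [R', Finset.coe_union, Finset.coe_image, List.coe_toFinset, Set.mem_union, Set.mem_image,
      Finset.mem_coe, Set.mem_setOf_eq, List.mem_cons, List.mem_map] at hr
    rcases hr with ⟨r', hr', rfl⟩ | rfl | rfl | ⟨r', hr', rfl⟩
    · rw [val_inl, PresentedGroup.one_of_mem (Finset.mem_coe.2 hr'), map_one, OneMemClass.coe_one]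
    · simp only [rw2, map_mul, vw, hw]
    · simp only [rh, map_mul, map_inv, vw, vB _ hh, vB _ hwh, mul_inv_cancel]
    · obtain ⟨hy, hz, e⟩ := hyz r' hr'
      simp only [rr, map_mul, map_inv, vw, vB _ (hcell r' hr').1, vB _ hy, vB _ hz, mul_inv_eq_one, e]
  let f : PresentedGroup (↑R' : Set (FreeGroup (κ ⊕ Unit))) →* G := PresentedGroup.toGroup hA
  obtain ⟨ψ, hψr, hψw⟩ := exists_sub R B eB R' (fun r hr => Finset.mem_union_left _ (Finset.mem_image_of_mem _ hr))
  let mk := PresentedGroup.mk (↑R' : Set (FreeGroup (κ ⊕ Unit)))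
  have hfmk : ∀ v, f (mk v) = FreeGroup.lift val v := fun v => rfl
  have hfψ : ∀ n, f (ψ n) = n := fun n => by rw [← hψw n.1 n.2, hfmk]; exact vB _ n.2
  let P := ψ.range
  let V := mk W
  have hfV : f V = w := (hfmk _).trans vw
  have hrel : ∀ r ∈ (rw2 :: rh :: L.map rr), mk r = 1 := fun r hr =>
    PresentedGroup.one_of_mem (Finset.mem_coe.2 (Finset.mem_union_right _ (List.mem_toFinset.2 hr)))
  have hV2 : V * V = 1 := by simpa [rw2] using hrel rw2 (by simp)
  have hVi : V⁻¹ = V := inv_eq_of_mul_eq_one_right hV2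
  let Cell : Set (PresentedGroup (↑R' : Set (FreeGroup (κ ⊕ Unit)))) :=
    {s | ∃ y ∈ P, ∃ z ∈ P, s = y * V * z}
  have hh1 : V * ψ ⟨h, hh⟩ * V⁻¹ = ψ ⟨_, hwh⟩ := by
    have := hrel rh (by simp)
    simp only [rh, map_mul, map_inv, mul_inv_eq_one] at this
    rw [hVi, ← hψw, ← hψw]
    exact this
  have hT : ∀ t (ht : t ∈ Subgroup.zpowers h) (htB : t ∈ B), V * ψ ⟨t, htB⟩ * V ∈ P := by
    rintro t ⟨i, rfl⟩ htB
    have e : (⟨h ^ i, htB⟩ : ↥B) = (⟨h, hh⟩ : ↥B) ^ i := Subtype.ext (by simp)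
    simp only [e, map_zpow]
    have := congrArg (fun s => s ^ i) hh1
    simp only [conj_zpow] at this
    rw [show V * ψ ⟨h, hh⟩ ^ i * V = V * ψ ⟨h, hh⟩ ^ i * V⁻¹ by rw [hVi]]
    rw [this]
    exact zpow_mem (⟨⟨_, hwh⟩, rfl⟩ : ψ ⟨_, hwh⟩ ∈ P) i
  have hTle : ∀ t ∈ Subgroup.zpowers h, t ∈ B := fun t ht => (Subgroup.zpowers_le.2 hh) ht
  have hcells : ∀ y ∈ P, V * y * V ∈ P ∨ V * y * V ∈ Cell := by
    rintro _ ⟨⟨b, hb⟩, rfl⟩
    rcases hdec b hb with ht | ⟨r, hr, t, ht, t', ht', e⟩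
    · exact Or.inl (hT b ht hb)
    · obtain ⟨hy, hz, -⟩ := hyz r hr
      have hrB := (hcell r hr).1
      have h1 : V * ψ ⟨r, hrB⟩ * V = ψ ⟨_, hy⟩ * V * ψ ⟨_, hz⟩ := by
        have := hrel (rr r) (by simp only [List.mem_cons, List.mem_map]; exact Or.inr (Or.inr ⟨r, hr, rfl⟩))
        simp only [rr, map_mul, map_inv, mul_inv_eq_one] at this
        rw [← hψw, ← hψw, ← hψw]
        exact this
      have split : ∀ a c d : PresentedGroup (↑R' : Set (FreeGroup (κ ⊕ Unit))),
          V * (a * c * d) * V = V * a * V * (V * c * V) * (V * d * V) := fun a c d => by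
        simp only [mul_assoc]
        rw [← mul_assoc V V, hV2, one_mul, ← mul_assoc V V, hV2, one_mul]
      have htB := hTle t ht
      have htB' := hTle t' ht'
      right
      rcases e with rfl | rfl
      · rw [show (⟨t * r * t', hb⟩ : ↥B) = ⟨t, htB⟩ * ⟨r, hrB⟩ * ⟨t', htB'⟩ from rfl, map_mul, map_mul, split,
          h1]
        exact ⟨_, mul_mem (hT t ht htB) (⟨⟨_, hy⟩, rfl⟩ : ψ ⟨_, hy⟩ ∈ P), _, mul_mem ⟨⟨_, hz⟩, rfl⟩ (hT t' ht' htB'), by group⟩
      · rw [show (⟨t * r⁻¹ * t', hb⟩ : ↥B) = ⟨t, htB⟩ * ⟨r, hrB⟩⁻¹ * ⟨t', htB'⟩ from rfl, map_mul, map_mul, split,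
          map_inv, show V * (ψ ⟨r, hrB⟩)⁻¹ * V = (V * ψ ⟨r, hrB⟩ * V)⁻¹ by
            rw [mul_inv_rev, mul_inv_rev, hVi, mul_assoc],
          h1, mul_inv_rev, mul_inv_rev, hVi]
        exact ⟨_, mul_mem (hT t ht htB) (inv_mem (⟨⟨_, hz⟩, rfl⟩ : ψ ⟨_, hz⟩ ∈ P)), _, mul_mem (inv_mem ⟨⟨_, hy⟩, rfl⟩) (hT t' ht' htB'),
          by group⟩
  have step : ∀ s, s ∈ P ∨ s ∈ Cell → ∀ g, (g ∈ P ∨ g = V) → g * s ∈ P ∨ g * s ∈ Cell := by
    rintro s hs g (hg | rfl)
    · rcases hs with hs | ⟨y, hy, z, hz, rfl⟩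
      · exact Or.inl (mul_mem hg hs)
      · exact Or.inr ⟨_, mul_mem hg hy, z, hz, by group⟩
    · rcases hs with hs | ⟨y, hy, z, hz, rfl⟩
      · exact Or.inr ⟨1, one_mem _, s, hs, by rw [one_mul]⟩
      · rw [show V * (y * V * z) = V * y * V * z by group]
        rcases hcells y hy with h' | ⟨y', hy', z', hz', e⟩
        · exact Or.inl (mul_mem h' hz)
        · exact Or.inr ⟨y', hy', _, mul_mem hz' hz, by rw [e]; group⟩
  have hall : ∀ z, z ∈ P ∨ z ∈ Cell := by
    intro z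
    have hz : z ∈ Subgroup.closure (Set.range (PresentedGroup.of (rels := (↑R' : Set (FreeGroup (κ ⊕ Unit)))))) := by
      rw [PresentedGroup.closure_range_of]; trivial
    induction hz using Subgroup.closure_induction_left with
    | one => exact Or.inl (one_mem _)
    | mul_left g hg z _ ih =>
      obtain ⟨i | i, rfl⟩ := hg
      · exact step z ih _ (Or.inl (hψr i))
      · exact step z ih _ (Or.inr rfl)
    | inv_mul_cancel g hg z _ ih =>
      obtain ⟨i | i, rfl⟩ := hg
      · exact step z ih _ (Or.inl (inv_mem (hψr i)))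
      · exact step z ih _ (Or.inr hVi)
  refine ⟨MulEquiv.ofBijective f ⟨(injective_iff_map_eq_one f).2 fun z hz => ?_, ?_⟩⟩
  · rcases hall z with ⟨n, rfl⟩ | ⟨_, ⟨y, rfl⟩, _, ⟨z', rfl⟩, rfl⟩
    · rw [show n = 1 from Subtype.ext (by rw [← hfψ n, hz]; rfl), map_one]
    · exfalso
      rw [map_mul, map_mul, hfψ, hfψ, hfV] at hz
      exact hwB (by
        rw [show w = (y : G)⁻¹ * ((y : G) * w * (z' : G)) * (z' : G)⁻¹ by group, hz, mul_one]
        exact mul_mem (inv_mem y.2) (inv_mem z'.2))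
  · rw [← MonoidHom.range_eq_top, eq_top_iff, ← hgen, Subgroup.closure_le]
    rintro b (hb | rfl)
    · exact ⟨ψ ⟨b, hb⟩, hfψ _⟩
    · exact ⟨V, hfV⟩

end Cfsg.Agent.H81.SUPres.Ext
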