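import Cfsg.Agent.H81.SUPres.Rank1
import Cfsg.Agent.H81.SpPres.SpBasic

/-!
# The Levi subgroup and the embedded rank one subgroup of the unitary group
-/

set_option autoImplicit false
set_option linter.unusedSectionVars false
set_option maxHeartbeats 1000000

namespace Cfsg.Agent.H81.SUPres

open Equiv Matrix Cfsg.Agent.H58.PSUFusion Cfsg.Agent.H64.SLCover
open Cfsg.Agent.H81.SpPres (ap ap_mul ap_one ap_add ap_smul pm pm_single pm_inv pm_mul dg dg_single xg xg_single
  det_dg det_xg ev gl_ext)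
open scoped MatrixGroups

variable {F : Type*} [Field F] (I : Cfsg.Agent.H58.PSUFusion.Inv F) {r e : ℕ}

/-- The Levi subgroup: general linear with admissible determinant. -/
def Lev (r e : ℕ) : Subgroup (GL (Fin r) F) := (Dl I e).comap Matrix.GeneralLinearGroup.det

theorem mem_Lev_of_det {A : GL (Fin r) F} (h : Matrix.GeneralLinearGroup.det A = 1) : A ∈ Lev I r e := by
  show Matrix.GeneralLinearGroup.det A ∈ Dl I e
  rw [h]; exact one_mem _

/-- A transvection in the Levi subgroup. -/
def xq (i j : Fin r) (t : F) : Lev I r e := ⟨xg i j t, mem_Lev_of_det I (det_xg i j t)⟩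

theorem σ_det_pm (σ : Perm (Fin r)) :
    I.σ ((Matrix.GeneralLinearGroup.det (pm σ : GL (Fin r) F) : Fˣ) : F) =
      ((Matrix.GeneralLinearGroup.det (pm σ : GL (Fin r) F) : Fˣ) : F) := by
  show I.σ ((σ⁻¹.permMatrix F).det) = (σ⁻¹.permMatrix F).det
  rw [Matrix.det_permutation]
  exact map_intCast I.σ _

/-- A permutation in the Levi subgroup. -/
def pq (σ : Perm (Fin r)) : Lev I r e := ⟨pm σ, fun _ => σ_det_pm I σ⟩

/-- A diagonal element in the Levi subgroup. -/
def dq (i : Fin r) : Dl I e →* Lev I r e where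
  toFun c := ⟨dg i (c : Fˣ), show Matrix.GeneralLinearGroup.det _ ∈ Dl I e by rw [det_dg]; exact c.2⟩
  map_one' := Subtype.ext (by simp)
  map_mul' c d := Subtype.ext (by simp)

variable {I}

@[simp] theorem coe_xq (i j : Fin r) (t : F) : ((xq I i j t : Lev I r e) : GL (Fin r) F) = xg i j t := rfl

@[simp] theorem coe_pq (σ : Perm (Fin r)) : ((pq I σ : Lev I r e) : GL (Fin r) F) = pm σ := rfl

@[simp] theorem coe_dq (i : Fin r) (c : Dl I e) : ((dq I i c : Lev I r e) : GL (Fin r) F) = dg i (c : Fˣ) := rfl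

/-- The determinant of an element of the Levi subgroup. -/
def dt : Lev I r e →* Fˣ := Matrix.GeneralLinearGroup.det.comp (Lev I r e).subtype

theorem dt_apply (A : Lev I r e) : dt A = Matrix.GeneralLinearGroup.det (A : GL (Fin r) F) := rfl

@[simp] theorem dt_xq (i j : Fin r) (t : F) : dt (xq I i j t : Lev I r e) = 1 := det_xg i j t

@[simp] theorem dt_dq (i : Fin r) (c : Dl I e) : dt (dq I i c : Lev I r e) = (c : Fˣ) := det_dg i _

theorem chi_pq (σ : Perm (Fin r)) : chi I (dt (pq I σ : Lev I r e)) = 1 := chi_of_fix I (σ_det_pm I σ)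

variable [Finite F]

/-- The Levi homomorphism. -/
def levG (he : e ≤ 1) : Lev I r e →* ↥(SUh I r e) where
  toFun A := lev ((A : GL (Fin r) F) : Matrix (Fin r) (Fin r) F)
    (dag I (((A : GL (Fin r) F)⁻¹ : GL (Fin r) F) : Matrix (Fin r) (Fin r) F)) (midM I e (dt A))
    (by rw [← dag_mul, Units.inv_mul, dag_one]) (midM_unit _)
    (by
      rw [det_dag]
      have : (((A : GL (Fin r) F)⁻¹ : GL (Fin r) F) : Matrix (Fin r) (Fin r) F).det =
          (((dt A : Fˣ) : F))⁻¹ := by
        rw [← Units.val_inv_eq_inv_val, dt_apply, ← map_inv]; rfl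
      rw [this, map_inv₀]
      exact det_midM he A.2)
  map_one' := ext_mat (by simp [mat_lev, mat_one, dag_one, midM_one, b3_one])
  map_mul' A B := ext_mat (by
    rw [mat_mul, mat_lev, mat_lev, mat_lev, b3_mul, map_mul dt, midM_mul, Subgroup.coe_mul, _root_.mul_inv_rev,
      Units.val_mul, Units.val_mul, dag_mul]
    simp)

theorem mat_levG (he : e ≤ 1) (A : Lev I r e) : mat (levG he A) =
    b3 ((A : GL (Fin r) F) : Matrix (Fin r) (Fin r) F) 0 0 0 (midM I e (dt A)) 0 0 0
      (dag I (((A : GL (Fin r) F)⁻¹ : GL (Fin r) F) : Matrix (Fin r) (Fin r) F)) := rfl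

theorem levG_toGL (he : e ≤ 1) (S : Matrix.SpecialLinearGroup (Fin r) F) (h) :
    levG (I := I) (e := e) he ⟨Matrix.SpecialLinearGroup.toGL S, h⟩ = levS S := by
  apply ext_mat
  rw [mat_levG, mat_levS, show dt (⟨Matrix.SpecialLinearGroup.toGL S, h⟩ : Lev I r e) = 1 from Units.ext S.2,
    midM_one]
  rfl

variable (I) in
/-- The unipotent element of a vector. -/
def tv (v : Fin r → F) (a : Fin e → F) (s : F) (h : Rel I a s) : ↥(SUh I r e) :=
  nE (Matrix.vecMulVec v a) (s • Matrix.vecMulVec v (I.σ ∘ v)) (by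
    ext i j
    simp [dag_apply, Matrix.mul_apply, Matrix.vecMulVec_apply, I.invol]
    have : ∀ x, v i * a x * (I.σ (v j) * I.σ (a x)) = v i * I.σ (v j) * (a x * I.σ (a x)) := fun x => by ring
    simp only [this, ← Finset.mul_sum]
    unfold Rel ip at h
    linear_combination (v i * I.σ (v j)) * h)

theorem tv_congr {v v' : Fin r → F} {a a' : Fin e → F} {s s' : F} {h : Rel I a s} {h' : Rel I a' s'}
    (hv : v = v') (ha : a = a') (hs : s = s') : tv I v a s h = tv I v' a' s' h' := by
  subst hv ha hs; rfl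

theorem levG_tv (he : e ≤ 1) (A : Lev I r e) (v : Fin r → F) {a : Fin e → F} {s : F} (h : Rel I a s) :
    ∃ h', levG he A * tv I v a s h * (levG he A)⁻¹ =
      tv I (ap (A : GL (Fin r) F) v) ((chi I (dt A) : F) • a) s h' := by
  have h' : Rel I ((chi I (dt A) : F) • a) s :=
    h.unit (by rw [σ_chi, mul_inv_cancel₀ (Units.ne_zero _)])
  refine ⟨h', ?_⟩
  rw [tv, levG, MonoidHom.coe_mk, OneHom.coe_mk, lev_mul_nE]
  refine nE_congr ?_ ?_
  · rw [dag_midM, Matrix.mul_smul, Matrix.mul_one, Matrix.mul_vecMulVec]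
    ext i j
    simp [Matrix.vecMulVec_apply, ap]
    ring
  · rw [Matrix.mul_smul, Matrix.smul_mul, Matrix.mul_vecMulVec, Matrix.vecMulVec_mul]
    congr 2
    funext j
    simp [Matrix.vecMul, Matrix.mulVec, dotProduct, ap, dag_apply, map_sum, mul_comm]

/-! ### The embedded rank one subgroup -/

/-- The splitting of the indices. -/
def spl (k e : ℕ) : Ix 1 e ⊕ Ix k 0 ≃ Ix (k + 1) e where
  toFun
    | .inl (.inl _) => .inl 0
    | .inl (.inr (.inl m)) => .inr (.inl m)
    | .inl (.inr (.inr _)) => .inr (.inr 0)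
    | .inr (.inl i) => .inl i.succ
    | .inr (.inr (.inl m)) => m.elim0
    | .inr (.inr (.inr i)) => .inr (.inr i.succ)
  invFun
    | .inl i => Fin.cases (.inl (.inl 0)) (fun j => .inr (.inl j)) i
    | .inr (.inl m) => .inl (.inr (.inl m))
    | .inr (.inr i) => Fin.cases (.inl (.inr (.inr 0))) (fun j => .inr (.inr (.inr j))) i
  left_inv x := by
    rcases x with (x | x | x) | (x | x | x)
    · simp [Subsingleton.elim x 0]
    · rfl
    · simp [Subsingleton.elim x 0]
    · simp
    · exact x.elim0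
    · simp
  right_inv x := by
    rcases x with x | x | x
    · refine Fin.cases ?_ (fun j => ?_) x <;> simp
    · rfl
    · refine Fin.cases ?_ (fun j => ?_) x <;> simp

variable {k : ℕ}

/-- Reindexing along the splitting. -/
def splM (X : Matrix (Ix 1 e ⊕ Ix k 0) (Ix 1 e ⊕ Ix k 0) F) : Matrix (Ix (k + 1) e) (Ix (k + 1) e) F :=
  Matrix.reindex (spl k e) (spl k e) X

theorem splM_mul (X Y : Matrix (Ix 1 e ⊕ Ix k 0) (Ix 1 e ⊕ Ix k 0) F) : splM X * splM Y = splM (X * Y) := by
  simp [splM, Matrix.submatrix_mul_equiv]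

theorem splM_apply (X : Matrix (Ix 1 e ⊕ Ix k 0) (Ix 1 e ⊕ Ix k 0) F) (a b : Ix 1 e ⊕ Ix k 0) :
    splM X (spl k e a) (spl k e b) = X a b := by simp [splM]

theorem spl_ext {X Y : Matrix (Ix (k + 1) e) (Ix (k + 1) e) F}
    (h : ∀ a b, X (spl k e a) (spl k e b) = Y (spl k e a) (spl k e b)) : X = Y := by
  ext i j
  obtain ⟨a, rfl⟩ := (spl k e).surjective i
  obtain ⟨b, rfl⟩ := (spl k e).surjective j
  exact h a b

theorem Φ_split : (Φ : Matrix (Ix (k + 1) e) (Ix (k + 1) e) F) = splM (Matrix.fromBlocks Φ 0 0 Φ) := by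
  refine spl_ext fun a b => ?_
  rw [splM_apply]
  rcases a with (a | a | a) | (a | a | a) <;> rcases b with (b | b | b) | (b | b | b) <;>
    first
      | exact a.elim0
      | exact b.elim0
      | simp [spl, Φ, b3, Matrix.one_apply, Fin.succ_ne_zero, eq_comm, Fin.fin_one_eq_zero]

theorem dag_splM (X : Matrix (Ix 1 e ⊕ Ix k 0) (Ix 1 e ⊕ Ix k 0) F) : dag I (splM X) = splM (dag I X) := by
  ext i j; simp [splM, dag_apply]

theorem dag_fromBlocks (X : Matrix (Ix 1 e) (Ix 1 e) F) (Y : Matrix (Ix k 0) (Ix k 0) F) :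
    dag I (Matrix.fromBlocks X 0 0 Y) = Matrix.fromBlocks (dag I X) 0 0 (dag I Y) := by
  ext (i | i) (j | j) <;> simp [dag_apply]

/-- The rank one subgroup at the first coordinate. -/
def emb : ↥(SUh I 1 e) →* ↥(SUh I (k + 1) e) where
  toFun y := mk (splM (Matrix.fromBlocks (mat y) 0 0 1))
    (by rw [splM, Matrix.det_reindex_self, Matrix.det_fromBlocks_zero₂₁, y.1.2, Matrix.det_one, mul_one])
    (by
      rw [dag_splM, dag_fromBlocks, dag_one, Φ_split, splM_mul, splM_mul, Matrix.fromBlocks_multiply,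
        Matrix.fromBlocks_multiply]
      simp only [Matrix.mul_zero, Matrix.zero_mul, add_zero, zero_add, Matrix.one_mul, Matrix.mul_one]
      rw [show dag I (mat y) * Φ * mat y = Φ from y.2])
  map_one' := ext_mat (by rw [mat_mk, mat_one, Matrix.fromBlocks_one]; simp [splM, mat_one])
  map_mul' y z := ext_mat (by
    show splM (Matrix.fromBlocks (mat y * mat z) 0 0 1) =
      splM (Matrix.fromBlocks (mat y) 0 0 1) * splM (Matrix.fromBlocks (mat z) 0 0 1)
    rw [splM_mul, Matrix.fromBlocks_multiply]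
    simp)

theorem mat_emb (y : ↥(SUh I 1 e)) : mat (emb (k := k) y) = splM (Matrix.fromBlocks (mat y) 0 0 1) := rfl

theorem emb_uz {a : Fin e → F} {s : F} (h : Rel I a s) :
    emb (k := k) (uz a s h) = tv I (Pi.single 0 1) a s h := by
  refine ext_mat (spl_ext fun x y => ?_)
  rw [mat_emb, splM_apply, mat_uz, tv, mat_nE]
  rcases x with (x | x | x) | (x | x | x) <;> rcases y with (y | y | y) | (y | y | y) <;>
    first
      | exact x.elim0
      | exact y.elim0
      | simp [spl, b3, Matrix.one_apply, Matrix.vecMulVec_apply, dag_apply, Fin.succ_ne_zero,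
          apply_ite I.σ, Pi.single_apply, eq_comm, Fin.fin_one_eq_zero]
      | simp [spl, b3, Matrix.one_apply, Matrix.vecMulVec_apply, dag_apply, Fin.succ_ne_zero,
          apply_ite I.σ, Pi.single_apply, eq_comm]

theorem emb_t1 (he : e ≤ 1) (c : Dl I e) : emb (k := k) (t1 he c) = levG he (dq I 0 c) := by
  refine ext_mat (spl_ext fun x y => ?_)
  rw [mat_emb, splM_apply, mat_t1, mat_levG, dt_dq]
  have e1 : (((dg (0 : Fin (k + 1)) (c : Fˣ)) : GL (Fin (k + 1)) F) : Matrix (Fin (k + 1)) (Fin (k + 1)) F) =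
      Matrix.diagonal fun a => if a = 0 then ((c : Fˣ) : F) else 1 := rfl
  have e2 : ((((dg (0 : Fin (k + 1)) (c : Fˣ)) : GL (Fin (k + 1)) F)⁻¹ : GL (Fin (k + 1)) F) : Matrix (Fin (k + 1)) (Fin (k + 1)) F) =
      Matrix.diagonal fun a => if a = 0 then (((c : Fˣ)⁻¹ : Fˣ) : F) else 1 := rfl
  rw [coe_dq, e1, e2]
  rcases x with (x | x | x) | (x | x | x) <;> rcases y with (y | y | y) | (y | y | y) <;>
    first
      | exact x.elim0
      | exact y.elim0
      | simp [spl, b3, Matrix.one_apply, Matrix.diagonal_apply, dag_apply, Fin.succ_ne_zero,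
          apply_ite I.σ, eq_comm, Fin.fin_one_eq_zero]
      | simp [spl, b3, Matrix.one_apply, Matrix.diagonal_apply, dag_apply, Fin.succ_ne_zero,
          apply_ite I.σ, eq_comm]

/-- Elements of the Levi subgroup respecting the splitting at the first coordinate. -/
def BlkL (A : GL (Fin (k + 1)) F) (l : Fˣ) : Prop :=
  ap A (ev' k) = (l : F) • ev' k ∧ ∀ a, a ≠ 0 → ap A (Pi.single a 1) 0 = 0
where ev' (k : ℕ) : Fin (k + 1) → F := Pi.single 0 1

theorem ap_single (A : GL (Fin r) F) (a b : Fin r) :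
    ap A (Pi.single a 1) b = (A : Matrix (Fin r) (Fin r) F) b a := by
  simp [ap, Matrix.mulVec_single_one]

theorem BlkL.inv {A : GL (Fin (k + 1)) F} {l : Fˣ} (h : BlkL A l) : BlkL A⁻¹ l⁻¹ := by
  have e1 : ∀ v, ap A⁻¹ (ap A v) = v := fun v => by rw [← ap_mul, inv_mul_cancel, ap_one]
  refine ⟨?_, fun a ha => ?_⟩
  · have := congrArg (ap A⁻¹) h.1
    rw [e1, ap_smul] at this
    conv_rhs => rw [this]
    rw [smul_smul, Units.inv_mul, one_smul]
  · have h00 : (A : Matrix (Fin (k + 1)) (Fin (k + 1)) F) 0 0 = l := by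
      rw [← ap_single]
      have := congrFun h.1 0
      simpa [BlkL.ev'] using this
    have h0 : ∀ v, ap A v 0 = (l : F) * v 0 := fun v => by
      simp only [ap, Matrix.mulVec, dotProduct]
      rw [Finset.sum_eq_single 0]
      · rw [h00]
      · intro b _ hb
        rw [← ap_single A b 0, h.2 b hb, zero_mul]
      · simp
    have h3 := h0 (ap A⁻¹ (Pi.single a 1))
    rw [← ap_mul, mul_inv_cancel, ap_one, Pi.single_eq_of_ne ha.symm] at h3
    exact (mul_eq_zero.1 h3.symm).resolve_left l.ne_zero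

theorem blk_conj (he : e ≤ 1) {A : Lev I (k + 1) e} {l : Fˣ} (h : BlkL (A : GL (Fin (k + 1)) F) l)
    (y : ↥(SUh I 1 e)) :
    levG he A * emb y * (levG he A)⁻¹ = emb (sig I l (dt A) y) := by
  set g := mat (levG he A)
  set R : Matrix (Ix k 0) (Ix k 0) F :=
    Matrix.of fun a b => g (spl k e (.inr a)) (spl k e (.inr b))
  have c1 : ∀ i, ((A : GL (Fin (k + 1)) F) : Matrix (Fin (k + 1)) (Fin (k + 1)) F) i 0 = if i = 0 then (l : F) else 0 := fun i => by
    rw [← ap_single]
    have := congrFun h.1 i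
    simp only [BlkL.ev'] at this
    rw [this]
    simp [Pi.single_apply]
  have c2 : ∀ j : Fin k, ((A : GL (Fin (k + 1)) F) : Matrix (Fin (k + 1)) (Fin (k + 1)) F) 0 j.succ = 0 := fun j => by
    rw [← ap_single]; exact h.2 _ (Fin.succ_ne_zero j)
  have d1 : ∀ i, (((A : GL (Fin (k + 1)) F)⁻¹ : GL (Fin (k + 1)) F) : Matrix (Fin (k + 1)) (Fin (k + 1)) F) i 0 =
      if i = 0 then ((l⁻¹ : Fˣ) : F) else 0 := fun i => by
    rw [← ap_single]
    have := congrFun h.inv.1 i
    simp only [BlkL.ev'] at this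
    rw [this]
    simp [Pi.single_apply]
  have d2 : ∀ j : Fin k, (((A : GL (Fin (k + 1)) F)⁻¹ : GL (Fin (k + 1)) F) : Matrix (Fin (k + 1)) (Fin (k + 1)) F) 0 j.succ = 0 :=
    fun j => by rw [← ap_single]; exact h.inv.2 _ (Fin.succ_ne_zero j)
  have hg : g = splM (Matrix.fromBlocks (dD I e l (dt A)) 0 0 R) := by
    refine spl_ext fun x y => ?_
    rw [splM_apply]
    rcases x with (x | x | x) | (x | x | x) <;> rcases y with (y | y | y) | (y | y | y) <;>
      first
        | exact x.elim0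
        | exact y.elim0
        | rfl
        | simp [-Matrix.coe_units_inv, g, mat_levG, spl, b3, dD, dag_apply, c1, c2, d1, d2, Fin.succ_ne_zero, Fin.fin_one_eq_zero]
        | simp [-Matrix.coe_units_inv, g, mat_levG, spl, b3, dD, dag_apply, c1, c2, d1, d2, Fin.succ_ne_zero]
  rw [mul_inv_eq_iff_eq_mul]
  apply ext_mat
  rw [mat_mul, mat_mul, mat_emb, mat_emb]
  show g * _ = _ * g
  rw [hg, splM_mul, splM_mul, Matrix.fromBlocks_multiply, Matrix.fromBlocks_multiply]
  congr 2
  · simp only [Matrix.mul_zero, add_zero, mat_sig, Matrix.mul_assoc, dD_mul, inv_mul_cancel, dD_one, Matrix.mul_one]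
  all_goals simp

/-- The permutation of the indices induced by a permutation of the coordinates. -/
def sumPerm (σ : Perm (Fin r)) : Perm (Ix r e) := σ.sumCongr ((Equiv.refl (Fin e)).sumCongr σ)

theorem mat_levG_pq (he : e ≤ 1) (σ : Perm (Fin r)) :
    mat (levG he (pq I σ : Lev I r e)) = (sumPerm (e := e) σ)⁻¹.permMatrix F := by
  have hm : midM I e (dt (pq I σ : Lev I r e)) = 1 := by simp [midM, chi_pq]
  rw [mat_levG, hm, coe_pq, pm_inv]
  ext (i | i | i) (j | j | j) <;>
    simp [b3, pm, Equiv.Perm.permMatrix, PEquiv.toMatrix, Equiv.toPEquiv, sumPerm, dag_apply, Matrix.one_apply,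
      apply_ite I.σ, Perm.inv_def, Equiv.symm_apply_eq] <;>
    split_ifs <;> simp_all

theorem pq_conj_apply (he : e ≤ 1) (σ : Perm (Fin r)) (g : ↥(SUh I r e)) (i j : Ix r e) :
    mat (levG he (pq I σ : Lev I r e) * g * (levG he (pq I σ : Lev I r e))⁻¹) (sumPerm σ i) (sumPerm σ j) =
      mat g i j := by
  have hi : ((pq I σ : Lev I r e))⁻¹ = pq I σ⁻¹ := Subtype.ext (pm_inv σ)
  have hs : (sumPerm (e := e) σ⁻¹)⁻¹ = sumPerm σ := by
    ext (x | x | x) <;> simp [sumPerm, Perm.inv_def]
  rw [← map_inv, hi, mat_mul, mat_mul, mat_levG_pq, mat_levG_pq, hs]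
  simp [Equiv.Perm.permMatrix, PEquiv.toMatrix_toPEquiv_mul, PEquiv.mul_toMatrix_toPEquiv]

/-- Elements supported on disjoint sets of indices commute. -/
theorem commute_of_support {ι : Type*} [Fintype ι] [DecidableEq ι] (p : ι → Prop) {M N : Matrix ι ι F}
    (hM : ∀ i j, ¬ (p i ∧ p j) → M i j = if i = j then 1 else 0)
    (hN : ∀ i j, (p i ∨ p j) → N i j = if i = j then 1 else 0) : M * N = N * M := by
  have h : (M - 1) * (N - 1) = 0 ∧ (N - 1) * (M - 1) = 0 := by
    constructor <;> ext i j <;> rw [Matrix.mul_apply] <;> refine Finset.sum_eq_zero fun x _ => ?_ <;>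
      by_cases hx : p x
    · rw [Matrix.sub_apply N, Matrix.one_apply, hN x j (Or.inl hx), sub_self, mul_zero]
    · rw [Matrix.sub_apply, Matrix.one_apply, hM i x (fun h => hx h.2), sub_self, zero_mul]
    · rw [Matrix.sub_apply, Matrix.one_apply, hN i x (Or.inr hx), sub_self, zero_mul]
    · rw [Matrix.sub_apply M, Matrix.one_apply, hM x j (fun h => hx h.1), sub_self, mul_zero]
  obtain ⟨h1, h2⟩ := h
  rw [sub_mul, mul_sub, mul_sub, mul_one, one_mul, one_mul, sub_eq_zero] at h1 h2
  calc M * N = (M * N - M) + M := by abel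
    _ = (N - 1) + M := by rw [h1]
    _ = (M - 1) + N := by abel
    _ = (N * M - N) + N := by rw [h2]
    _ = N * M := by abel

/-- The elements of the embedded group fixing the middle part. -/
theorem emb_mid_commute (he : e ≤ 1) {y : ↥(SUh I 1 e)}
    (hy : ∀ m x, mat y (.inr (.inl m)) x = (if (.inr (.inl m)) = x then 1 else 0) ∧
      mat y x (.inr (.inl m)) = (if x = .inr (.inl m) then 1 else 0))
    (z : ↥(SUh I 1 e)) {σ : Perm (Fin (k + 1))} (hσ : σ 0 ≠ 0) :
    Commute (emb y) (levG he (pq I σ) * emb z * (levG he (pq I σ))⁻¹) := by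
  let p : Ix (k + 1) e → Prop := fun x => x = .inl 0 ∨ x = .inr (.inr 0)
  apply ext_mat
  show mat (emb y) * mat (levG he (pq I σ) * emb z * (levG he (pq I σ))⁻¹) =
    mat (levG he (pq I σ) * emb z * (levG he (pq I σ))⁻¹) * mat (emb y)
  refine commute_of_support p (fun i j hij => ?_) fun i j hij => ?_
  · obtain ⟨a, rfl⟩ := (spl k e).surjective i
    obtain ⟨b, rfl⟩ := (spl k e).surjective j
    rw [mat_emb, splM_apply]
    simp only [(spl k e).injective.eq_iff]
    rcases a with (a | a | a) | a <;> rcases b with (b | b | b) | b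
    all_goals
      first
        | (simp [Matrix.one_apply]; done)
        | (exfalso; apply hij; simp [p, spl]; done)
        | (simp [Matrix.fromBlocks, Matrix.one_apply, fun m x => (hy m x).1, fun m x => (hy m x).2]; done)
  · obtain ⟨a, rfl⟩ := (sumPerm (e := e) σ).surjective i
    obtain ⟨b, rfl⟩ := (sumPerm (e := e) σ).surjective j
    rw [pq_conj_apply]
    simp only [(sumPerm (e := e) σ).injective.eq_iff]
    have key : ∀ x, p (sumPerm σ x) → ∃ x', x = spl k e (.inr x') := by
      rintro (x | x | x) hx <;> simp [p, sumPerm] at hx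
      · have : x ≠ 0 := fun h => hσ (h ▸ hx)
        obtain ⟨x', rfl⟩ := Fin.exists_succ_eq.2 this
        exact ⟨.inl x', rfl⟩
      · have : x ≠ 0 := fun h => hσ (h ▸ hx)
        obtain ⟨x', rfl⟩ := Fin.exists_succ_eq.2 this
        exact ⟨.inr (.inr x'), rfl⟩
    rcases hij with h | h
    · obtain ⟨a', rfl⟩ := key a h
      obtain ⟨b, rfl⟩ := (spl k e).surjective b
      rw [mat_emb, splM_apply]
      simp only [(spl k e).injective.eq_iff]
      rcases b with b | b <;> simp [Matrix.one_apply]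
    · obtain ⟨b', rfl⟩ := key b h
      obtain ⟨a, rfl⟩ := (spl k e).surjective a
      rw [mat_emb, splM_apply]
      simp only [(spl k e).injective.eq_iff]
      rcases a with a | a <;> simp [Matrix.one_apply]

/-! ### Weyl elements -/

variable (I e) in
/-- The product of the reflections at a set of coordinates, as a matrix. -/
def wM (s : Finset (Fin r)) : Matrix (Ix r e) (Ix r e) F :=
  b3 (Matrix.diagonal fun a => if a ∈ s then 0 else 1) 0 (Matrix.diagonal fun a => if a ∈ s then I.ξ else 0)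
    0 1 0 (Matrix.diagonal fun a => if a ∈ s then -I.ξ⁻¹ else 0) 0
    (Matrix.diagonal fun a => if a ∈ s then 0 else 1)

theorem emb_wq : mat (emb (k := k) (wq : ↥(SUh I 1 e))) = wM I e {0} := by
  refine spl_ext fun x y => ?_
  rw [mat_emb, splM_apply, mat_wq, wM]
  rcases x with (x | x | x) | (x | x | x) <;> rcases y with (y | y | y) | (y | y | y) <;>
    first
      | exact x.elim0
      | exact y.elim0
      | simp [spl, b3, Matrix.one_apply, Matrix.diagonal_apply, Fin.succ_ne_zero, eq_comm, Fin.fin_one_eq_zero]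
      | simp [spl, b3, Matrix.one_apply, Matrix.diagonal_apply, Fin.succ_ne_zero, eq_comm]

theorem wM_mul {s t : Finset (Fin r)} (h : Disjoint s t) : wM I e s * wM I e t = wM I e (s ∪ t) := by
  have hd : ∀ a, a ∈ s → a ∉ t := fun a ha => Finset.disjoint_left.1 h ha
  simp only [wM, b3_mul, Matrix.mul_zero, Matrix.zero_mul, add_zero, zero_add, Matrix.diagonal_mul_diagonal,
    Matrix.diagonal_add, Matrix.one_mul]
  congr 1 <;> refine congrArg Matrix.diagonal (funext fun a => ?_) <;>
    by_cases h1 : a ∈ s <;> by_cases h2 : a ∈ t <;> simp [h1, h2] <;> exact absurd h2 (hd a h1)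

theorem wM_pq (he : e ≤ 1) (σ : Perm (Fin r)) (s : Finset (Fin r)) (g : ↥(SUh I r e))
    (hg : mat g = wM I e s) :
    mat (levG he (pq I σ) * g * (levG he (pq I σ))⁻¹) = wM I e (s.map σ.toEmbedding) := by
  ext i j
  obtain ⟨a, rfl⟩ := (sumPerm (e := e) σ).surjective i
  obtain ⟨b, rfl⟩ := (sumPerm (e := e) σ).surjective j
  rw [pq_conj_apply, hg]
  rcases a with a | a | a <;> rcases b with b | b | b <;>
    simp [wM, b3, sumPerm, Matrix.diagonal_apply, Matrix.one_apply, σ.injective.eq_iff]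

/-- The pair of entries of a long short root element. -/
def pairS (I : Cfsg.Agent.H58.PSUFusion.Inv F) (j l : Fin r) (c : F) : Matrix (Fin r) (Fin r) F :=
  Matrix.single j l c - Matrix.single l j (I.σ c)

theorem pairS_rel (j l : Fin r) (c : F) : pairS I j l c + dag I (pairS I j l c) +
    (0 : Matrix (Fin r) (Fin e) F) * dag I (0 : Matrix (Fin r) (Fin e) F) = 0 := by
  rw [pairS, dag_sub, dag_single, dag_single, I.invol, Matrix.zero_mul, add_zero]
  abel

theorem wM_rx {j l : Fin r} (h : j ≠ l) (t : F) (g : ↥(SUh I r e)) (hg : mat g = wM I e {l}) :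
    g * levS (rx j l t) * g⁻¹ = nE 0 (pairS I j l (-(I.ξ * t))) (pairS_rel j l _) := by
  rw [mul_inv_eq_iff_eq_mul]
  apply ext_mat
  rw [mat_mul, mat_mul, mat_levS, mat_nE, hg, wM, rx_inv, rx_coe h, rx_coe h, dag_zero, neg_zero, dag_add, dag_one,
    dag_single, b3_mul, b3_mul]
  simp only [Matrix.mul_zero, Matrix.zero_mul, add_zero, zero_add, Matrix.mul_one, Matrix.one_mul, pairS,
    map_neg, map_mul, σ_ξ]
  congr 1
  all_goals
    ext a b
    simp only [Matrix.diagonal_mul, Matrix.mul_diagonal, Matrix.single, Matrix.one_apply, Matrix.add_apply,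
      Matrix.sub_apply, Matrix.zero_apply, Matrix.of_apply, Matrix.diagonal_apply, Matrix.neg_apply]
    have := I.ξ_ne
    split_ifs <;> first | ring1 | (field_simp; ring1) | grind

end Cfsg.Agent.H81.SUPres
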