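import Cfsg.Agent.H81.SU3Pres.Choice
import Cfsg.Agent.H81.SUPres.Ext

/-!
# Presentations of `SU₃(q)` for prime `q`
-/

set_option autoImplicit false
set_option linter.unusedSectionVars false
set_option maxHeartbeats 1000000

namespace Cfsg.Agent.H81.SUPres.SmallK

open Cfsg.Agent.H81.SU3Pres Polynomial

variable {F : Type*} [Field F] [Fintype F] {q : ℕ} [hq : Fact (Fintype.card F = q ^ 2)]

/-- The generators: three for the unipotent group, the torus and the Weyl element. -/
abbrev Gens : Type := ((((Empty ⊕ Unit) ⊕ Unit) ⊕ Unit) ⊕ Unit) ⊕ Unit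

/-- The unipotent elements with first parameter in a given group. -/
def UA (A : AddSubgroup F) : Subgroup (Mdl F q) where
  carrier := {g | ∃ a ∈ A, IsU a g}
  one_mem' := ⟨0, zero_mem A, IsU.one⟩
  mul_mem' := by rintro g g' ⟨a, ha, h⟩ ⟨a', ha', h'⟩; exact ⟨_, add_mem ha ha', h.mul h'⟩
  inv_mem' := by rintro g ⟨a, ha, h⟩; exact ⟨_, neg_mem ha, h.inv⟩

theorem UA_mono {A A' : AddSubgroup F} (h : A ≤ A') : UA (q := q) A ≤ UA A' :=
  fun _ ⟨a, ha, hu⟩ => ⟨a, h ha, hu⟩

theorem IsU.unique {a a' : F} {g : Mdl F q} (h : IsU a g) (h' : IsU a' g) : a = a' := by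
  obtain ⟨b, hb, rfl⟩ := h
  obtain ⟨b', hb', e⟩ := h'
  exact (uM_inj e).1

theorem conjH {a : F} {g : Mdl F q} (h : IsU a g) (c : Fˣ) :
    IsU (mu q (c : F) * a) (hM c * g * (hM c)⁻¹) := by
  obtain ⟨b, hb, rfl⟩ := h
  exact ⟨_, _, hM_uM c a b hb⟩

/-- The Borel subgroup. -/
def Bor : Subgroup (Mdl F q) where
  carrier := {g | ∃ a u c, IsU a u ∧ g = u * hM c}
  one_mem' := ⟨0, 1, 1, IsU.one, by simp⟩
  mul_mem' := by
    rintro g g' ⟨a, u, c, h, rfl⟩ ⟨a', u', c', h', rfl⟩
    exact ⟨_, _, c * c', h.mul (conjH h' c), by rw [map_mul]; group⟩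
  inv_mem' := by
    rintro g ⟨a, u, c, h, rfl⟩
    exact ⟨_, _, c⁻¹, conjH h.inv c⁻¹, by rw [map_inv, inv_inv, mul_inv_rev]; group⟩

theorem hM_mem (c : Fˣ) : hM c ∈ (Bor : Subgroup (Mdl F q)) := ⟨0, 1, c, IsU.one, by rw [one_mul]⟩

theorem uM_mem (a b : F) (h : Tz q a b) : uM a b h ∈ (Bor : Subgroup (Mdl F q)) :=
  ⟨a, _, 1, ⟨b, h, rfl⟩, by rw [map_one, mul_one]⟩

include hq

theorem tz_exists (a : F) : ∃ b, Tz q a b := by
  obtain ⟨b, hb⟩ := H3.exists_trace_eq hq.out (a := -(a * a ^ q)) (by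
    rw [pq_neg, mul_pow, pq_pq, mul_comm (a ^ q)])
  exact ⟨b, by unfold Tz; linear_combination hb⟩

theorem fix_cast [Fact q.Prime] [CharP F q] {x : F} (hx : x ^ q = x) : ∃ j < q, x = (j : F) := by
  classical
  let φ : Fin q → Fix F q := fun j => ⟨(j : ℕ), by rw [mem_fix]; exact map_natCast (H3.conjQ hq.out) _⟩
  have hinj : Function.Injective φ := fun i j h => Fin.ext (CharP.natCast_injOn_Iio F q i.2 j.2
    (congrArg Subtype.val h))
  haveI : Fintype (Fix F q) := Fintype.ofFinite _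
  have hbij : Function.Bijective φ := (Fintype.bijective_iff_injective_and_card φ).2 ⟨hinj, by
    rw [Fintype.card_fin, ← Nat.card_eq_fintype_card, card_fix]⟩
  obtain ⟨j, hj⟩ := hbij.2 ⟨x, hx⟩
  exact ⟨j, j.2, (congrArg Subtype.val hj).symm⟩

/-- One step up inside the unipotent group. -/
theorem step_U [Fact q.Prime] [CharP F q] {κ : Type} [Fintype κ] (R : Finset (FreeGroup κ))
    {A A' : AddSubgroup F} (eN : PresentedGroup (↑R : Set (FreeGroup κ)) ≃* ↥(UA (q := q) A)) (hA : A ≤ A')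
    (a : F) (ha : a ∈ A') (hmin : ∀ j, j < q → j • a ∈ A → j = 0)
    (hcov : ∀ a' ∈ A', ∃ j < q, a' - j • a ∈ A) :
    ∃ R' : Finset (FreeGroup (κ ⊕ Unit)), R'.card ≤ R.card + 1 + Fintype.card κ ∧
      Nonempty (PresentedGroup (↑R' : Set (FreeGroup (κ ⊕ Unit))) ≃* ↥(UA (q := q) A')) := by
  obtain ⟨b, hb⟩ := tz_exists (q := q) a
  have hx : IsU a (uM a b hb) := ⟨b, hb, rfl⟩
  refine Ext.cyclic_ext R (UA A) (UA A') eN (UA_mono hA) (uM a b hb) ⟨a, ha, hx⟩ q
    (Nat.Prime.pos Fact.out) ⟨_, ?_, hx.pow q⟩ (fun j hj ⟨a', ha', h'⟩ => hmin j hj ?_) ?_ ?_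
  · simp [nsmul_eq_mul, CharP.cast_eq_zero]
  · rwa [IsU.unique (hx.pow j) h']
  · rintro n ⟨a', ha', h'⟩
    refine ⟨a', ha', ?_⟩
    have := (hx.mul h').mul hx.inv
    rwa [add_neg_cancel_comm] at this
  · rintro g ⟨a', ha', h'⟩
    obtain ⟨j, hj, hj'⟩ := hcov a' ha'
    refine ⟨j, hj, _, hj', ?_⟩
    have := h'.mul (hx.pow j).inv
    rwa [← sub_eq_add_neg] at this

theorem uM_zero_pow (δ : F) (hδ : Tz q 0 δ) (j : ℕ) :
    ∃ h, uM 0 δ hδ ^ j = uM 0 ((j : F) * δ) h := by
  induction j with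
  | zero => exact ⟨by simpa using Tz.zero (F := F) (q := q), by rw [pow_zero, ← uM_zero]; exact uM_eq rfl (by simp)⟩
  | succ j ih =>
    obtain ⟨h, e⟩ := ih
    have h' : Tz q 0 (((j + 1 : ℕ) : F) * δ) := by
      have := h.mul hδ
      rw [add_zero] at this
      convert this using 1
      push_cast; ring
    refine ⟨h', ?_⟩
    rw [pow_succ, e, uM_mul]
    exact uM_eq (add_zero 0) (by push_cast; ring)

theorem fix_div {δ b : F} (hδ : δ ^ q = -δ) (hb : Tz q 0 b) : (b / δ) ^ q = b / δ := by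
  unfold Tz at hb
  rw [div_pow, hδ, div_neg, ← neg_div]
  congr 1
  rw [zero_mul, add_zero] at hb
  linear_combination -hb

theorem borel_pres [Fact q.Prime] [CharP F q] (ζ : Fˣ) (hζ : orderOf ζ = q ^ 2 - 1)
    (hlog : ∀ c : Fˣ, ∃ i : ℕ, ζ ^ i = c) :
    ∃ R : Finset (FreeGroup ((((Empty ⊕ Unit) ⊕ Unit) ⊕ Unit) ⊕ Unit)), R.card ≤ 10 ∧
      Nonempty (PresentedGroup (↑R : Set (FreeGroup ((((Empty ⊕ Unit) ⊕ Unit) ⊕ Unit) ⊕ Unit))) ≃*
        ↥(Bor : Subgroup (Mdl F q))) := by
  classical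
  have hq2 := H3.two_le_q hq.out
  have hsub : Subsingleton (PresentedGroup (↑(∅ : Finset (FreeGroup Empty)) : Set (FreeGroup Empty))) := by
    refine ⟨fun x y => ?_⟩
    have : ∀ z : PresentedGroup (↑(∅ : Finset (FreeGroup Empty)) : Set (FreeGroup Empty)), z = 1 := fun z => by
      have hz : z ∈ Subgroup.closure (Set.range PresentedGroup.of) := by
        rw [PresentedGroup.closure_range_of]; trivial
      rwa [Set.range_eq_empty, Subgroup.closure_empty, Subgroup.mem_bot] at hz
    rw [this x, this y]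
  let e0 : PresentedGroup (↑(∅ : Finset (FreeGroup Empty)) : Set (FreeGroup Empty)) ≃*
      ↥(⊥ : Subgroup (Mdl F q)) :=
    { toFun := fun _ => 1
      invFun := fun _ => 1
      left_inv := fun x => Subsingleton.elim _ _
      right_inv := fun x => Subsingleton.elim _ _
      map_mul' := fun _ _ => (mul_one 1).symm }
  -- the centre of the unipotent group
  obtain ⟨δ, hδ0, hδ⟩ := H3.exists_trace_zero_ne_zero hq.out
  have hδT : Tz q 0 δ := by unfold Tz; rw [zero_mul, add_zero]; exact hδ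
  have hδq : δ ^ q = -δ := by linear_combination hδ
  obtain ⟨R1, h1, ⟨e1⟩⟩ := Ext.cyclic_ext ∅ ⊥ (UA (q := q) (⊥ : AddSubgroup F)) e0 bot_le (uM 0 δ hδT)
    ⟨0, zero_mem _, δ, hδT, rfl⟩ q (by omega)
    (by
      obtain ⟨h, e⟩ := uM_zero_pow δ hδT q
      rw [Subgroup.mem_bot, e, ← uM_zero]
      exact uM_eq rfl (by simp [CharP.cast_eq_zero]))
    (fun j hj hm => by
      obtain ⟨h, e⟩ := uM_zero_pow δ hδT j
      rw [Subgroup.mem_bot, e, ← uM_zero] at hm
      have := (uM_inj hm).2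
      rw [mul_eq_zero, or_iff_left hδ0] at this
      exact Nat.eq_zero_of_dvd_of_lt ((CharP.cast_eq_zero_iff F q j).1 this) hj)
    (fun n hn => by rw [Subgroup.mem_bot] at hn ⊢; subst hn; simp)
    (fun g hg => by
      obtain ⟨a, ha, b, hb, rfl⟩ := hg
      obtain rfl : a = 0 := ha
      obtain ⟨j, hj, hjb⟩ := fix_cast (fix_div hδq hb)
      obtain ⟨h, e⟩ := uM_zero_pow δ hδT j
      refine ⟨j, hj, ?_⟩
      rw [Subgroup.mem_bot, mul_inv_eq_one, e]
      exact uM_eq rfl (by rw [← hjb, div_mul_cancel₀ _ hδ0]))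
  -- the layers of the quotient
  let Fx : AddSubgroup F := (Fix F q).toAddSubgroup
  obtain ⟨R2, h2, ⟨e2⟩⟩ := step_U R1 (A' := Fx) e1 bot_le 1 (one_mem (Fix F q))
    (fun j hj hm => by
      rw [AddSubgroup.mem_bot, nsmul_one] at hm
      exact Nat.eq_zero_of_dvd_of_lt ((CharP.cast_eq_zero_iff F q j).1 hm) hj)
    (fun a ha => by
      obtain ⟨j, hj, rfl⟩ := fix_cast (q := q) (mem_fix.1 ha)
      exact ⟨j, hj, by simp⟩)
  have hζF : (ζ : F) ^ q ≠ (ζ : F) := fun h => by
    have h' : (ζ : Fˣ) ^ (q - 1) = 1 := by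
      refine Units.ext (mul_right_cancel₀ ζ.ne_zero ?_)
      rw [Units.val_pow_eq_pow_val, ← pow_succ, Nat.sub_add_cancel (by omega), h, Units.val_one, one_mul]
    have := orderOf_le_of_pow_eq_one (by omega) h'
    rw [hζ] at this
    have : q * 2 ≤ q ^ 2 := by rw [pow_two]; exact Nat.mul_le_mul_left q hq2
    omega
  have hindep : ∀ j, j < q → j • (ζ : F) ∈ Fx → j = 0 := fun j hj hm => by
    by_contra hne
    have hj0 : (j : F) ≠ 0 := fun h => hne (Nat.eq_zero_of_dvd_of_lt ((CharP.cast_eq_zero_iff F q j).1 h) hj)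
    have : (j • (ζ : F)) ^ q = j • (ζ : F) := mem_fix.1 hm
    rw [nsmul_eq_mul, mul_pow, show (j : F) ^ q = j from map_natCast (H3.conjQ hq.out) j] at this
    exact hζF (mul_left_cancel₀ hj0 this)
  have hspan : ∀ a : F, ∃ j < q, a - j • (ζ : F) ∈ Fx := by
    let φ : Fix F q × Fin q → F := fun x => x.1 + (x.2 : ℕ) • (ζ : F)
    have hinj : Function.Injective φ := by
      rintro ⟨x, i⟩ ⟨y, j⟩ h
      have hij : i = j := by
        rcases le_total (i : ℕ) j with hle | hle
        · refine Fin.ext (le_antisymm hle (Nat.sub_eq_zero_iff_le.1 (hindep _ (by omega) ?_)))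
          have : ((j : ℕ) - i) • (ζ : F) = x - y := by
            rw [sub_nsmul _ hle]; simp only [φ] at h; linear_combination h.symm
          exact this ▸ sub_mem x.2 y.2
        · refine Fin.ext (le_antisymm (Nat.sub_eq_zero_iff_le.1 (hindep _ (by omega) ?_)) hle)
          have : ((i : ℕ) - j) • (ζ : F) = y - x := by
            rw [sub_nsmul _ hle]; simp only [φ] at h; linear_combination h
          exact this ▸ sub_mem y.2 x.2
      subst hij
      simp only [φ, add_left_inj] at h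
      rw [Subtype.ext h]
    haveI : Fintype (Fix F q) := Fintype.ofFinite _
    have hbij : Function.Bijective φ := (Fintype.bijective_iff_injective_and_card φ).2 ⟨hinj, by
      rw [Fintype.card_prod, Fintype.card_fin, ← Nat.card_eq_fintype_card, card_fix, hq.out, pow_two]⟩
    intro a
    obtain ⟨⟨x, j⟩, rfl⟩ := hbij.2 a
    exact ⟨j, j.2, by simp only [φ, add_sub_cancel_right]; exact x.2⟩
  obtain ⟨R3, h3, ⟨e3⟩⟩ := step_U R2 (A' := ⊤) e2 le_top (ζ : F) trivial hindep fun a _ => hspan a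
  -- the torus
  have hpos : 0 < q ^ 2 - 1 := by
    have : q * 2 ≤ q ^ 2 := by rw [pow_two]; exact Nat.mul_le_mul_left q hq2
    omega
  obtain ⟨R4, h4, e4⟩ := Ext.cyclic_ext R3 (UA (q := q) ⊤) Bor e3
    (fun g ⟨a, _, hu⟩ => ⟨a, g, 1, hu, by simp⟩) (hM ζ) (hM_mem ζ) (q ^ 2 - 1) hpos
    (by rw [← map_pow, ← hζ, pow_orderOf_eq_one, map_one]; exact one_mem _)
    (fun j hj ⟨a, _, b, hb, e⟩ => by
      have e' : uM (0 : F) 0 Tz.zero * hM (ζ ^ j) = uM a b hb * hM 1 := by
        rw [uM_zero, one_mul, map_one, mul_one, map_pow, e]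
      by_contra hne
      have h0 := (borel_unique e').2.2
      have := orderOf_le_of_pow_eq_one (by omega) h0
      omega)
    (fun n ⟨a, _, hu⟩ => ⟨_, trivial, conjH hu ζ⟩)
    (fun g ⟨a, u, c, hu, e⟩ => by
      obtain ⟨i, hi⟩ := hlog c
      refine ⟨i % (q ^ 2 - 1), Nat.mod_lt _ hpos, a, trivial, ?_⟩
      rw [e, ← map_pow, ← hζ, pow_mod_orderOf, hi, mul_inv_cancel_right]
      exact hu)
  refine ⟨R4, h4.trans ?_, e4⟩
  simp only [Fintype.card_sum, Fintype.card_empty, Fintype.card_unit, Finset.card_empty] at h1 h2 h3 ⊢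
  omega

/-- A presentation of the model from seeds. -/
theorem mdl_of_seeds [Fact q.Prime] [CharP F q] (k : ℕ) (sb : F → List F) (hlen : ∀ r, (sb r).length ≤ k)
    (hsb : ∀ r, ∀ b ∈ sb r, Tz q r b)
    (hall : ∀ r b, r ≠ 0 → Tz q r b → b ∈ sb r ∨ (-r = r ∧ b ^ q ∈ sb r)) :
    ∃ R : Finset (FreeGroup Gens), R.card ≤ 13 + 3 * k ∧
      Nonempty (PresentedGroup (↑R : Set (FreeGroup Gens)) ≃* Mdl F q) := by
  classical
  obtain ⟨ζ, hζg⟩ := IsCyclic.exists_generator (α := Fˣ)
  have hζ : orderOf ζ = q ^ 2 - 1 := by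
    rw [orderOf_eq_card_of_forall_mem_zpowers hζg, Nat.card_units, Nat.card_eq_fintype_card, hq.out]
  have hlog : ∀ c : Fˣ, ∃ i : ℕ, ζ ^ i = c := fun c => mem_powers_iff_mem_zpowers.2 (hζg c)
  obtain ⟨R, hR, ⟨eB⟩⟩ := borel_pres ζ hζ hlog
  obtain ⟨δ, hδ0, hδ⟩ := H3.exists_trace_zero_ne_zero hq.out
  have hδT : Tz q 0 δ := by unfold Tz; rw [zero_mul, add_zero]; exact hδ
  have hδq : δ ^ q = -δ := by linear_combination hδ
  let mk : F → F → Mdl F q := fun a b => if h : Tz q a b then uM a b h else 1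
  let reps : List F := [1, (ζ : F), (ζ : F) ^ 2]
  let L : List (Mdl F q) := uM 0 δ hδT :: reps.flatMap fun r => (sb r).map (mk r)
  have hmkmem : ∀ r ∈ reps, ∀ b ∈ sb r, mk r b ∈ L := fun r hr b hb => by
    simp only [L, List.mem_cons, List.mem_flatMap, List.mem_map]
    exact Or.inr ⟨r, hr, b, hb, rfl⟩
  have hzp : ∀ c : Fˣ, hM c ∈ Subgroup.zpowers (hM ζ : Mdl F q) := fun c => by
    obtain ⟨i, rfl⟩ := hlog c
    rw [map_pow]; exact Subgroup.npow_mem_zpowers _ _
  obtain ⟨R', hR', e⟩ := Ext.rank_one R (Bor : Subgroup (Mdl F q)) eB wM wM_sq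
    (fun ⟨a, u, c, ⟨b, hb, hu⟩, e⟩ => by
      subst hu
      have := congrArg (fun g => mx g 2 0) e
      simp [Matrix.mul_apply, Fin.sum_univ_three] at this)
    (hM ζ) (hM_mem ζ) (by rw [wM_hM, mul_assoc, wM_sq, mul_one]; exact hM_mem _) L
    (fun r hr => by
      have key : ∀ a b (h : Tz q a b), b ≠ 0 → uM a b h ∈ (Bor : Subgroup (Mdl F q)) ∧
          ∃ y ∈ (Bor : Subgroup (Mdl F q)), ∃ z ∈ (Bor : Subgroup (Mdl F q)),
            wM * uM a b h * wM = y * wM * z := fun a b h hb =>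
        ⟨uM_mem a b h, _, mul_mem (uM_mem _ _ _) (hM_mem _), _, uM_mem _ _ _, cell_id a b h hb⟩
      simp only [L, List.mem_cons, List.mem_flatMap, List.mem_map] at hr
      rcases hr with rfl | ⟨a, ha, b, hb, rfl⟩
      · exact key _ _ _ hδ0
      · simp only [mk, dif_pos (hsb a b hb)]
        refine key _ _ _ ((hsb a b hb).b_ne fun h => ?_)
        simp only [reps, List.mem_cons, List.not_mem_nil, or_false] at ha
        rcases ha with rfl | rfl | rfl <;> simp at h)
    (fun g ⟨a, u, c, ⟨b, hb, hu⟩, e⟩ => by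
      subst hu e
      rcases eq_or_ne a 0 with rfl | ha
      · rcases eq_or_ne b 0 with rfl | hb0
        · left; rw [uM_zero, one_mul]; exact hzp c
        · right
          obtain ⟨s, hs⟩ := H3.exists_norm_eq hq.out (μ := b / δ) (fix_div hδq hb)
          have hs0 : s ≠ 0 := by
            rintro rfl
            rw [zero_pow (by omega)] at hs
            exact div_ne_zero hb0 hδ0 hs.symm
          refine ⟨_, List.mem_cons_self .., _, hzp (Units.mk0 s hs0), _,
            mul_mem (inv_mem (hzp (Units.mk0 s hs0))) (hzp c), Or.inl ?_⟩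
          rw [← mul_assoc, hM_uM]
          congr 1
          refine uM_eq (mul_zero _).symm ?_
          rw [nm, Units.val_mk0, ← pow_succ', hs, div_mul_cancel₀ _ hδ0]
      · right
        obtain ⟨i, hi⟩ := hlog (Units.mk0 a ha)
        have hz : ((ζ : F) ^ (i / 3)) ≠ 0 := pow_ne_zero _ ζ.ne_zero
        set C : Fˣ := Units.mk0 _ (mul_ne_zero (mul_ne_zero hz (pow_ne_zero q hz)) (pow_ne_zero q hz)) with hC
        set r : F := (ζ : F) ^ (i % 3) with hr'
        have hai : a = mu q (C : F) * r := by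
          rw [hC, Units.val_mk0, cube_mu hz, hr', ← pow_mul, ← pow_add, Nat.div_add_mod',
            ← Units.val_pow_eq_pow_val, hi, Units.val_mk0]
        have hr : r ∈ reps := by
          rw [hr']
          have := Nat.mod_lt i (show 3 > 0 by omega)
          interval_cases h : i % 3 <;> simp [reps]
        have hC1 : mu q ((C⁻¹ : Fˣ) : F) * mu q (C : F) = 1 := by
          rw [← mu_mul, ← Units.val_mul, inv_mul_cancel, Units.val_one, mu_one]
        have hC2 : nm q (C : F) * nm q ((C⁻¹ : Fˣ) : F) = 1 := by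
          rw [← nm_mul, ← Units.val_mul, mul_inv_cancel, Units.val_one, nm_one]
        set b0 : F := nm q ((C⁻¹ : Fˣ) : F) * b with hb0
        have hT : Tz q r b0 := by
          have := hb.conj (q := q) (C⁻¹).ne_zero
          rwa [show mu q ((C⁻¹ : Fˣ) : F) * a = r by rw [hai, ← mul_assoc, hC1, one_mul]] at this
        have hu : uM a b hb = hM C * uM r b0 hT * (hM C)⁻¹ := by
          rw [hM_uM]
          exact uM_eq hai (by rw [hb0, ← mul_assoc, hC2, one_mul])
        rcases hall r b0 (pow_ne_zero _ ζ.ne_zero) hT with hm | ⟨hneg, hm⟩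
        · refine ⟨_, hmkmem r hr b0 hm, _, hzp C, _, mul_mem (inv_mem (hzp C)) (hzp c), Or.inl ?_⟩
          simp only [mk, dif_pos hT]
          rw [hu]; group
        · have hT' : Tz q r (b0 ^ q) := hneg ▸ hT.neg
          refine ⟨_, hmkmem r hr _ hm, _, hzp C, _, mul_mem (inv_mem (hzp C)) (hzp c), Or.inr ?_⟩
          simp only [mk, dif_pos hT']
          rw [hu, uM_inv, uM_eq (h' := hT) hneg (pq_pq b0)]
          group)
    (by
      rw [eq_top_iff]
      intro g _
      rcases decompose g with ⟨a, b, h, c, rfl⟩ | ⟨a, b, h, x, y, hx, c, rfl⟩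
      · exact Subgroup.subset_closure (Or.inl (mul_mem (uM_mem a b h) (hM_mem c)))
      · exact mul_mem (mul_mem (Subgroup.subset_closure (Or.inl (uM_mem a b h)))
          (Subgroup.subset_closure (Or.inr rfl)))
          (Subgroup.subset_closure (Or.inl (mul_mem (uM_mem _ _ hx) (hM_mem c)))))
  refine ⟨R', hR'.trans ?_, e⟩
  have hl : L.length ≤ 1 + 3 * k := by
    have l1 := hlen 1
    have l2 := hlen (ζ : F)
    have l3 := hlen ((ζ : F) ^ 2)
    simp only [L, reps, List.flatMap_cons, List.flatMap_nil, List.length_cons, List.length_append, List.length_map,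
      List.length_nil]
    omega
  omega

/-- A presentation of the model for prime `q`. -/
theorem mdl_prime (hp : q.Prime) :
    ∃ R : Finset (FreeGroup Gens), R.card ≤ 13 + 3 * q ∧ (q = 2 → R.card ≤ 16) ∧
      Nonempty (PresentedGroup (↑R : Set (FreeGroup Gens)) ≃* Mdl F q) := by
  classical
  haveI := Fact.mk hp
  obtain ⟨p, f, hpp, hc, hf, hqf⟩ := H3.exists_q_eq_pow hq.out
  haveI : CharP F q := by
    have : p = q := (Nat.prime_dvd_prime_iff_eq hpp hp).1 (hqf ▸ dvd_pow_self p (by omega))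
    exact this ▸ hc
  by_cases h2 : q = 2
  · subst h2
    have hneg : ∀ x : F, -x = x := fun x => CharTwo.neg_eq x
    choose bf hbf using tz_exists (F := F) (q := 2)
    obtain ⟨R, hR, e⟩ := mdl_of_seeds (F := F) (q := 2) 1 (fun r => [bf r]) (fun _ => le_rfl)
      (fun r b hb => by rw [List.mem_singleton] at hb; exact hb ▸ hbf r)
      (fun r b hr0 hb => by
        simp only [List.mem_singleton]
        by_cases h : b = bf r
        · exact Or.inl h
        · refine Or.inr ⟨hneg r, ?_⟩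
          have hb' := hb
          have hr := hbf r
          unfold Tz at hb' hr
          have h1 : (b - bf r) * (b + bf r + 1) = 0 := by linear_combination hb' - hr
          have h3 := (mul_eq_zero.1 h1).resolve_left (sub_ne_zero.2 h)
          have hn : r * r ^ 2 = 1 := by
            have := pow_card_sub (F := F) (q := 2) hr0
            linear_combination this
          linear_combination hb' - h3 - hn)
    exact ⟨R, by omega, fun _ => by omega, e⟩
  · have hroots : ∀ r : F, ((Finset.univ.filter fun b : F => Tz q r b).toList).length ≤ q := fun r => by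
      rw [Finset.length_toList]
      let P : F[X] := X ^ q + (X + C (r * r ^ q))
      have hdeg : P.natDegree = q := by
        show (X ^ q + (X + C (r * r ^ q))).natDegree = q
        rw [natDegree_add_eq_left_of_natDegree_lt (by rw [natDegree_X_pow, natDegree_X_add_C]; exact hp.one_lt),
          natDegree_X_pow]
      have hP0 : P ≠ 0 := fun h => by rw [h, natDegree_zero] at hdeg; exact hp.pos.ne hdeg
      refine le_trans (Finset.card_le_card (t := P.roots.toFinset) fun b hb => ?_)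
        ((Multiset.toFinset_card_le _).trans (hdeg ▸ P.card_roots'))
      rw [Finset.mem_filter] at hb
      rw [Multiset.mem_toFinset, mem_roots hP0, IsRoot.def]
      have := hb.2
      unfold Tz at this
      simp only [P, eval_add, eval_pow, eval_X, eval_C]
      linear_combination this
    obtain ⟨R, hR, e⟩ := mdl_of_seeds (F := F) q (fun r => (Finset.univ.filter fun b : F => Tz q r b).toList)
      hroots (fun r b hb => by simpa using hb) (fun r b _ hb => Or.inl (by simpa using hb))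
    exact ⟨R, hR, fun h => absurd h h2, e⟩

end Cfsg.Agent.H81.SUPres.SmallK
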