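import Cfsg.Agent.H81.SUPres.Assemble
import Cfsg.Agent.H81.SUPres.Bridge
import Cfsg.Agent.H81.SUPres.SmallK
import Cfsg.Agent.H81.SU3Pres.Main
import Cfsg.Agent.H81.SLnPres.SL3ShortAssemble
import Cfsg.Agent.H81.SLnPres.Cases
import Cfsg.Agent.H98.TwoGen.Main
import Cfsg.Agent.S2286
import Cfsg.Agent.S0281

/-!
# Presentations of `SU_n(q)` with few relations
-/

set_option autoImplicit false
set_option linter.unusedSectionVars false

namespace Cfsg.Agent.H81.SUPres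

open Matrix Cfsg Cfsg.Agent.H58.PSUFusion
open scoped MatrixGroups

variable {F : Type*} [Field F] [Fintype F] {q : ℕ} (hF : Fintype.card F = q ^ 2)

/-- A group has a presentation on `κ` with at most `N` relations. -/
def HasPres (κ : Type) (N : ℕ) (G : Type*) [Group G] : Prop :=
  ∃ R : Finset (FreeGroup κ), R.card ≤ N ∧ Nonempty (PresentedGroup (↑R : Set (FreeGroup κ)) ≃* G)

include hF

open Cfsg.Agent.H98.TG in
theorem su_two_gen {n : ℕ} (hn : 3 ≤ n) (h32 : n = 3 → q ≠ 2) :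
    ∃ a b : Cfsg.SU n F q, Subgroup.closure (Set.range ![a, b]) = ⊤ := by
  obtain ⟨A, hA, B, hB, hle⟩ := exists_pair hF hn h32
  let φ : SU n F q →* GL (Fin n) F := Matrix.SpecialLinearGroup.toGL.comp (SU n F q).subtype
  have hlift : ∀ g ∈ SUn n F q, ∃ x : SU n F q, φ x = g := by
    rintro g ⟨hg, hdet⟩
    have hd : (g : Matrix (Fin n) (Fin n) F).det = 1 := congrArg Units.val (MonoidHom.mem_ker.mp hdet)
    exact ⟨⟨⟨(g : Matrix (Fin n) (Fin n) F), hd⟩, hg⟩, Units.ext rfl⟩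
  have hinj : Function.Injective φ := fun x y h =>
    Subtype.ext (Subtype.ext (congrArg Units.val h))
  obtain ⟨a, rfl⟩ := hlift A hA
  obtain ⟨b, rfl⟩ := hlift B hB
  refine ⟨a, b, ?_⟩
  rw [Matrix.range_cons_cons_empty]
  refine (Subgroup.eq_top_iff' _).mpr fun x => ?_
  have hx : φ x ∈ SUn n F q := ⟨x.2, MonoidHom.mem_ker.mpr (Units.ext x.1.2)⟩
  have h := hle hx
  rw [← Set.image_pair, ← MonoidHom.map_closure] at h
  obtain ⟨y, hy, hxy⟩ := h
  exact hinj hxy ▸ hy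

theorem prime_sub {p : ℕ} (hp : p = 2 ∨ p = 3 ∨ p = 5) : p.Prime := by
  rcases hp with rfl | rfl | rfl <;> norm_num

/-- A presentation of `SU₃(q)` for `q = 3, 5`. -/
theorem su3_small (hq : q = 3 ∨ q = 5) : HasPres (Fin 2) 30 (Cfsg.SU 3 F q) := by
  haveI : Fact (Fintype.card F = q ^ 2) := ⟨hF⟩
  obtain ⟨R, hR, -, ⟨e⟩⟩ := SmallK.mdl_prime (F := F) (q := q) (prime_sub hF (by omega))
  obtain ⟨i⟩ := SU3Pres.nonempty_equiv (F := F) (q := q)
  obtain ⟨a, b, hab⟩ := su_two_gen hF (n := 3) le_rfl (fun _ => by omega)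
  obtain ⟨R', hR', e'⟩ := SLnPres.pres_two_gen R (e.trans i) _ hab
  exact ⟨R', by omega, e'⟩

/-- The rank one group has a small presentation. -/
theorem rank_one_small {e : ℕ} (he : e ≤ 1) :
    ∃ (κ : Type) (_ : Fintype κ) (N : ℕ), N + 5 * Fintype.card κ ≤ 42 ∧
      HasPres κ N ↥(SUh (invOfCard hF) 1 e) := by
  classical
  have hq2 := H3.two_le_q hF
  haveI : Fact (Fintype.card F = q ^ 2) := ⟨hF⟩
  rcases Nat.le_one_iff_eq_zero_or_eq_one.1 he with rfl | rfl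
  · let eqv : Ix 1 0 ≃ Fin 2 := Fintype.equivFinOfCardEq (by simp)
    obtain ⟨i⟩ := suh_equiv hF eqv
    haveI : Fintype (SU3Pres.Fix F q) := Fintype.ofFinite _
    obtain ⟨j⟩ := Cfsg.Agent.S0281.result (F := F) (K := SU3Pres.Fix F q) hF
      (by rw [← Nat.card_eq_fintype_card, SU3Pres.card_fix])
    obtain ⟨⟨R, hR, ⟨e⟩⟩, -, -⟩ := Cfsg.Agent.S2286.result (F := SU3Pres.Fix F q)
    exact ⟨Fin 3, inferInstance, 9, by simp, R, hR, ⟨e.trans (j.symm.trans i.symm)⟩⟩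
  · let eqv : Ix 1 1 ≃ Fin 3 := Fintype.equivFinOfCardEq (by simp)
    obtain ⟨i⟩ := suh_equiv hF eqv
    obtain ⟨m⟩ := SU3Pres.nonempty_equiv (F := F) (q := q)
    by_cases h5 : q = 3 ∨ q = 5
    · obtain ⟨R, hR, ⟨e⟩⟩ := su3_small hF h5
      exact ⟨Fin 2, inferInstance, 30, by simp, R, hR, ⟨e.trans i.symm⟩⟩
    by_cases h2 : q = 2
    · obtain ⟨R, -, hR, ⟨e⟩⟩ := SmallK.mdl_prime (F := F) (q := q) (prime_sub hF (Or.inl h2))
      exact ⟨SmallK.Gens, inferInstance, 16, by simp, R, hR h2, ⟨e.trans (m.trans i.symm)⟩⟩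
    · obtain ⟨R, hR, ⟨e⟩⟩ := SU3Pres.mdl_pres (F := F) (q := q) (by omega) (by omega)
      exact ⟨Fin 3, inferInstance, 22, by simp, R, hR, ⟨e.trans (m.trans i.symm)⟩⟩

/-- `SL_{M+2}` has a presentation with at most 23 relations. -/
theorem sl_small (M : ℕ) : ∃ (κ : Type) (_ : Fintype κ), HasPres κ 23 (SL(M + 2, F)) := by
  classical
  match M with
  | 0 =>
    obtain ⟨⟨R, hR, e⟩, -, -⟩ := Cfsg.Agent.S2286.result (F := F)
    exact ⟨Fin 3, inferInstance, R, by omega, e⟩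
  | 1 =>
    obtain ⟨R, hR, e⟩ := SLnPres.sl3_short F
    exact ⟨Fin 3 ⊕ Unit, inferInstance, R, by omega, e⟩
  | 2 =>
    obtain ⟨R, hR, e⟩ := SLnPres.case_zero (F := F)
    exact ⟨Fin 2 ⊕ Fin 2, inferInstance, R, by omega, e⟩
  | m + 3 =>
    obtain ⟨R, hR, e⟩ := SLnPres.case_pos (F := F) (m + 1) (by omega)
    exact ⟨Fin 3 ⊕ Fin 2, inferInstance, R, hR, e⟩

/-- `PSU_n(q)` has a presentation with two generators and at most 80 relations. -/
theorem psu_pres (hq : IsPrimePow q) {n : ℕ} (hn : 3 ≤ n) (h32 : n = 3 → q ≠ 2) :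
    HasPres (Fin 2) 80 (Cfsg.PSU n F q) := by
  classical
  obtain ⟨a, b, hab⟩ := su_two_gen hF hn h32
  let π : Cfsg.SU n F q →* Cfsg.PSU n F q := QuotientGroup.mk' _
  have hgen : Subgroup.closure (Set.range ![π a, π b]) = ⊤ := by
    rw [show Set.range ![π a, π b] = π '' Set.range ![a, b] by
      rw [Matrix.range_cons_cons_empty, Matrix.range_cons_cons_empty, Set.image_pair], ← MonoidHom.map_closure,
      hab]
    exact Subgroup.map_top_of_surjective _ (QuotientGroup.mk'_surjective _)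
  obtain ⟨κ, _, N, hN, R, hR, ⟨e⟩⟩ : ∃ (κ : Type) (_ : Fintype κ) (N : ℕ), N ≤ 77 ∧
      HasPres κ N ↥(Cfsg.SU n F q) := by
    rcases eq_or_lt_of_le hn with h | h
    · subst h
      by_cases h5 : q = 3 ∨ q = 5
      · exact ⟨Fin 2, inferInstance, 30, by omega, su3_small hF h5⟩
      · obtain ⟨⟨R, hR, e⟩, -⟩ := SU3Pres.su3_both hF (h32 rfl) (fun h => h5 (Or.inl h)) (fun h => h5 (Or.inr h))
        exact ⟨Fin 3, inferInstance, 23, by omega, R, hR, e⟩
    · obtain ⟨M, hM⟩ : ∃ M, n / 2 = M + 2 := ⟨n / 2 - 2, by omega⟩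
      have he : n % 2 ≤ 1 := by omega
      let eqv : Ix (M + 2) (n % 2) ≃ Fin n :=
        ((Equiv.refl _).sumCongr finSumFinEquiv).trans (finSumFinEquiv.trans (finCongr (by omega)))
      obtain ⟨κ, _, R, hR, ⟨eS⟩⟩ := sl_small hF M
      obtain ⟨κ', _, N', hN', R2, hR2, ⟨eL⟩⟩ := rank_one_small hF he
      obtain ⟨xB, hxB⟩ : ∃ xB : Fin 2 → SL(M + 1, F), Subgroup.closure (Set.range xB) = ⊤ := by
        rcases M with _ | M
        · refine ⟨fun _ => 1, ?_⟩
          rw [eq_top_iff]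
          intro x _
          have hx : x = 1 := by
            apply Subtype.ext
            ext i j
            have := x.2
            have h0 : ∀ a : Fin (0 + 1), a = 0 := fun a => Fin.ext (by omega)
            rw [h0 i, h0 j]
            simpa [Matrix.det_fin_one] using this
          rw [hx]; exact one_mem _
        · obtain ⟨x, y, hxy⟩ := SLnPres.exists_two_gen (F := F) M
          exact ⟨![x, y], by rwa [Matrix.range_cons_cons_empty]⟩
      obtain ⟨R', hR', ⟨e'⟩⟩ := su_pres he R eS R2 eL xB hxB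
      obtain ⟨i⟩ := suh_equiv hF eqv
      exact ⟨κ ⊕ κ', inferInstance, 77, le_rfl, R', by omega, ⟨e'.trans i⟩⟩
  obtain ⟨R', hR', ⟨e'⟩⟩ := SLnPres.pres_quotient R e _ (center_su_cyclic hF (by omega))
  obtain ⟨R'', hR'', e''⟩ := SLnPres.pres_two_gen R' e' _ hgen
  exact ⟨R'', by omega, e''⟩

end Cfsg.Agent.H81.SUPres
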