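import Cfsg.Agent.H58.PSUFusion.Setup

/-!
# The rank one unitary group in hyperbolic coordinates
-/

set_option autoImplicit false
set_option linter.unusedSectionVars false
set_option maxHeartbeats 1000000

namespace Cfsg.Agent.H81.SUPres

open Matrix Cfsg.Agent.H58.PSUFusion

variable {F : Type*} [Field F] (I : Cfsg.Agent.H58.PSUFusion.Inv F) {e : ℕ}

theorem σ_ne {x : F} (h : x ≠ 0) : I.σ x ≠ 0 := (map_ne_zero I.σ).2 h

theorem σ_ξ : I.σ I.ξ = -I.ξ := by linear_combination I.ξ_trace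

/-- The field automorphism on units. -/
def sU : Fˣ →* Fˣ := Units.map I.σ.toMonoidHom

@[simp] theorem sU_val (c : Fˣ) : ((sU I c : Fˣ) : F) = I.σ (c : F) := rfl

/-- The admissible determinants. -/
def Dl (e : ℕ) : Subgroup Fˣ where
  carrier := {c | e = 0 → I.σ (c : F) = c}
  one_mem' := fun _ => by simp
  mul_mem' := fun {a b} ha hb he => by rw [Units.val_mul, map_mul, ha he, hb he]
  inv_mem' := fun {a} ha he => by rw [Units.val_inv_eq_inv_val, map_inv₀, ha he]

theorem mem_Dl {c : Fˣ} : c ∈ Dl I e ↔ (e = 0 → I.σ (c : F) = c) := Iff.rfl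

theorem neg_one_mem_Dl : (-1 : Fˣ) ∈ Dl I e := fun _ => by simp

/-- The multiplier of the middle coordinate. -/
def chi : Fˣ →* Fˣ where
  toFun c := c * (sU I c)⁻¹
  map_one' := by simp
  map_mul' a b := by rw [map_mul, mul_inv]; exact mul_mul_mul_comm _ _ _ _

theorem chi_val (c : Fˣ) : ((chi I c : Fˣ) : F) = (c : F) / I.σ (c : F) := by
  rw [div_eq_mul_inv]; simp [chi]

theorem σ_chi (c : Fˣ) : I.σ (chi I c : F) = ((chi I c : Fˣ) : F)⁻¹ := by
  rw [chi_val, map_div₀, I.invol, inv_div]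

theorem chi_of_fix {c : Fˣ} (h : I.σ (c : F) = c) : chi I c = 1 := by
  apply Units.ext
  rw [chi_val, h, div_self c.ne_zero, Units.val_one]

theorem chi_neg_one : chi I (-1 : Fˣ) = 1 := chi_of_fix I (by simp)

/-- The hermitian product of the middle parts. -/
def ip (a b : Fin e → F) : F := ∑ i, a i * I.σ (b i)

theorem ip_zero_left (b : Fin e → F) : ip I 0 b = 0 := by simp [ip]

theorem ip_zero_right (a : Fin e → F) : ip I a 0 = 0 := by simp [ip]

theorem ip_smul (c d : F) (a b : Fin e → F) : ip I (c • a) (d • b) = c * I.σ d * ip I a b := by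
  simp only [ip, Pi.smul_apply, smul_eq_mul, map_mul, Finset.mul_sum]
  exact Finset.sum_congr rfl fun _ _ => by ring

theorem ip_add (a b : Fin e → F) : ip I (a + b) (a + b) = ip I a a + ip I a b + ip I b a + ip I b b := by
  simp only [ip, Pi.add_apply, map_add, ← Finset.sum_add_distrib]
  exact Finset.sum_congr rfl fun _ _ => by ring

theorem σ_ip (a b : Fin e → F) : I.σ (ip I a b) = ip I b a := by
  simp only [ip, map_sum, map_mul, I.invol]
  exact Finset.sum_congr rfl fun _ _ => by ring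

/-- The condition on the parameters of a unipotent element. -/
def Rel (a : Fin e → F) (s : F) : Prop := s + I.σ s + ip I a a = 0

variable {I}

theorem Rel.zero : Rel I (0 : Fin e → F) 0 := by simp [Rel, ip_zero_left]

theorem rel_long {s : F} : Rel I (0 : Fin e → F) s ↔ s + I.σ s = 0 := by simp [Rel, ip_zero_left]

theorem rel_ξ : Rel I (0 : Fin e → F) I.ξ := rel_long.2 I.ξ_trace

theorem Rel.mul {a b : Fin e → F} {s t : F} (h : Rel I a s) (k : Rel I b t) :
    Rel I (a + b) (s + t - ip I a b) := by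
  unfold Rel at *
  rw [map_sub, map_add, σ_ip, ip_add]
  linear_combination h + k

theorem Rel.smul {a : Fin e → F} {s : F} (h : Rel I a s) (c : F) :
    Rel I (c • a) (c * I.σ c * s) := by
  unfold Rel at *
  rw [map_mul, map_mul, I.invol, ip_smul]
  linear_combination (c * I.σ c) * h

theorem Rel.unit {a : Fin e → F} {s : F} (h : Rel I a s) {c : F} (hc : c * I.σ c = 1) :
    Rel I (c • a) s := by
  have := h.smul c
  rwa [hc, one_mul] at this

theorem Rel.inv {a : Fin e → F} {s : F} (h : Rel I a s) : Rel I (-a) (I.σ s) := by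
  unfold Rel at *
  rw [I.invol, ← neg_one_smul F a, ip_smul, map_neg, map_one, neg_mul_neg, one_mul]
  linear_combination h

theorem Rel.s_ne (he : e ≤ 1) {a : Fin e → F} {s : F} (h : Rel I a s) (ha : a ≠ 0) : s ≠ 0 := by
  rintro rfl
  obtain ⟨i, hi⟩ := Function.ne_iff.1 ha
  unfold Rel at h
  rw [map_zero, add_zero, zero_add, ip, Finset.sum_eq_single i (fun j _ hj => absurd (Fin.ext (by omega)) hj)
    (by simp)] at h
  exact mul_ne_zero hi (σ_ne I hi) h

theorem exists_smul (he : e ≤ 1) {a : Fin e → F} (ha : a ≠ 0) (b : Fin e → F) : ∃ c : F, b = c • a := by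
  obtain ⟨i, hi⟩ := Function.ne_iff.1 ha
  exact ⟨b i / a i, funext fun j => by
    rw [show j = i from Fin.ext (by omega), Pi.smul_apply, smul_eq_mul, div_mul_cancel₀ _ hi]⟩

/-- A row. -/
def row (a : Fin e → F) : Matrix (Fin 1) (Fin e) F := Matrix.of fun _ j => a j

/-- A one by one matrix. -/
def sc (s : F) : Matrix (Fin 1) (Fin 1) F := Matrix.of fun _ _ => s

@[simp] theorem row_apply (a : Fin e → F) (i : Fin 1) (j : Fin e) : row a i j = a j := rfl

@[simp] theorem sc_apply (s : F) (i j : Fin 1) : sc s i j = s := rfl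

theorem sc_mul (s t : F) : sc s * sc t = sc (s * t) := by ext i j; simp [Matrix.mul_apply]

theorem sc_one : sc (1 : F) = 1 := by ext i j; simp [Matrix.one_apply, Subsingleton.elim i j]

theorem sc_zero : sc (0 : F) = 0 := by ext i j; simp

theorem dag_sc (s : F) : dag I (sc s) = sc (I.σ s) := by ext i j; simp [dag_apply]

theorem det_sc (s : F) : (sc s).det = s := by simp [Matrix.det_fin_one]

theorem row_rel {a : Fin e → F} {s : F} (h : Rel I a s) :
    sc s + dag I (sc s) + row a * dag I (row a) = 0 := by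
  ext i j
  simp [dag_apply, Matrix.mul_apply]
  exact h

variable [Finite F]

/-- The unipotent element. -/
def uz (a : Fin e → F) (s : F) (h : Rel I a s) : ↥(SUh I 1 e) := nE (row a) (sc s) (row_rel h)

theorem uz_congr {a a' : Fin e → F} {s s' : F} {h : Rel I a s} {h' : Rel I a' s'} (e1 : a = a')
    (e2 : s = s') : uz a s h = uz a' s' h' := by subst e1 e2; rfl

theorem uz_inj {a a' : Fin e → F} {s s' : F} {h : Rel I a s} {h' : Rel I a' s'}
    (e1 : uz a s h = uz a' s' h') : a = a' ∧ s = s' := by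
  obtain ⟨h1, h2⟩ := nE_inj e1
  exact ⟨funext fun j => congrFun (congrFun h1 0) j, congrFun (congrFun h2 0) 0⟩

theorem uz_mul {a b : Fin e → F} {s t : F} (h : Rel I a s) (k : Rel I b t) :
    uz a s h * uz b t k = uz (a + b) (s + t - ip I a b) (h.mul k) := by
  rw [uz, uz, nE_mul]
  refine nE_congr (by ext i j; simp) ?_
  ext i j
  simp [Matrix.mul_apply, dag_apply, ip]

theorem uz_zero : uz (I := I) (0 : Fin e → F) 0 Rel.zero = 1 := by
  rw [← nE_zero (I := I) (r := 1) (e := e)]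
  exact nE_congr (by ext i j; simp) (by ext i j; simp)

theorem mat_uz (a : Fin e → F) (s : F) (h : Rel I a s) :
    mat (uz a s h) = b3 1 (row a) (sc s) 0 1 (-dag I (row a)) 0 0 1 := rfl

/-- The reflection. -/
def wq : ↥(SUh I 1 e) :=
  mk (b3 0 0 (sc I.ξ) 0 1 0 (sc (-I.ξ⁻¹)) 0 0) (by
    have e1 : (b3 0 0 (sc I.ξ) 0 (1 : Matrix (Fin e) (Fin e) F) 0 (sc (-I.ξ⁻¹)) 0 0) =
        b3 1 0 (sc I.ξ) 0 1 0 0 0 1 * b3 1 0 0 0 1 0 (sc (-I.ξ⁻¹)) 0 1 *
          b3 1 0 (sc I.ξ) 0 1 0 0 0 1 := by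
      have h1 : sc I.ξ * sc (-I.ξ⁻¹) = (-1 : Matrix (Fin 1) (Fin 1) F) := by
        rw [sc_mul]; ext i j; simp [Subsingleton.elim i j, I.ξ_ne]
      have h2 : sc (-I.ξ⁻¹) * sc I.ξ = (-1 : Matrix (Fin 1) (Fin 1) F) := by
        rw [sc_mul]; ext i j; simp [Subsingleton.elim i j, I.ξ_ne]
      rw [b3_mul, b3_mul]
      simp [h1, h2, Matrix.add_mul, Matrix.mul_add]
    rw [e1, Matrix.det_mul, Matrix.det_mul, det_upper, det_lower]
    simp) (by
    rw [dag_b3, Φ, b3_mul, b3_mul]
    simp only [dag_zero, dag_one, dag_sc, Matrix.mul_zero, Matrix.zero_mul, add_zero, zero_add, Matrix.mul_one,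
      Matrix.one_mul, sc_mul]
    congr 1 <;>
    · ext i j
      simp [σ_ξ, I.ξ_ne, Matrix.one_apply, Subsingleton.elim i 0, Subsingleton.elim j 0])

theorem mat_wq : mat (wq : ↥(SUh I 1 e)) = b3 0 0 (sc I.ξ) 0 1 0 (sc (-I.ξ⁻¹)) 0 0 := rfl

variable (I) in
/-- The middle multiplier as a matrix. -/
def midM (e : ℕ) (d : Fˣ) : Matrix (Fin e) (Fin e) F := ((chi I d : F))⁻¹ • 1

theorem dag_midM (d : Fˣ) : dag I (midM I e d) = ((chi I d : F)) • 1 := by
  ext i j
  simp [dag_apply, midM, Matrix.one_apply, apply_ite I.σ, map_inv₀, σ_chi, eq_comm]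

theorem midM_unit (d : Fˣ) : dag I (midM I e d) * midM I e d = 1 := by
  rw [dag_midM, midM, Matrix.smul_mul, Matrix.one_mul, smul_smul, mul_inv_cancel₀ (Units.ne_zero _), one_smul]

theorem midM_mul (c d : Fˣ) : midM I e (c * d) = midM I e c * midM I e d := by
  simp [midM, map_mul, smul_smul, mul_comm]

theorem midM_one : midM I e 1 = 1 := by simp [midM]

theorem det_midM (he : e ≤ 1) {c : Fˣ} (hc : c ∈ Dl I e) :
    (c : F) * ((midM I e c).det * (I.σ (c : F))⁻¹) = 1 := by
  interval_cases e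
  · rw [Matrix.det_fin_zero, one_mul, hc rfl, mul_inv_cancel₀ c.ne_zero]
  · rw [midM, Matrix.det_fin_one]
    simp [chi_val]
    have := c.ne_zero
    have := σ_ne I this
    field_simp

/-- The torus element. -/
def t1 (he : e ≤ 1) : Dl I e →* ↥(SUh I 1 e) where
  toFun c := lev (sc ((c : Fˣ) : F)) (sc (I.σ ((c : Fˣ) : F))⁻¹) (midM I e c)
    (by rw [dag_sc, sc_mul, mul_inv_cancel₀ (σ_ne I (Units.ne_zero _)), sc_one]) (midM_unit _)
    (by rw [det_sc, det_sc]; exact det_midM he c.2)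
  map_one' := ext_mat (by simp [mat_lev, mat_one, sc_one, midM_one, b3_one])
  map_mul' c d := ext_mat (by
    rw [mat_mul, mat_lev, mat_lev, mat_lev, b3_mul]
    simp [sc_mul, midM_mul, mul_comm])

theorem mat_t1 (he : e ≤ 1) (c : Dl I e) : mat (t1 he c) =
    b3 (sc ((c : Fˣ) : F)) 0 0 0 (midM I e c) 0 0 0 (sc (I.σ ((c : Fˣ) : F))⁻¹) := rfl

theorem t1_uz (he : e ≤ 1) (c : Dl I e) {a : Fin e → F} {s : F} (h : Rel I a s) :
    t1 he c * uz a s h * (t1 he c)⁻¹ =
      uz ((((c : Fˣ) : F) * chi I c) • a) (((c : Fˣ) : F) * I.σ ((c : Fˣ) : F) * s)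
        (by
          have := (h.unit (c := (chi I c : F)) (by rw [σ_chi, mul_inv_cancel₀ (Units.ne_zero _)])).smul
            ((c : Fˣ) : F)
          rwa [smul_smul] at this) := by
  rw [uz, t1, MonoidHom.coe_mk, OneHom.coe_mk, lev_mul_nE]
  refine nE_congr ?_ ?_
  · rw [dag_midM]
    ext i j
    simp [Matrix.mul_apply, Matrix.one_apply]
    ring
  · rw [dag_sc]
    ext i j
    simp [Matrix.mul_apply]
    ring

theorem wq_t1 (he : e ≤ 1) (c : Dl I e) :
    wq * t1 he c = t1 he ⟨(sU I c)⁻¹, inv_mem (show sU I c ∈ Dl I e from fun h => by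
      rw [sU_val, c.2 h, c.2 h])⟩ * wq := by
  apply ext_mat
  have hchi : midM I e (sU I (c : Fˣ))⁻¹ = midM I e c := by
    unfold midM
    congr 3
    rw [map_inv]
    apply Units.ext
    simp [chi_val, I.invol, inv_div]
  rw [mat_mul, mat_mul, mat_wq, mat_t1, mat_t1, b3_mul, b3_mul, hchi]
  simp [sc_mul, I.invol, mul_comm]

theorem wq_sq (he : e ≤ 1) : (wq : ↥(SUh I 1 e)) * wq = t1 he ⟨-1, neg_one_mem_Dl I⟩ := by
  apply ext_mat
  rw [mat_mul, mat_wq, mat_t1, b3_mul]
  simp [sc_mul, I.ξ_ne, midM, chi_neg_one]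

/-- The rank one identity. -/
theorem cell (he : e ≤ 1) {a : Fin e → F} {s : F} (hR : Rel I a s) (hs : s ≠ 0) :
    ∃ (c : Dl I e) (h1 : Rel I ((I.ξ / I.σ s) • a) (-(I.ξ ^ 2) / s))
      (h2 : Rel I ((-I.ξ / s) • a) (-(I.ξ ^ 2) / s)),
      wq * uz a s hR * wq = uz _ _ h1 * t1 he c * wq * uz _ _ h2 := by
  have hσ := σ_ne I hs
  have hξ := I.ξ_ne
  have h : s + I.σ s + ip I a a = 0 := hR
  have hc : Units.mk0 (I.ξ / I.σ s) (div_ne_zero hξ hσ) ∈ Dl I e := by
    intro h0
    subst h0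
    simp only [ip, Finset.univ_eq_empty, Finset.sum_empty, add_zero] at h
    rw [Units.val_mk0, map_div₀, I.invol, σ_ξ, div_eq_div_iff hs hσ]
    linear_combination (-I.ξ) * h
  have h1 : Rel I ((I.ξ / I.σ s) • a) (-(I.ξ ^ 2) / s) := by
    unfold Rel
    rw [ip_smul, map_div₀, map_div₀, map_neg, map_pow, I.invol, σ_ξ]
    field_simp
    linear_combination (-(I.ξ ^ 2)) * h
  have h2 : Rel I ((-I.ξ / s) • a) (-(I.ξ ^ 2) / s) := by
    unfold Rel
    rw [ip_smul, map_div₀, map_div₀, map_neg, map_neg, map_pow, σ_ξ]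
    field_simp
    linear_combination (-(I.ξ ^ 2)) * h
  refine ⟨⟨_, hc⟩, h1, h2, ?_⟩
  apply ext_mat
  rw [mat_mul, mat_mul, mat_mul, mat_mul, mat_mul, mat_wq]
  simp only [mat_uz, mat_t1]
  simp only [b3_mul]
  simp only [ip] at h
  interval_cases e
  · simp only [Finset.univ_eq_empty, Finset.sum_empty, add_zero] at h
    ext (i | i | i) (j | j | j) <;>
      first
        | exact i.elim0
        | exact j.elim0
        | (simp [b3, Matrix.mul_apply, Subsingleton.elim i 0, Subsingleton.elim j 0, map_div₀, I.invol, σ_ξ, hξ]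
           try field_simp
           try simp [I.invol, σ_ξ, hξ]
           try first | ring1 | linear_combination h | linear_combination -h)
  · simp only [Fin.sum_univ_one] at h
    ext (i | i | i) (j | j | j) <;>
      · simp [b3, Matrix.mul_apply, midM, dag_apply, Subsingleton.elim i 0, Subsingleton.elim j 0,
          Matrix.one_apply, chi_val, map_div₀, I.invol, σ_ξ, hξ]
        try field_simp
        try simp [hξ]
        try first | ring1 | linear_combination h | linear_combination -h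

variable (I) in
/-- The diagonal similitude. -/
def dD (e : ℕ) (l d : Fˣ) : Matrix (Ix 1 e) (Ix 1 e) F :=
  b3 (sc (l : F)) 0 0 0 (midM I e d) 0 0 0 (sc (I.σ (l : F))⁻¹)

theorem dD_mul (l d l' d' : Fˣ) : dD I e l d * dD I e l' d' = dD I e (l * l') (d * d') := by
  rw [dD, dD, dD, b3_mul]
  simp [sc_mul, midM_mul, mul_comm]

theorem dD_one : dD I e 1 1 = 1 := by simp [dD, sc_one, midM_one, b3_one]

theorem dD_form (l d : Fˣ) : dag I (dD I e l d) * Φ * dD I e l d = Φ := by
  refine upper_rel.2 ⟨?_, midM_unit d, by simp [dag_zero], by simp [dag_zero]⟩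
  rw [dag_sc, sc_mul, mul_inv_cancel₀ (σ_ne I l.ne_zero), sc_one]

variable (I) in
/-- The automorphism induced by a diagonal similitude. -/
def sig (l d : Fˣ) : ↥(SUh I 1 e) →* ↥(SUh I 1 e) where
  toFun y := mk (dD I e l d * mat y * dD I e l⁻¹ d⁻¹)
    (by
      rw [Matrix.det_mul_right_comm, dD_mul, mul_inv_cancel, mul_inv_cancel, dD_one, Matrix.det_mul, Matrix.det_one,
        one_mul]
      exact y.1.2)
    (by
      rw [dag_mul, dag_mul]
      calc _ = dag I (dD I e l⁻¹ d⁻¹) * (dag I (mat y) * (dag I (dD I e l d) * Φ * dD I e l d) * mat y) *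
            dD I e l⁻¹ d⁻¹ := by simp only [Matrix.mul_assoc]
        _ = _ := by
          rw [dD_form, show dag I (mat y) * Φ * mat y = Φ from y.2, dD_form])
  map_one' := ext_mat (by
    rw [mat_mk, mat_one, Matrix.mul_one, dD_mul, mul_inv_cancel, mul_inv_cancel, dD_one])
  map_mul' y z := ext_mat (by
    show dD I e l d * (mat y * mat z) * dD I e l⁻¹ d⁻¹ =
      (dD I e l d * mat y * dD I e l⁻¹ d⁻¹) * (dD I e l d * mat z * dD I e l⁻¹ d⁻¹)
    -- dD I e l d * (mat y * mat z) * dD I e l⁻¹ d⁻¹ = _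
    have : dD I e l⁻¹ d⁻¹ * dD I e l d = 1 := by rw [dD_mul, inv_mul_cancel, inv_mul_cancel, dD_one]
    calc _ = dD I e l d * mat y * (dD I e l⁻¹ d⁻¹ * dD I e l d) * mat z * dD I e l⁻¹ d⁻¹ := by
          rw [this]; simp only [Matrix.mul_assoc, Matrix.mul_one, Matrix.one_mul]
      _ = _ := by simp only [Matrix.mul_assoc])

theorem mat_sig (l d : Fˣ) (y : ↥(SUh I 1 e)) :
    mat (sig I l d y) = dD I e l d * mat y * dD I e l⁻¹ d⁻¹ := rfl

theorem sig_uz (l d : Fˣ) {a : Fin e → F} {s : F} (h : Rel I a s) :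
    ∃ h', sig I l d (uz a s h) = uz (((l : F) * chi I d) • a) ((l : F) * I.σ (l : F) * s) h' := by
  have h' : Rel I (((l : F) * chi I d) • a) ((l : F) * I.σ (l : F) * s) := by
    have := (h.unit (c := (chi I d : F)) (by rw [σ_chi, mul_inv_cancel₀ (Units.ne_zero _)])).smul (l : F)
    rwa [smul_smul] at this
  refine ⟨h', ext_mat ?_⟩
  rw [mat_sig, mat_uz, mat_uz, dD, dD, b3_mul, b3_mul]
  have hl := l.ne_zero
  have hσ := σ_ne I hl
  have hχ : (chi I d : F) ≠ 0 := Units.ne_zero _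
  simp only [Matrix.mul_zero, Matrix.zero_mul, add_zero, zero_add, Matrix.mul_one, ← midM_mul, mul_inv_cancel,
    midM_one, sc_mul]
  congr 1
  all_goals
    ext i j
    simp [Matrix.mul_apply, midM, dag_apply, Matrix.one_apply, σ_chi, Fin.sum_univ_one]
    try field_simp
    try (exact Subsingleton.elim _ _)

theorem sig_wq (he : e ≤ 1) (l d : Fˣ) :
    sig I l d (wq : ↥(SUh I 1 e)) = t1 he ⟨l * sU I l, fun _ => by simp [I.invol, mul_comm]⟩ * wq := by
  apply ext_mat
  rw [mat_sig, mat_mul, mat_t1, mat_wq, dD, dD, b3_mul, b3_mul, b3_mul]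
  have hfix : I.σ (((l * sU I l : Fˣ)) : F) = ((l * sU I l : Fˣ) : F) := by simp [I.invol, mul_comm]
  simp [sc_mul, ← midM_mul, midM_one, midM, chi_of_fix I hfix, I.invol]
  congr 2 <;> ring_nf

end Cfsg.Agent.H81.SUPres
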