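import Cfsg.Agent.H81.SUPres.Basic

/-!
# The unipotent radical
-/

set_option autoImplicit false
set_option linter.unusedSectionVars false
set_option maxHeartbeats 1000000

namespace Cfsg.Agent.H81.SUPres

open Equiv Matrix Cfsg.Agent.H58.PSUFusion Cfsg.Agent.H64.SLCover
open Cfsg.Agent.H81.SpPres (ap ap_mul ap_one ap_add ap_smul pm pm_single pm_inv pm_mul dg dg_single xg xg_single
  det_dg det_xg gl_ext slPart toGL_slPart)
open scoped MatrixGroups

variable {F : Type*} [Field F] {I : Cfsg.Agent.H58.PSUFusion.Inv F} [Finite F] {e : ℕ}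
variable {G : Type*} [Group G] {M : ℕ}

local notation "Vn" => (Fin (M + 2) → F)
local notation "Ln" => Lev I (M + 2) e

/-- The product of commuting closures. -/
theorem mem_closure_union {A B : Set G} (h : ∀ a ∈ A, ∀ b ∈ B, Commute a b) {x : G}
    (hx : x ∈ Subgroup.closure (A ∪ B)) :
    ∃ a ∈ Subgroup.closure A, ∃ b ∈ Subgroup.closure B, x = a * b := by
  have hc : ∀ a ∈ Subgroup.closure A, ∀ b ∈ Subgroup.closure B, Commute a b := by
    have h1 : Subgroup.closure B ≤ Subgroup.centralizer A := by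
      rw [Subgroup.closure_le]
      exact fun b hb => Subgroup.mem_centralizer_iff.2 fun a ha => h a ha b hb
    intro a ha b hb
    have h2 : Subgroup.closure A ≤ Subgroup.centralizer {b} := by
      rw [Subgroup.closure_le]
      intro a' ha'
      refine Subgroup.mem_centralizer_iff.2 ?_
      rintro z rfl
      exact (Subgroup.mem_centralizer_iff.1 (h1 hb) a' ha').symm
    exact ((Subgroup.mem_centralizer_iff.1 (h2 ha)) b rfl).symm
  induction hx using Subgroup.closure_induction with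
  | mem x hx =>
    rcases hx with hx | hx
    · exact ⟨x, Subgroup.subset_closure hx, 1, one_mem _, (mul_one x).symm⟩
    · exact ⟨1, one_mem _, x, Subgroup.subset_closure hx, (one_mul x).symm⟩
  | one => exact ⟨1, one_mem _, 1, one_mem _, (one_mul 1).symm⟩
  | mul x y _ _ hx hy =>
    obtain ⟨a, ha, b, hb, rfl⟩ := hx
    obtain ⟨a', ha', b', hb', rfl⟩ := hy
    refine ⟨a * a', mul_mem ha ha', b * b', mul_mem hb hb', ?_⟩
    calc a * b * (a' * b') = a * (b * a') * b' := by group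
      _ = _ := by rw [← (hc a' ha' b hb).eq]; group
  | inv x _ hx =>
    obtain ⟨a, ha, b, hb, rfl⟩ := hx
    exact ⟨a⁻¹, inv_mem ha, b⁻¹, inv_mem hb, by rw [(hc a ha b hb).eq, _root_.mul_inv_rev]⟩

/-- The zero parameter. -/
def UP.zero : UP I e := ⟨(0, 0), Rel.zero⟩

/-- The inverse parameter. -/
def UP.inv (p : UP I e) : UP I e := ⟨(-p.1.1, I.σ p.1.2), p.2.inv⟩

theorem UP.mu_inv (p : UP I e) : p.mu p.inv = UP.zero := by
  refine Subtype.ext (Prod.ext (add_neg_cancel _) ?_)
  show p.1.2 + I.σ p.1.2 - ip I p.1.1 (-p.1.1) = 0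
  have h : p.1.2 + I.σ p.1.2 + ip I p.1.1 p.1.1 = 0 := p.2
  have e1 : ip I p.1.1 (-p.1.1) = -ip I p.1.1 p.1.1 := by simp [ip]
  rw [e1, sub_neg_eq_add, h]

theorem UP.mu_long (p : UP I e) (t : UP I e) (ht : t.1.1 = 0) :
    p.mu t = ⟨(p.1.1, p.1.2 + t.1.2), by
      have h := (p.mu t).2; simpa [UP.mu, ht, ip_zero_right] using h⟩ :=
  Subtype.ext (Prod.ext (by simp [UP.mu, ht]) (by simp [UP.mu, ht, ip_zero_right]))

theorem UP.exists_long {p q : UP I e} (h : p.1.1 = q.1.1) : ∃ t : UP I e, t.1.1 = 0 ∧ p = q.mu t := by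
  have hs : p.1.2 - q.1.2 + I.σ (p.1.2 - q.1.2) = 0 := by
    have h1 : p.1.2 + I.σ p.1.2 + ip I p.1.1 p.1.1 = 0 := p.2
    have h2 : q.1.2 + I.σ q.1.2 + ip I q.1.1 q.1.1 = 0 := q.2
    rw [h] at h1
    rw [map_sub]
    linear_combination h1 - h2
  refine ⟨UP.lo _ hs, rfl, ?_⟩
  rw [UP.mu_long _ _ rfl]
  exact Subtype.ext (Prod.ext h (by simp [UP.lo]))

variable (I e M) in
/-- The elements of the target given by two blocks. -/
def Rad : Subgroup ↥(SUh I (M + 2) e) where
  carrier := {g | ∃ a S h, g = nE a S h}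
  one_mem' := ⟨0, 0, rel_zero, nE_zero.symm⟩
  mul_mem' := by
    rintro _ _ ⟨a, S, h, rfl⟩ ⟨b, T, k, rfl⟩
    exact ⟨_, _, _, nE_mul h k⟩
  inv_mem' := by
    rintro _ ⟨a, S, h, rfl⟩
    exact ⟨_, _, _, nE_inv h⟩

variable (I e M) in
/-- The elements of the target with a vanishing row. -/
def RadRow (l : Fin (M + 2)) : Subgroup ↥(SUh I (M + 2) e) where
  carrier := {g | ∃ a S h, g = nE a S h ∧ a l = 0}
  one_mem' := ⟨0, 0, rel_zero, nE_zero.symm, rfl⟩
  mul_mem' := by
    rintro _ _ ⟨a, S, h, rfl, ha⟩ ⟨b, T, k, rfl, hb⟩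
    exact ⟨_, _, _, nE_mul h k, by show a l + b l = 0; rw [ha, hb, add_zero]⟩
  inv_mem' := by
    rintro _ ⟨a, S, h, rfl, ha⟩
    exact ⟨_, _, _, nE_inv h, by show -(a l) = 0; rw [ha, neg_zero]⟩

variable (I e M) in
/-- The elements of the target with vanishing short part and entry. -/
def RadPos (i j : Fin (M + 2)) : Subgroup ↥(SUh I (M + 2) e) where
  carrier := {g | ∃ S h, g = nE 0 S h ∧ S i j = 0 ∧ S j i = 0}
  one_mem' := ⟨0, rel_zero, nE_zero.symm, rfl, rfl⟩
  mul_mem' := by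
    rintro _ _ ⟨S, h, rfl, hS, hS'⟩ ⟨T, k, rfl, hT, hT'⟩
    refine ⟨S + T, ?_, (nE_mul h k).trans (nE_congr (add_zero _) (by simp)), by simp [hS, hT],
      by simp [hS', hT']⟩
    have := nE_rel_mul h k
    simpa using this
  inv_mem' := by
    rintro _ ⟨S, h, rfl, hS, hS'⟩
    refine ⟨dag I S, ?_, (nE_inv h).trans (nE_congr neg_zero rfl), by simp [dag_apply, hS'],
      by simp [dag_apply, hS]⟩
    simpa using nE_rel_inv h

theorem nE_long {a : Matrix (Fin (M + 2)) (Fin e) F} {S : Matrix (Fin (M + 2)) (Fin (M + 2)) F}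
    {h : S + dag I S + a * dag I a = 0} (ha : a = 0) : ∃ h', nE a S h = nE 0 S h' := by
  subst ha; exact ⟨h, rfl⟩

theorem tv_single (l : Fin (M + 2)) {a : Fin e → F} {s : F} (h : Rel I a s) :
    blk02 (mat (tv I (Pi.single l 1) a s h)) = Matrix.single l l s ∧
      blk01 (mat (tv I (Pi.single l 1) a s h)) = Matrix.vecMulVec (Pi.single l 1) a := by
  refine ⟨?_, rfl⟩
  rw [tv, mat_nE, blk02_b3]
  ext i j
  simp [Matrix.vecMulVec_apply, Matrix.single, Pi.single_apply, apply_ite I.σ]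
  grind

namespace SuBase

variable (B : SuBase G I e M)

variable {B} (R : B.Rels)

include R

omit R in
/-- The relation between the root elements at two coordinates. -/
def Mix {B : SuBase G I e M} (R : B.Rels) : Prop :=
  ∀ (c : F) (p : UP I e), ∃ x, B.T ((Pi.single 0 1 : Vn) + c • Pi.single 1 1) p =
    B.T (Pi.single 0 1 : Vn) p * B.T (Pi.single 1 1 : Vn) (p.sc c) * oh R 1 0 x

theorem T_zero_param (v : Vn) : B.T v UP.zero = 1 := by
  have h := T_mu R v (UP.zero : UP I e) UP.zero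
  rw [show (UP.zero : UP I e).mu UP.zero = UP.zero from
    Subtype.ext (Prod.ext (by simp [UP.mu, UP.zero]) (by simp [UP.mu, UP.zero, ip_zero_left]))] at h
  exact mul_eq_right.mp h

theorem T_inv (v : Vn) (p : UP I e) : B.T v p.inv = (B.T v p)⁻¹ := by
  refine eq_inv_of_mul_eq_one_right ?_
  rw [T_mu R, UP.mu_inv, T_zero_param R]

theorem T_sc_zero (v : Vn) (p : UP I e) : B.T v (p.sc 0) = 1 := by
  rw [show p.sc 0 = UP.zero from Subtype.ext (Prod.ext (by simp [UP.sc, UP.zero]) (by simp [UP.sc, UP.zero]))]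
  exact T_zero_param R v

theorem oh_zero (j k : Fin (M + 2)) : oh R j k 0 = 1 := by
  have h := oh_add R j k 0 0
  rw [add_zero] at h
  exact mul_eq_right.mp h.symm

theorem T_plane_mem {S : Subgroup G} {j k : Fin (M + 2)} (hj : ∀ p, B.T (Pi.single j 1 : Vn) p ∈ S)
    (hk : ∀ (c : F) p, B.T ((Pi.single k 1 : Vn) + c • Pi.single j 1) p ∈ S) (α β : F) (p : UP I e) :
    B.T (α • (Pi.single k 1 : Vn) + β • Pi.single j 1) p ∈ S := by
  rcases eq_or_ne α 0 with rfl | hα
  · rw [zero_smul, zero_add]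
    rcases eq_or_ne β 0 with rfl | hβ
    · simp [SuBase.T]
    · rw [T_sc R hβ]; exact hj _
  · rw [show α • (Pi.single k 1 : Vn) + β • Pi.single j 1 = α • (Pi.single k 1 + (β / α) • Pi.single j 1) by
      rw [smul_add, smul_smul, mul_div_cancel₀ _ hα], T_sc R hα]
    exact hk _ _

variable (hM : Mix R)
include hM

theorem mix_at {j k : Fin (M + 2)} (h : j ≠ k) (c : F) (p : UP I e) :
    B.T (Pi.single k 1 + c • Pi.single j 1) p =
      B.T (Pi.single k 1) p * B.T (Pi.single j 1) (p.sc c) * oh R j k (c * p.1.2) := by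
  have h01 : (1 : Fin (M + 2)) ≠ 0 := by simp
  obtain ⟨σ, h0, h1⟩ := exists_perm h.symm
  obtain ⟨x, hx⟩ := hM c p
  have e1 := congrArg (fun z => Xi R (pq I σ) * z * (Xi R (pq I σ))⁻¹) hx
  have el : ∀ i, ap (((pq I σ : Ln)) : GL (Fin (M + 2)) F) (Pi.single i 1) = Pi.single (σ i) 1 := fun i => by
    rw [coe_pq, pm_single]
  have tc : ∀ v q, Xi R (pq I σ) * B.T v q * (Xi R (pq I σ))⁻¹ = B.T (ap (((pq I σ : Ln)) : GL (Fin (M + 2)) F) v) q :=
    fun v q => by rw [T_conj R, UP.tw_of_chi (chi_pq σ)]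
  have e2 : B.T (Pi.single k 1 + c • Pi.single j 1) p =
      B.T (Pi.single k 1) p * B.T (Pi.single j 1) (p.sc c) * oh R j k x := by
    have : ∀ a b d w : G, w * (a * b * d) * w⁻¹ = w * a * w⁻¹ * (w * b * w⁻¹) * (w * d * w⁻¹) := fun a b d w => by
      group
    simp only [this, tc, oh_pm R σ h01, ap_add, ap_smul, el, h0, h1] at e1
    exact e1
  suffices hxy : x = c * p.1.2 by rw [e2, hxy]
  have e3 := congrArg B.f e2
  obtain ⟨g1, e4⟩ := f_T R (Pi.single k 1 + c • Pi.single j 1) p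
  obtain ⟨g2, e5⟩ := f_T R (Pi.single k 1) p
  obtain ⟨g3, e6⟩ := f_T R (Pi.single j 1) (p.sc c)
  rw [map_mul, map_mul, f_oh R h, e4, e5, e6, tv, tv, tv, nE_mul, nE_mul] at e3
  have e7 := congrFun (congrFun (nE_inj e3).2 j) k
  simp [Matrix.vecMulVec_apply, Matrix.mul_apply, dag_apply, pairS, h, h.symm, Matrix.single, UP.sc] at e7
  linear_combination -e7

theorem oh_long {j k : Fin (M + 2)} (h : j ≠ k) (x : F) :
    oh R j k x = (B.T (Pi.single j 1) ((UP.lo (I := I) (e := e) I.ξ I.ξ_trace).sc (x / I.ξ)))⁻¹ *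
      (B.T (Pi.single k 1) (UP.lo I.ξ I.ξ_trace))⁻¹ *
      B.T (Pi.single k 1 + (x / I.ξ) • Pi.single j 1) (UP.lo I.ξ I.ξ_trace) := by
  rw [mix_at R hM h, show ((UP.lo (I := I) (e := e) I.ξ I.ξ_trace).1.2) = I.ξ from rfl,
    div_mul_cancel₀ _ I.ξ_ne]
  group

/-- The subgroup generated by all long root elements commutes with all root elements. -/
theorem oh_central {j k : Fin (M + 2)} (h : j ≠ k) (x : F) (w : Vn) (p : UP I e) :
    Commute (oh R j k x) (B.T w p) := by
  have hl : ((UP.lo (I := I) (e := e) I.ξ I.ξ_trace)).1.1 = 0 := rfl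
  rw [oh_long R hM h]
  exact (((T_long_commute R (UP.long_sc hl _) _ _ _).inv_left).mul_left
    (T_long_commute R hl _ _ _).inv_left).mul_left (T_long_commute R hl _ _ _)

theorem oh_comm {j k j' k' : Fin (M + 2)} (h : j ≠ k) (h' : j' ≠ k') (x y : F) :
    Commute (oh R j k x) (oh R j' k' y) := by
  rw [oh_long R hM h' y]
  exact (((oh_central R hM h x _ _).inv_right).mul_right (oh_central R hM h x _ _).inv_right).mul_right
    (oh_central R hM h x _ _)

theorem oh_symm {j k : Fin (M + 2)} (h : j ≠ k) (x : F) : oh R k j (-I.σ x) = oh R j k x := by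
  rcases eq_or_ne x 0 with rfl | hx
  · rw [map_zero, neg_zero, oh_zero, oh_zero]
  have hξ := I.ξ_ne
  set c := x / I.ξ
  have hc : c ≠ 0 := div_ne_zero hx hξ
  let p : UP I e := UP.lo I.ξ I.ξ_trace
  have e1 := mix_at R hM h c p
  have e2 := mix_at R hM h.symm c⁻¹ (p.sc c)
  rw [UP.sc_sc, inv_mul_cancel₀ hc, UP.sc_one] at e2
  have e3 : B.T (Pi.single j 1 + c⁻¹ • Pi.single k 1) (p.sc c) = B.T (Pi.single k 1 + c • Pi.single j 1) p := by
    rw [← T_sc R hc, smul_add, smul_smul, mul_inv_cancel₀ hc, one_smul, add_comm]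
  rw [e3, e1, (T_long_commute R (show p.1.1 = 0 from rfl) _ _ _).eq] at e2
  have e4 := mul_left_cancel e2
  have e5 : c * p.1.2 = x := div_mul_cancel₀ _ hξ
  have e6 : c⁻¹ * (p.sc c).1.2 = -I.σ x := by
    show c⁻¹ * (c * I.σ c * I.ξ) = _
    rw [show c⁻¹ * (c * I.σ c * I.ξ) = I.σ c * I.ξ by field_simp, map_div₀, σ_ξ]
    field_simp
  rw [e5, e6] at e4
  exact e4.symm

omit hM in
/-- The unipotent radical. -/
def U : Subgroup G := Subgroup.closure
  ({x | ∃ l p, x = B.T (Pi.single l 1) p} ∪ {x | ∃ j k t, j ≠ k ∧ x = oh R j k t})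

omit hM in
theorem T_single_mem (l : Fin (M + 2)) (p : UP I e) : B.T (Pi.single l 1) p ∈ U R :=
  Subgroup.subset_closure (Or.inl ⟨l, p, rfl⟩)

omit hM in
theorem oh_mem {j k : Fin (M + 2)} (h : j ≠ k) (t : F) : oh R j k t ∈ U R :=
  Subgroup.subset_closure (Or.inr ⟨j, k, t, h, rfl⟩)

theorem T_two_mem {j k : Fin (M + 2)} (h : j ≠ k) (α β : F) (p : UP I e) :
    B.T (α • Pi.single k 1 + β • Pi.single j 1) p ∈ U R :=
  T_plane_mem R (fun q => T_single_mem R j q) (fun c q => by
    rw [mix_at R hM h]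
    exact mul_mem (mul_mem (T_single_mem R _ _) (T_single_mem R _ _)) (oh_mem R h _)) α β p

theorem conj_oh_two {A : Ln} {j k : Fin (M + 2)} (h : j ≠ k)
    (hA : ∀ α β : F, ∃ α' β' : F, ap (A : GL (Fin (M + 2)) F) (α • Pi.single k 1 + β • Pi.single j 1) =
      α' • Pi.single k 1 + β' • Pi.single j 1) (t : F) :
    Xi R A * oh R j k t * (Xi R A)⁻¹ ∈ U R := by
  have key : ∀ α β : F, ∀ p, Xi R A * B.T (α • Pi.single k 1 + β • Pi.single j 1) p * (Xi R A)⁻¹ ∈ U R := by
    intro α β p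
    obtain ⟨α', β', e1⟩ := hA α β
    rw [T_conj R, e1]
    exact T_two_mem R hM h _ _ _
  have k1 := fun p => key 0 1 p
  have k2 := fun p => key 1 0 p
  have k3 := fun c p => key 1 c p
  simp only [zero_smul, zero_add, add_zero, one_smul] at k1 k2 k3
  rw [oh_long R hM h]
  have := mul_mem (mul_mem (inv_mem (k1 ((UP.lo (I := I) (e := e) I.ξ I.ξ_trace).sc (t / I.ξ))))
    (inv_mem (k2 (UP.lo I.ξ I.ξ_trace)))) (k3 (t / I.ξ) (UP.lo I.ξ I.ξ_trace))
  convert this using 1
  group

theorem xq_U {i j : Fin (M + 2)} (hij : i ≠ j) (a : F) {x : G} (hx : x ∈ U R) :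
    Xi R (xq I i j a) * x * (Xi R (xq I i j a))⁻¹ ∈ U R := by
  refine (Subgroup.closure_le ((U R).comap (MulAut.conj (Xi R (xq I i j a))).toMonoidHom)).2 ?_ hx
  rintro _ (⟨l, p, rfl⟩ | ⟨u, v, t, huv, rfl⟩)
  · show _ * _ * _ ∈ U R
    rw [T_conj R, coe_xq, xg_single hij]
    split_ifs with hl
    · have := T_two_mem R hM hij 1 a (p.tw (dt (xq I i j a : Ln)))
      rw [one_smul] at this
      exact this
    · exact T_single_mem R _ _
  · show _ * _ * _ ∈ U R
    have main : ∀ u v : Fin (M + 2), ∀ t, u ≠ v → i ≠ v → j ≠ v →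
        Xi R (xq I i j a) * oh R u v t * (Xi R (xq I i j a))⁻¹ ∈ U R := by
      intro u v t huv hiv hjv
      have hc : Commute (Xi R (xq I i j a)) (wk R v) := Lk_xq R hij hiv hjv a _
      rw [show Xi R (xq I i j a) * oh R u v t * (Xi R (xq I i j a))⁻¹ =
        (Xi R (xq I i j a) * wk R v) * Xi R (xq I u v (-t / I.ξ)) * (Xi R (xq I i j a) * wk R v)⁻¹ by
        rw [oh]; group, hc.eq, show ∀ w y z : G, w * y * z * (w * y)⁻¹ = w * (y * z * y⁻¹) * w⁻¹ from
          fun w y z => by group]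
      rw [← map_inv (Xi R), ← map_mul (Xi R), ← map_mul (Xi R)]
      by_cases hju : j = u
      · subst hju
        have e1 : (xq I i j a : Ln) * xq I j v (-t / I.ξ) * (xq I i j a)⁻¹ =
            xq I i v (-(a * t) / I.ξ) * xq I j v (-t / I.ξ) := by
          apply Subtype.ext
          have hb := congrArg (Matrix.SpecialLinearGroup.toGL (n := Fin (M + 2)) (R := F))
            (rx_bracket hij huv hiv a (-t / I.ξ))
          rw [map_commutatorElement, commutatorElement_def] at hb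
          rw [Subgroup.coe_mul, Subgroup.coe_mul, Subgroup.coe_mul, Subgroup.coe_inv, coe_xq, coe_xq, coe_xq,
            show -(a * t) / I.ξ = a * (-t / I.ξ) by ring]
          simp only [xg] at hb ⊢
          rw [← hb]
          group
        rw [e1, map_mul]
        have := mul_mem (oh_mem R hiv (a * t)) (oh_mem R huv t)
        convert this using 1
        simp only [oh]
        group
      · have e1 : (xq I i j a : Ln) * xq I u v (-t / I.ξ) * (xq I i j a)⁻¹ = xq I u v (-t / I.ξ) := by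
          rw [mul_inv_eq_iff_eq_mul]
          apply Subtype.ext
          rw [Subgroup.coe_mul, Subgroup.coe_mul, coe_xq, coe_xq]
          refine gl_ext fun b => ?_
          rw [ap_mul, ap_mul, xg_single huv, xg_single hij]
          by_cases hb : b = v
          · subst hb
            rw [if_pos rfl, if_neg hjv.symm, ap_add, ap_smul, xg_single hij, xg_single huv, xg_single hij,
              if_neg hjv.symm, if_pos rfl, if_neg (Ne.symm hju)]
          · rw [if_neg hb]
            by_cases hb' : b = j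
            · subst hb'
              rw [xg_single hij, if_pos rfl, ap_add, ap_smul, xg_single huv, xg_single huv, if_neg hb, if_neg hiv]
            · rw [xg_single hij, if_neg hb', xg_single huv, if_neg hb]
        rw [e1]
        exact oh_mem R huv t
    by_cases hv : i ≠ v ∧ j ≠ v
    · exact main u v t huv hv.1 hv.2
    by_cases hu : i ≠ u ∧ j ≠ u
    · rw [← oh_symm R hM huv t]
      exact main v u _ huv.symm hu.1 hu.2
    refine conj_oh_two R hM huv (fun α β => ?_) t
    rw [ap_add, ap_smul, ap_smul, coe_xq, xg_single hij, xg_single hij]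
    rw [not_and_or, not_ne_iff, not_ne_iff] at hv hu
    rcases hv with rfl | rfl <;> rcases hu with rfl | rfl
    · exact absurd rfl huv
    · exact ⟨α + β * a, β, by rw [if_neg huv.symm, if_pos rfl]; module⟩
    · exact ⟨α, β + α * a, by rw [if_pos rfl, if_neg huv]; module⟩
    · exact absurd rfl huv

theorem dq_U (c : Dl I e) {x : G} (hx : x ∈ U R) :
    Xi R (dq I 0 c) * x * (Xi R (dq I 0 c))⁻¹ ∈ U R := by
  refine (Subgroup.closure_le ((U R).comap (MulAut.conj (Xi R (dq I 0 c))).toMonoidHom)).2 ?_ hx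
  rintro _ (⟨l, p, rfl⟩ | ⟨u, v, t, huv, rfl⟩)
  · show _ * _ * _ ∈ U R
    rw [T_conj R, coe_dq, dg_single]
    split_ifs
    · rw [T_sc R (Units.ne_zero _)]; exact T_single_mem R _ _
    · rw [one_smul]; exact T_single_mem R _ _
  · refine conj_oh_two R hM huv (fun α β => ?_) t
    rw [ap_add, ap_smul, ap_smul, coe_dq, dg_single, dg_single, smul_smul, smul_smul]
    exact ⟨_, _, rfl⟩

theorem Xi_U (A : Ln) {x : G} (hx : x ∈ U R) : Xi R A * x * (Xi R A)⁻¹ ∈ U R := by
  have hS : ∀ S : Matrix.SpecialLinearGroup (Fin (M + 2)) F, ∀ x ∈ U R,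
      Xi R (sl S) * x * (Xi R (sl S))⁻¹ ∈ U R := by
    intro S
    let K : Subgroup (Matrix.SpecialLinearGroup (Fin (M + 2)) F) :=
      (Subgroup.normalizer (U R : Set G)).comap B.Φ
    have hK : K = ⊤ := Cfsg.Agent.H1.SL_eq_top_of_transvection_mem K (fun i j hij a => by
      rw [← rx_of_ne hij]
      show B.Φ (rx i j a) ∈ Subgroup.normalizer (U R : Set G)
      rw [← Xi_xq R, Subgroup.mem_normalizer_iff]
      intro y
      refine ⟨fun hy => xq_U R hM hij a hy, fun hy => ?_⟩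
      have := xq_U R hM hij (-a) hy
      have e1 : (xq I i j (-a) : Ln) = (xq I i j a)⁻¹ := by
        rw [eq_inv_iff_mul_eq_one]
        apply Subtype.ext
        rw [Subgroup.coe_mul, coe_xq, coe_xq, ← SpPres.xg_add, neg_add_cancel, SpPres.xg_zero]; rfl
      rw [e1, map_inv] at this
      convert this using 1
      group)
    intro x hx
    have : S ∈ K := by rw [hK]; trivial
    rw [Xi_sl R]
    exact (Subgroup.mem_normalizer_iff.1 this x).1 hx
  have hA : A = sl (slPart (A : GL (Fin (M + 2)) F)) * dq I 0 ⟨dt A, A.2⟩ := Subtype.ext (by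
    rw [Subgroup.coe_mul, coe_dq]
    show _ = Matrix.SpecialLinearGroup.toGL (slPart (A : GL (Fin (M + 2)) F)) * _
    rw [toGL_slPart]
    exact (inv_mul_cancel_right _ _).symm)
  rw [hA, map_mul]
  have := hS (slPart (A : GL (Fin (M + 2)) F)) _ (dq_U R hM ⟨dt A, A.2⟩ hx)
  convert this using 1
  group

theorem T_mem (v : Vn) (p : UP I e) : B.T v p ∈ U R := by
  rcases eq_or_ne v 0 with rfl | hv
  · simp [SuBase.T]
  · have := Xi_U R hM (sl (repS v)) (T_single_mem R 0 p)
    rw [T_conj R, show ((sl (repS v) : Ln) : GL (Fin (M + 2)) F) =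
      Matrix.SpecialLinearGroup.toGL (repS v) from rfl, repS_spec hv, dt_sl, UP.tw_one] at this
    exact this

/-! ### Faithfulness -/

omit hM in
/-- The central part. -/
def Z : Subgroup G := Subgroup.closure
  ({x | ∃ l p, p.1.1 = 0 ∧ x = B.T (Pi.single l 1) p} ∪ {x | ∃ j k t, j ≠ k ∧ x = oh R j k t})

omit hM in
/-- The subgroup of the short root elements. -/
def Zo : Subgroup G := Subgroup.closure {x | ∃ j k t, j ≠ k ∧ x = oh R j k t}

omit hM in
theorem Zo_le : Zo R ≤ Z R := Subgroup.closure_mono Set.subset_union_right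

theorem Z_commute {z : G} (hz : z ∈ Z R) (v : Vn) (p : UP I e) : Commute z (B.T v p) := by
  induction hz using Subgroup.closure_induction with
  | mem x hx =>
    rcases hx with ⟨l, q, hq, rfl⟩ | ⟨j, k, t, h, rfl⟩
    · exact T_long_commute R hq _ _ _
    · exact oh_central R hM h t _ _
  | one => exact Commute.one_left _
  | mul x y _ _ hx hy => exact hx.mul_left hy
  | inv x _ hx => exact hx.inv_left

theorem commutator_Z {j k : Fin (M + 2)} (h : j ≠ k) (p q : UP I e) :
    ∃ z ∈ Zo R, B.T (Pi.single j 1) q * B.T (Pi.single k 1) p =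
      B.T (Pi.single k 1) p * B.T (Pi.single j 1) q * z := by
  by_cases hp : p.1.1 = 0
  · exact ⟨1, one_mem _, by rw [mul_one, (T_long_commute R hp _ _ _).eq]⟩
  obtain ⟨c, hc⟩ := exists_smul B.he hp q.1.1
  rcases eq_or_ne c 0 with rfl | hc0
  · rw [zero_smul] at hc
    exact ⟨1, one_mem _, by rw [mul_one, (T_long_commute R hc _ _ _).eq]⟩
  obtain ⟨t, ht, hq⟩ := UP.exists_long (p := q) (q := p.sc c) hc
  have e1 := mix_at R hM h c p
  have e2 := mix_at R hM h.symm c⁻¹ (p.sc c)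
  rw [UP.sc_sc, inv_mul_cancel₀ hc0, UP.sc_one] at e2
  have e3 : B.T (Pi.single j 1 + c⁻¹ • Pi.single k 1) (p.sc c) = B.T (Pi.single k 1 + c • Pi.single j 1) p := by
    rw [← T_sc R hc0, smul_add, smul_smul, mul_inv_cancel₀ hc0, one_smul, add_comm]
  rw [e3, e1] at e2
  refine ⟨oh R j k (c * p.1.2) * (oh R k j (c⁻¹ * (p.sc c).1.2))⁻¹,
    mul_mem (Subgroup.subset_closure ⟨j, k, _, h, rfl⟩)
      (inv_mem (Subgroup.subset_closure ⟨k, j, _, h.symm, rfl⟩)), ?_⟩
  have hl : Commute (B.T (Pi.single j 1) t) (B.T (Pi.single k 1) p) := T_long_commute R ht _ _ _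
  have hl' : Commute (B.T (Pi.single j 1) t)
      (oh R j k (c * p.1.2) * (oh R k j (c⁻¹ * (p.sc c).1.2))⁻¹) :=
    ((oh_central R hM h _ _ _).symm).mul_right ((oh_central R hM h.symm _ _ _).symm).inv_right
  calc B.T (Pi.single j 1) q * B.T (Pi.single k 1) p
      = B.T (Pi.single j 1) (p.sc c) * (B.T (Pi.single j 1) t * B.T (Pi.single k 1) p) := by
        rw [hq, ← T_mu R, mul_assoc]
    _ = B.T (Pi.single j 1) (p.sc c) * B.T (Pi.single k 1) p * B.T (Pi.single j 1) t := by
        rw [hl.eq, mul_assoc]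
    _ = B.T (Pi.single k 1) p * B.T (Pi.single j 1) (p.sc c) *
          ((oh R j k (c * p.1.2) * (oh R k j (c⁻¹ * (p.sc c).1.2))⁻¹) * B.T (Pi.single j 1) t) := by
        rw [eq_mul_inv_of_mul_eq e2.symm]; group
    _ = _ := by rw [← hl'.eq, hq, ← T_mu R]; group

omit hM in
/-- The filtration of the radical. -/
def Us (s : Finset (Fin (M + 2))) : Subgroup G :=
  Subgroup.closure ({x | ∃ l ∈ s, ∃ p, x = B.T (Pi.single l 1) p} ∪ (Z R : Set G))

omit hM in
theorem f_Z_mem {z : G} (hz : z ∈ Z R) : ∀ l, B.f z ∈ RadRow I e M l := by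
  intro l
  refine (Subgroup.closure_le ((RadRow I e M l).comap B.f)).2 ?_ hz
  rintro _ (⟨m, p, hp, rfl⟩ | ⟨j, k, t, h, rfl⟩)
  · obtain ⟨g, e1⟩ := f_T R (Pi.single m 1) p
    refine ⟨_, _, _, e1, ?_⟩
    funext b
    simp [Matrix.vecMulVec_apply, hp]
  · exact ⟨0, _, _, f_oh R h t, rfl⟩

theorem Us_reduce {l : Fin (M + 2)} {s : Finset (Fin (M + 2))} (hl : l ∉ s) {x : G} (hx : x ∈ Us R (insert l s))
    (hf : B.f x = 1) : x ∈ Us R s := by
  have hn : ∀ p, ∀ y ∈ Us R s, B.T (Pi.single l 1) p * y * (B.T (Pi.single l 1) p)⁻¹ ∈ Us R s := by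
    intro p y hy
    refine (Subgroup.closure_le ((Us R s).comap (MulAut.conj (B.T (Pi.single l 1) p)).toMonoidHom)).2 ?_ hy
    rintro _ (⟨m, hm, q, rfl⟩ | hz)
    · show _ * _ * _ ∈ Us R s
      obtain ⟨z, hz', e1⟩ := commutator_Z R hM (show m ≠ l from fun h => hl (h ▸ hm)) p q
      have hz := Zo_le R hz'
      have e2 : B.T (Pi.single l 1) p * B.T (Pi.single m 1) q * (B.T (Pi.single l 1) p)⁻¹ =
          B.T (Pi.single m 1) q * z⁻¹ := by
        rw [mul_inv_eq_iff_eq_mul, mul_assoc _ z⁻¹, ((Z_commute R hM hz _ p).inv_left).eq, ← mul_assoc, e1,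
          mul_inv_cancel_right]
      rw [e2]
      exact mul_mem (Subgroup.subset_closure (Or.inl ⟨m, hm, q, rfl⟩))
        (inv_mem (Subgroup.subset_closure (Or.inr hz)))
    · show _ * _ * _ ∈ Us R s
      rw [← (Z_commute R hM hz _ p).eq, mul_inv_cancel_right]
      exact Subgroup.subset_closure (Or.inr hz)
  let S : Subgroup G :=
    { carrier := {x | ∃ p, ∃ y ∈ Us R s, x = B.T (Pi.single l 1) p * y}
      one_mem' := ⟨UP.zero, 1, one_mem _, by rw [T_zero_param R, one_mul]⟩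
      mul_mem' := by
        rintro _ _ ⟨p, y, hy, rfl⟩ ⟨p', y', hy', rfl⟩
        refine ⟨p.mu p', _, mul_mem (hn p'.inv y hy) hy', ?_⟩
        rw [← T_mu R, T_inv R]; group
      inv_mem' := by
        rintro _ ⟨p, y, hy, rfl⟩
        refine ⟨p.inv, _, hn p y⁻¹ (inv_mem hy), ?_⟩
        rw [T_inv R]; group }
  have hle : Us R (insert l s) ≤ S := by
    rw [Us, Subgroup.closure_le]
    rintro _ (⟨m, hm, q, rfl⟩ | hz)
    · rcases Finset.mem_insert.1 hm with rfl | hm
      · exact ⟨q, 1, one_mem _, (mul_one _).symm⟩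
      · exact ⟨UP.zero, _, Subgroup.subset_closure (Or.inl ⟨m, hm, q, rfl⟩), by
          rw [T_zero_param R, one_mul]⟩
    · exact ⟨UP.zero, _, Subgroup.subset_closure (Or.inr hz), by rw [T_zero_param R, one_mul]⟩
  obtain ⟨p, y, hy, rfl⟩ := hle hx
  have hyr : B.f y ∈ RadRow I e M l := by
    refine (Subgroup.closure_le ((RadRow I e M l).comap B.f)).2 ?_ hy
    rintro _ (⟨m, hm, q, rfl⟩ | hz)
    · obtain ⟨g, e1⟩ := f_T R (Pi.single m 1) q
      refine ⟨_, _, _, e1, ?_⟩
      funext b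
      simp [Matrix.vecMulVec_apply, show l ≠ m from fun h => hl (h ▸ hm)]
    · exact f_Z_mem R hz l
  rw [map_mul, mul_eq_one_iff_eq_inv] at hf
  obtain ⟨a, S', h', e2, ha⟩ := inv_mem hyr
  obtain ⟨g, e1⟩ := f_T R (Pi.single l 1) p
  rw [e1, e2] at hf
  have hp : p.1.1 = 0 := by
    funext b
    have := congrFun (congrFun (nE_inj hf).1 l) b
    rw [ha] at this
    simpa [Matrix.vecMulVec_apply] using this
  exact mul_mem (Subgroup.subset_closure (Or.inr (Subgroup.subset_closure (Or.inl ⟨l, p, hp, rfl⟩)))) hy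

omit hM in
/-- The pieces of the central part. -/
def piece : Fin (M + 2) × Fin (M + 2) → Set G := fun i =>
  {x | (i.1 = i.2 ∧ ∃ p, p.1.1 = 0 ∧ x = B.T (Pi.single i.1 1) p) ∨ (i.1 < i.2 ∧ ∃ t, x = oh R i.1 i.2 t)}

theorem piece_eq {i : Fin (M + 2) × Fin (M + 2)} {a : G} (ha : a ∈ Subgroup.closure (piece R i)) :
    a = 1 ∨ a ∈ piece R i := by
  induction ha using Subgroup.closure_induction with
  | mem x hx => exact Or.inr hx
  | one => exact Or.inl rfl
  | mul x y _ _ hx hy =>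
    rcases hx with rfl | hx
    · simpa using hy
    rcases hy with rfl | hy
    · simpa using Or.inr hx
    right
    rcases hx with ⟨h, p, hp, rfl⟩ | ⟨h, t, rfl⟩ <;> rcases hy with ⟨h', q, hq, rfl⟩ | ⟨h', u, rfl⟩
    · exact Or.inl ⟨h, p.mu q, by simp [UP.mu, hp, hq], T_mu R _ _ _⟩
    · exact absurd h h'.ne
    · exact absurd h' h.ne
    · exact Or.inr ⟨h, t + u, (oh_add R _ _ t u).symm⟩
  | inv x _ hx =>
    rcases hx with rfl | ⟨h, p, hp, rfl⟩ | ⟨h, t, rfl⟩
    · exact Or.inl inv_one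
    · exact Or.inr (Or.inl ⟨h, p.inv, by simp [UP.inv, hp], (T_inv R _ _).symm⟩)
    · refine Or.inr (Or.inr ⟨h, -t, ?_⟩)
      refine inv_eq_of_mul_eq_one_right ?_
      rw [← oh_add R, add_neg_cancel, oh_zero]

theorem piece_commute {i i' : Fin (M + 2) × Fin (M + 2)} {a b : G} (ha : a ∈ piece R i) (hb : b ∈ piece R i') :
    Commute a b := by
  rcases ha with ⟨-, p, hp, rfl⟩ | ⟨h, t, rfl⟩
  · rcases hb with ⟨-, q, -, rfl⟩ | ⟨h', u, rfl⟩
    · exact T_long_commute R hp _ _ _
    · exact (oh_central R hM h'.ne u _ _).symm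
  · rcases hb with ⟨-, q, -, rfl⟩ | ⟨h', u, rfl⟩
    · exact oh_central R hM h.ne t _ _
    · exact oh_comm R hM h.ne h'.ne t u

theorem Z_injective {z : G} (hz : z ∈ Z R) (hf : B.f z = 1) : z = 1 := by
  classical
  suffices h : ∀ (P : Finset (Fin (M + 2) × Fin (M + 2))) (z : G),
      z ∈ Subgroup.closure (⋃ i ∈ P, piece R i) → B.f z = 1 → z = 1 by
    refine h Finset.univ z ?_ hf
    refine (Subgroup.closure_le _).2 ?_ hz
    rintro _ (⟨l, p, hp, rfl⟩ | ⟨j, k, t, hjk, rfl⟩)
    · exact Subgroup.subset_closure (Set.mem_iUnion₂.2 ⟨(l, l), Finset.mem_univ _, Or.inl ⟨rfl, p, hp, rfl⟩⟩)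
    · rcases lt_or_gt_of_ne hjk with hlt | hlt
      · exact Subgroup.subset_closure (Set.mem_iUnion₂.2 ⟨(j, k), Finset.mem_univ _, Or.inr ⟨hlt, t, rfl⟩⟩)
      · rw [← oh_symm R hM hjk]
        exact Subgroup.subset_closure (Set.mem_iUnion₂.2 ⟨(k, j), Finset.mem_univ _, Or.inr ⟨hlt, _, rfl⟩⟩)
  intro P
  induction P using Finset.induction_on with
  | empty =>
    intro z hz _
    simpa using hz
  | @insert i P hiP ih =>
    intro z hz hf
    rw [Finset.set_biUnion_insert] at hz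
    obtain ⟨a, ha, b, hb, rfl⟩ := mem_closure_union (fun a ha b hb => by
      obtain ⟨i', -, hb⟩ := Set.mem_iUnion₂.1 hb
      exact piece_commute R hM ha hb) hz
    rcases piece_eq R hM ha with rfl | ha'
    · rw [one_mul] at hf ⊢; exact ih b hb hf
    suffices ha1 : a = 1 by rw [ha1, one_mul] at hf ⊢; exact ih b hb hf
    have hbr : B.f b ∈ RadPos I e M i.1 i.2 := by
      refine (Subgroup.closure_le ((RadPos I e M i.1 i.2).comap B.f)).2 ?_ hb
      intro x hx
      obtain ⟨i', hi', hx⟩ := Set.mem_iUnion₂.1 hx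
      have hne : i' ≠ i := fun h => hiP (h ▸ hi')
      have hii : i.1 = i.2 ∨ i.1 < i.2 := ha'.imp (·.1) (·.1)
      rcases hx with ⟨h', q, hq, rfl⟩ | ⟨h', u, rfl⟩
      · obtain ⟨g, e1⟩ := f_T R (Pi.single i'.1 1) q
        have z1 : ∀ u v : Fin (M + 2), (u = i.1 ∧ v = i.2 ∨ u = i.2 ∧ v = i.1) →
            blk02 (mat (tv I (Pi.single i'.1 1) q.1.1 q.1.2 g)) u v = 0 := by
          intro u v huv
          rw [(tv_single _ g).1, Matrix.single_apply, if_neg]
          rintro ⟨rfl, rfl⟩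
          apply hne
          rcases huv with ⟨e1, e2⟩ | ⟨e1, e2⟩
          · exact Prod.ext e1 (h'.symm.trans e2)
          · exact Prod.ext e2 (h'.symm.trans e1)
        rw [tv] at e1
        obtain ⟨g', e2⟩ := nE_long (a := Matrix.vecMulVec (Pi.single i'.1 1) q.1.1) (h := _)
          (show Matrix.vecMulVec (Pi.single i'.1 (1 : F)) q.1.1 = 0 by
            ext u v; simp [Matrix.vecMulVec_apply, hq])
        exact ⟨_, g', e1.trans e2, z1 _ _ (Or.inl ⟨rfl, rfl⟩), z1 _ _ (Or.inr ⟨rfl, rfl⟩)⟩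
      · refine ⟨_, _, f_oh R h'.ne u, ?_, ?_⟩ <;>
        · simp only [pairS, Matrix.sub_apply, Matrix.single_apply]
          rw [if_neg, if_neg, sub_zero]
          · rintro ⟨e1, e2⟩
            rcases hii with hii | hii
            · exact h'.ne (by rw [e1, e2, hii])
            · first
                | exact hne (Prod.ext e2 e1)
                | exact absurd h' (by rw [e1, e2]; exact not_lt_of_gt hii)
          · rintro ⟨e1, e2⟩
            rcases hii with hii | hii
            · exact h'.ne (by rw [e1, e2, hii])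
            · first
                | exact hne (Prod.ext e1 e2)
                | exact absurd h' (by rw [e1, e2]; exact not_lt_of_gt hii)
    rw [map_mul, mul_eq_one_iff_eq_inv] at hf
    obtain ⟨S', g', e2, hS, -⟩ := inv_mem hbr
    rw [e2] at hf
    rcases ha' with ⟨h, p, hp, rfl⟩ | ⟨h, t, rfl⟩
    · obtain ⟨g, e1⟩ := f_T R (Pi.single i.1 1) p
      rw [e1] at hf
      have := congrArg (fun x => blk02 (mat x) i.1 i.2) hf
      simp only [(tv_single _ g).1, mat_nE, blk02_b3] at this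
      rw [hS, ← h, Matrix.single_apply_same] at this
      rw [show p = UP.zero from Subtype.ext (Prod.ext hp this)]
      exact T_zero_param R _
    · rw [f_oh R h.ne] at hf
      have := congrFun (congrFun (nE_inj hf).2 i.1) i.2
      rw [hS] at this
      simp [pairS, h.ne, h.ne', Matrix.single] at this
      rw [this]
      exact oh_zero R _ _

theorem U_injective {x : G} (hx : x ∈ U R) (hf : B.f x = 1) : x = 1 := by
  classical
  suffices h : ∀ (s : Finset (Fin (M + 2))), x ∈ Us R s → x ∈ Z R by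
    refine Z_injective R hM (h Finset.univ ?_) hf
    refine (Subgroup.closure_le _).2 ?_ hx
    rintro _ (⟨l, p, rfl⟩ | hoh)
    · exact Subgroup.subset_closure (Or.inl ⟨l, Finset.mem_univ _, p, rfl⟩)
    · exact Subgroup.subset_closure (Or.inr (Subgroup.subset_closure (Or.inr hoh)))
  intro s
  induction s using Finset.induction_on with
  | empty =>
    intro h
    refine (Subgroup.closure_le _).2 ?_ h
    rintro _ (⟨l, hl, -⟩ | hz)
    · exact absurd hl (Finset.notMem_empty _)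
    · exact hz
  | @insert l s hl ih => exact fun h => ih (Us_reduce R hM hl h hf)

end SuBase

end Cfsg.Agent.H81.SUPres
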